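import Cfsg.Agent.Lib.SporRecognition.CosetCert.Tables

/-!
Maximal subgroups from orbit lengths, and extremely primitive coset actions of rank three.
-/

set_option autoImplicit false

namespace CfsgLib.FusionExamples.G2J2

open CfsgLib.SporRecognition.CosetCert (countLab ncard_lab allBelow allBelow_spec field)
open scoped Pointwise

theorem field_one (N i : Nat) : field N 1 i = N / 2 ^ i % 2 := by
  show Nat.land (Nat.shiftRight N (1 * i)) 1 = _
  rw [one_mul, show Nat.shiftRight N i = N >>> i from rfl, Nat.shiftRight_eq_div_pow]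
  exact Nat.and_two_pow_sub_one_eq_mod _ 1

theorem exists_mask : ∀ (c : ℕ) (b : ℕ → Bool), ∃ m < 2 ^ c, ∀ i < c, field m 1 i = if b i then 1 else 0
  | 0, _ => ⟨0, by norm_num, fun i hi => absurd hi (Nat.not_lt_zero i)⟩
  | c + 1, b => by
    obtain ⟨m, hm, h⟩ := exists_mask c fun i => b (i + 1)
    refine ⟨2 * m + (if b 0 then 1 else 0), by rw [pow_succ]; split_ifs <;> omega, fun i hi => ?_⟩
    rw [field_one]
    cases i with
    | zero => cases b 0 <;> simp <;> omega
    | succ i =>
      rw [pow_succ', ← Nat.div_div_eq_div_mul, show (2 * m + (if b 0 then 1 else 0)) / 2 = m by split_ifs <;> omega,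
        ← field_one, h i (by omega)]

/-- No union of classes containing the class of `lab 0` has size a divisor other than `1` and `n`. -/
noncomputable def subsetOK (d c n : Nat) (lab : Nat → Nat) : Bool :=
  allBelow c (Nat.pow 2 c) fun mask =>
    let s := countLab d n (fun p => field mask 1 (lab p)) 1
    bif Nat.beq (field mask 1 (lab 0)) 1 then
      !(Nat.beq (Nat.mod n s) 0) || Nat.beq s 1 || Nat.beq s n
    else true

variable {G : Type*} [Group G]

theorem isCoatom_of_orbits [Finite G] {L : Subgroup G} {n c d : ℕ} (hd : n ≤ 2 ^ d) (hn : 1 < n)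
    (T : Fin n → G) (hT0 : ∀ h : 0 < n, T ⟨0, h⟩ ∈ L) (hcover : ∀ x, ∃ p, ∃ k ∈ L, x = T p * k)
    (hcard : Nat.card G = n * Nat.card L)
    (lab : Nat → Nat) (hlab : ∀ p < n, lab p < c) (root : Nat → Fin n) (ord : Fin n → Fin n)
    (hord : Function.Surjective ord) (htree : ∀ i : Fin n, root (lab (ord i)) = ord i ∨
      ∃ j < i, lab (ord j) = lab (ord i) ∧ ∃ l ∈ L, ∃ k ∈ L, l * T (ord j) = T (ord i) * k)
    (hsub : subsetOK d c n lab = true) : IsCoatom L := by
  classical
  have key : ∀ M : Subgroup G, L ≤ M → M = L ∨ M = ⊤ := by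
    intro M hLM
    have hclass : ∀ i : Fin n, (T (ord i) ∈ M ↔ T (root (lab (ord i))) ∈ M) := by
      intro i
      induction i using WellFoundedLT.induction with
      | _ i ih =>
        rcases htree i with e | ⟨j, hji, hjl, l, hl, k, hk, e⟩
        · rw [e]
        · rw [← hjl, ← ih j hji]
          constructor
          · intro h
            have : T (ord j) = l⁻¹ * (T (ord i) * k) := by rw [← e, inv_mul_cancel_left]
            rw [this]
            exact mul_mem (inv_mem (hLM hl)) (mul_mem h (hLM hk))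
          · intro h
            have : T (ord i) = l * T (ord j) * k⁻¹ := by rw [e, mul_inv_cancel_right]
            rw [this]
            exact mul_mem (mul_mem (hLM hl) h) (inv_mem (hLM hk))
    obtain ⟨mask, hmask, hbit⟩ := exists_mask c fun q => decide (T (root q) ∈ M)
    have hB : ∀ p : Fin n, field mask 1 (lab p) = 1 ↔ T p ∈ M := by
      intro p
      obtain ⟨i, rfl⟩ := hord p
      rw [hclass i, hbit _ (hlab _ (ord i).2)]
      by_cases h : T (root (lab (ord i))) ∈ M <;> simp [h]
    have hcount := ncard_lab (n := n) hd (fun p => field mask 1 (lab p)) 1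
    set B : Set (Fin n) := {p | T p ∈ M} with hBdef
    have hBe : {u : Fin n | (fun p => field mask 1 (lab p)) (u : Nat) = 1} = B := Set.ext fun p => hB p
    rw [hBe] at hcount
    have hbij : Nat.card M = B.ncard * Nat.card L := by
      let f : B × L → M := fun x => ⟨T x.1 * x.2, mul_mem x.1.2 (hLM x.2.2)⟩
      have hsurj : Function.Surjective fun x : Fin n × L => T x.1 * (x.2 : G) := fun g => by
        obtain ⟨p, k, hk, e⟩ := hcover g
        exact ⟨(p, ⟨k, hk⟩), e.symm⟩
      have hinj := ((Nat.bijective_iff_surjective_and_card _).mpr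
        ⟨hsurj, by rw [Nat.card_prod, Nat.card_fin, hcard]⟩).1
      have hf : Function.Bijective f := by
        refine ⟨fun x y e => ?_, fun m => ?_⟩
        · have := @hinj (x.1.1, x.2) (y.1.1, y.2) (congrArg Subtype.val e)
          simp only [Prod.mk.injEq] at this
          exact Prod.ext (Subtype.ext this.1) this.2
        · obtain ⟨p, k, hk, e⟩ := hcover (m : G)
          have hp : T p ∈ M := by
            rw [show T p = (m : G) * k⁻¹ by rw [e, mul_inv_cancel_right]]
            exact mul_mem m.2 (inv_mem (hLM hk))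
          exact ⟨(⟨p, hp⟩, ⟨k, hk⟩), Subtype.ext e.symm⟩
      rw [← Nat.card_congr (Equiv.ofBijective f hf), Nat.card_prod, Nat.card_coe_set_eq]
    have hdvd : B.ncard ∣ n := by
      have := M.card_subgroup_dvd_card
      rw [hbij, hcard] at this
      exact Nat.dvd_of_mul_dvd_mul_right Nat.card_pos this
    have h0 : (⟨0, by omega⟩ : Fin n) ∈ B := hLM (hT0 (by omega))
    have hs := allBelow_spec hsub mask hmask
    rw [show Nat.beq (field mask 1 (lab 0)) 1 = true from Nat.beq_eq.mpr ((hB ⟨0, by omega⟩).mpr h0), cond_true,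
      ← hcount] at hs
    simp only [Bool.or_eq_true, Nat.beq_eq, Bool.not_eq_true'] at hs
    rcases hs with (h | h) | h
    · exact absurd (show Nat.mod n B.ncard = 0 from Nat.mod_eq_zero_of_dvd hdvd) (Nat.ne_of_beq_eq_false h)
    · left
      exact (Subgroup.eq_of_le_of_card_ge hLM (by rw [hbij, h, one_mul])).symm
    · right
      exact Subgroup.eq_top_of_card_eq M (by rw [hbij, h, hcard])
  refine ⟨fun h => ?_, fun M hM => (key M hM.le).resolve_left hM.ne'⟩
  have : Nat.card L = Nat.card G := by rw [h, Subgroup.card_top]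
  rw [hcard] at this
  nlinarith [Nat.card_pos (α := L)]

/-- The intersection of `H` with a conjugate, seen inside `H`. -/
abbrev meet (H : Subgroup G) (x : G) : Subgroup H := (H ⊓ H.map (MulAut.conj x).toMonoidHom).subgroupOf H

theorem mem_meet {H : Subgroup G} {x : G} {h : H} : h ∈ meet H x ↔ x⁻¹ * h * x ∈ H := by
  rw [Subgroup.mem_subgroupOf, Subgroup.mem_inf, Subgroup.mem_map_equiv]
  simp [h.2]

theorem stabilizer_coset (H : Subgroup G) (x : G) :
    MulAction.stabilizer H (QuotientGroup.mk x : G ⧸ H) = meet H x := by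
  ext h
  rw [MulAction.mem_stabilizer_iff, mem_meet]
  show (QuotientGroup.mk ((h : G) * x) : G ⧸ H) = QuotientGroup.mk x ↔ _
  rw [QuotientGroup.eq, mul_inv_rev, ← H.inv_mem_iff]
  simp [mul_assoc]

theorem ncard_orbit_coset (H : Subgroup G) (x : G) :
    (MulAction.orbit H (QuotientGroup.mk x : G ⧸ H)).ncard = (meet H x).index := by
  rw [← stabilizer_coset, MulAction.index_stabilizer]

theorem isCoatom_meet_conj {H : Subgroup G} {x : G} {h k : G} (hh : h ∈ H) (hk : k ∈ H)
    (hx : IsCoatom (meet H x)) : IsCoatom (meet H (h * x * k)) := by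
  let e : H ≃* H := MulAut.conj ⟨h, hh⟩
  have he : meet H (h * x * k) = (meet H x).map e.toMonoidHom := by
    ext a
    rw [Subgroup.mem_map_equiv, mem_meet, mem_meet]
    have : ((e.symm a : H) : G) = h⁻¹ * a * h := by
      show ((⟨h, hh⟩⁻¹ * a * ⟨h, hh⟩ : H) : G) = _
      rfl
    rw [this]
    constructor
    · intro m
      have := H.mul_mem (H.mul_mem hk m) (H.inv_mem hk)
      convert this using 1
      group
    · intro m
      have := H.mul_mem (H.mul_mem (H.inv_mem hk) m) hk
      convert this using 1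
      group
  rw [he]
  exact (OrderIso.isCoatom_iff e.mapSubgroup _).mpr hx

/-- Three double cosets with maximal intersections give an extremely primitive action. -/
theorem extremelyPrimitive [Finite G] {H : Subgroup G} (hidx : H.index = 416) {x₁ x₂ : G}
    (h1 : IsCoatom (meet H x₁)) (h1' : (meet H x₁).index = 100)
    (h2 : IsCoatom (meet H x₂)) (h2' : (meet H x₂).index = 315) :
    IsCoatom H ∧ ∀ x : G, x ∉ H → IsCoatom (meet H x) := by
  have o1 : (MulAction.orbit H (QuotientGroup.mk x₁ : G ⧸ H)).ncard = 100 := by rw [ncard_orbit_coset, h1']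
  have o2 : (MulAction.orbit H (QuotientGroup.mk x₂ : G ⧸ H)).ncard = 315 := by rw [ncard_orbit_coset, h2']
  have o0 : MulAction.orbit H (QuotientGroup.mk 1 : G ⧸ H) = {QuotientGroup.mk 1} := by
    ext q
    constructor
    · rintro ⟨a, rfl⟩
      show (QuotientGroup.mk ((a : G) * 1) : G ⧸ H) = _
      rw [QuotientGroup.eq]; simp
    · rintro rfl
      exact MulAction.mem_orbit_self _
  have hne : ∀ {a b : G ⧸ H}, (MulAction.orbit H a).ncard ≠ (MulAction.orbit H b).ncard →
      Disjoint (MulAction.orbit H a) (MulAction.orbit H b) := fun {a b} h => by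
    rw [Set.disjoint_left]
    intro q qa qb
    exact h (by rw [← MulAction.orbit_eq_iff.mpr qa, ← MulAction.orbit_eq_iff.mpr qb])
  have hd01 := hne (a := (QuotientGroup.mk 1 : G ⧸ H)) (b := QuotientGroup.mk x₁) (by rw [o0, o1]; simp)
  have hd02 := hne (a := (QuotientGroup.mk 1 : G ⧸ H)) (b := QuotientGroup.mk x₂) (by rw [o0, o2]; simp)
  have hd12 := hne (a := (QuotientGroup.mk x₁ : G ⧸ H)) (b := QuotientGroup.mk x₂) (by rw [o1, o2]; simp)
  have hall : ∀ q : G ⧸ H, q = QuotientGroup.mk 1 ∨
      q ∈ MulAction.orbit H (QuotientGroup.mk x₁ : G ⧸ H) ∨ q ∈ MulAction.orbit H (QuotientGroup.mk x₂ : G ⧸ H) := by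
    have hu : MulAction.orbit H (QuotientGroup.mk 1 : G ⧸ H) ∪ MulAction.orbit H (QuotientGroup.mk x₁ : G ⧸ H) ∪
        MulAction.orbit H (QuotientGroup.mk x₂ : G ⧸ H) = Set.univ := by
      apply Set.eq_of_subset_of_ncard_le (Set.subset_univ _)
      rw [Set.ncard_union_eq (Set.disjoint_union_left.mpr ⟨hd02, hd12⟩), Set.ncard_union_eq hd01, Set.ncard_univ,
        o0, o1, o2, Set.ncard_singleton]
      exact hidx.le
    intro q
    have := hu.symm ▸ Set.mem_univ q
    rw [o0] at this
    rcases this with (h | h) | h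
    exacts [Or.inl h, Or.inr (Or.inl h), Or.inr (Or.inr h)]
  have hsplit : ∀ x ∉ H, ∃ y, (y = x₁ ∨ y = x₂) ∧ ∃ h ∈ H, ∃ k ∈ H, x = h * y * k := by
    intro x hx
    rcases hall (QuotientGroup.mk x) with h | ⟨a, ha⟩ | ⟨a, ha⟩
    · rw [QuotientGroup.eq] at h
      exact absurd (by simpa using h) hx
    all_goals
      have ha' : (QuotientGroup.mk ((a : G) * _) : G ⧸ H) = QuotientGroup.mk x := ha
      rw [QuotientGroup.eq] at ha'
    · exact ⟨x₁, Or.inl rfl, a, a.2, _, ha', by group⟩
    · exact ⟨x₂, Or.inr rfl, a, a.2, _, ha', by group⟩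
  refine ⟨⟨fun h => by simp [h] at hidx, fun K hK => ?_⟩, fun x hx => ?_⟩
  · by_contra hKt
    obtain ⟨x, hxK, hxH⟩ := SetLike.exists_of_lt hK
    have hmem : ∀ y : G, (y = x₁ ∨ y = x₂) → y ∈ K →
        ∀ q ∈ MulAction.orbit H (QuotientGroup.mk y : G ⧸ H), ∀ g : G, (QuotientGroup.mk g : G ⧸ H) = q → g ∈ K := by
      rintro y - hy _ ⟨a, rfl⟩ g hg
      have hg' : (QuotientGroup.mk ((a : G) * y) : G ⧸ H) = QuotientGroup.mk g := hg.symm
      rw [QuotientGroup.eq] at hg'
      have := mul_mem (mul_mem (hK.le a.2) hy) (hK.le hg')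
      rwa [mul_inv_cancel_left] at this
    have hnotboth : ¬ (x₁ ∈ K ∧ x₂ ∈ K) := fun ⟨a, b⟩ => hKt (eq_top_iff.mpr fun g _ => by
      by_cases hg : g ∈ H
      · exact hK.le hg
      obtain ⟨y, hy, h, hh, k, hk, rfl⟩ := hsplit g hg
      refine mul_mem (mul_mem (hK.le hh) ?_) (hK.le hk)
      rcases hy with rfl | rfl
      exacts [a, b])
    obtain ⟨y, hy, h, hh, k, hk, rfl⟩ := hsplit x hxH
    have hyK : y ∈ K := by
      have := mul_mem (mul_mem (inv_mem (hK.le hh)) hxK) (inv_mem (hK.le hk))
      convert this using 1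
      group
    have hset : (QuotientGroup.mk : G → G ⧸ H) '' (K : Set G) =
        {(QuotientGroup.mk 1 : G ⧸ H)} ∪ MulAction.orbit H (QuotientGroup.mk y : G ⧸ H) := by
      ext q
      constructor
      · rintro ⟨g, hg, rfl⟩
        by_cases hgH : g ∈ H
        · left; rw [Set.mem_singleton_iff, QuotientGroup.eq]; simpa using hgH
        right
        obtain ⟨z, hz, a, ha, b, hb, rfl⟩ := hsplit g hgH
        have hzK : z ∈ K := by
          have := mul_mem (mul_mem (inv_mem (hK.le ha)) hg) (inv_mem (hK.le hb))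
          convert this using 1
          group
        have hzy : z = y := by
          rcases hy with rfl | rfl <;> rcases hz with rfl | rfl
          exacts [rfl, absurd ⟨hyK, hzK⟩ hnotboth, absurd ⟨hzK, hyK⟩ hnotboth, rfl]
        subst hzy
        refine ⟨⟨a, ha⟩, ?_⟩
        show (QuotientGroup.mk (a * z) : G ⧸ H) = _
        rw [QuotientGroup.eq]
        simpa [mul_assoc] using hb
      · rintro (rfl | h)
        · exact ⟨1, one_mem K, rfl⟩
        · obtain ⟨g, rfl⟩ := QuotientGroup.mk_surjective q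
          exact ⟨g, hmem y hy hyK _ h g rfl, rfl⟩
    have hKH : K.index * H.relIndex K = 416 := by
      rw [mul_comm, Subgroup.relIndex_mul_index hK.le, hidx]
    have hrel : H.relIndex K = ((QuotientGroup.mk : G → G ⧸ H) '' (K : Set G)).ncard := by
      have h := MulAction.index_stabilizer K (QuotientGroup.mk 1 : G ⧸ H)
      have e1 : MulAction.stabilizer K (QuotientGroup.mk 1 : G ⧸ H) = H.subgroupOf K := by
        ext a
        rw [MulAction.mem_stabilizer_iff, Subgroup.mem_subgroupOf]
        show (QuotientGroup.mk ((a : G) * 1) : G ⧸ H) = _ ↔ _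
        rw [QuotientGroup.eq]; simp
      have e2 : MulAction.orbit K (QuotientGroup.mk 1 : G ⧸ H) = (QuotientGroup.mk : G → G ⧸ H) '' (K : Set G) := by
        ext q
        constructor
        · rintro ⟨a, rfl⟩
          exact ⟨a, a.2, by show _ = (QuotientGroup.mk ((a : G) * 1) : G ⧸ H); rw [mul_one]⟩
        · rintro ⟨g, hg, rfl⟩
          exact ⟨⟨g, hg⟩, by show (QuotientGroup.mk (g * 1) : G ⧸ H) = _; rw [mul_one]⟩
      rw [e1, e2] at h
      exact h
    have hdis : Disjoint ({(QuotientGroup.mk 1 : G ⧸ H)} : Set (G ⧸ H))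
        (MulAction.orbit H (QuotientGroup.mk y : G ⧸ H)) := by
      rw [← o0]; rcases hy with rfl | rfl
      exacts [hd01, hd02]
    rw [hset, Set.ncard_union_eq hdis, Set.ncard_singleton] at hrel
    rw [hrel] at hKH
    rcases hy with rfl | rfl
    · rw [o1] at hKH; omega
    · rw [o2] at hKH; omega
  · obtain ⟨y, hy, h, hh, k, hk, rfl⟩ := hsplit x hx
    refine isCoatom_meet_conj hh hk ?_
    rcases hy with rfl | rfl
    exacts [h1, h2]

end CfsgLib.FusionExamples.G2J2
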