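import Cfsg.Agent.Lib.FusionExamples.G2J2Group
import Cfsg.Agent.Lib.FusionExamples.G2J2Coatom
import Cfsg.Agent.Lib.Chevalley.OrderG2
import Cfsg.Agent.Lib.J2Ico.Group

/-!
G2(4) acting on the cosets of its subgroup J2 is extremely primitive.
-/

set_option autoImplicit false
set_option linter.all false

namespace CfsgLib.FusionExamples.G2J2

open Matrix
open CfsgLib.SporRecognition.CosetCert (allBelow allBelow_spec field)
open CfsgLib.OrderDegrees.G2 (G6)
open CfsgLib.SporadicB.J3 (exists_coset closure_subset_of_left_closed)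

/-- The second transversal moves the second base point to different points. -/
theorem tslot_pts : allBelow 6 36 (fun n => Nat.beq n 0 || !(Nat.beq (p1 (tslot n) 1) 1)) = true := by decide +kernel

theorem low_fix : (Nat.beq (p1 (kgen 2) 1) 1 && Nat.beq (p1 (kgen 3) 1) 1) = true := by decide +kernel

theorem mgen_lt : (Nat.blt (mgen 0) matCount && Nat.blt (mgen 1) matCount && Nat.beq (cpt 0) 0) = true := by
  decide +kernel

theorem near_sub : subsetOK 7 3 100 nearLab = true := by decide +kernel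

theorem far_sub : subsetOK 9 6 315 farLab = true := by decide +kernel

theorem root_lt : (allBelow 2 3 (fun c => Nat.blt (nearRoot c) 100) &&
    allBelow 3 6 (fun c => Nat.blt (farRoot c) 315)) = true := by decide +kernel

/-- Words for the last two stabiliser generators in the first two. -/
def kWord (a : Nat) : List Nat :=
  if a = 2 then [0, 1, 1, 0, 1, 1, 0, 1, 1, 0, 0, 1] else [1, 1, 0, 1, 0, 1, 0, 1, 0, 0]

theorem kWord_ok : ([2, 3].all fun a => allBelow 7 100 fun u =>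
    Nat.beq ((kWord a).foldr (fun i v => p1 (kgen i) v) u) (p1 (kgen a) u)) = true := by decide +kernel

attribute [local irreducible] em p1 tpt tslot lslot kgen lsort genWord mgen mkey mvia msrc mstep msort cpt
  cQ cM wMat nearLab nearPos nearOrd nearVia nearSrc nearRoot farLab farPos farOrd farVia farSrc farRoot inO xmat

theorem field_key (a b c d : Nat) (ha : a < 128) (hb : b < 128) (hc : c < 128) (hd : d < 128) :
    field (key a b c d) 7 0 = a ∧ field (key a b c d) 7 1 = b ∧ field (key a b c d) 7 2 = c ∧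
      field (key a b c d) 7 3 = d := by
  have hf : ∀ N k, field N 7 k = N / 128 ^ k % 128 := fun N k => by
    show Nat.land (Nat.shiftRight N (7 * k)) 127 = _
    rw [show Nat.shiftRight N (7 * k) = N >>> (7 * k) from rfl, Nat.shiftRight_eq_div_pow, pow_mul]
    exact Nat.and_two_pow_sub_one_eq_mod _ 7
  simp only [hf, key, Nat.add_eq, Nat.mul_eq]
  omega

variable {F : Type*} [Field F] [CharP F 2] {ω : F}

/-- The images of the base points. -/
noncomputable def keyOf (x : P F) : Nat :=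
  key (x.2 0 : Fin 100) (x.2 1 : Fin 100) (x.2 37 : Fin 100) (x.2 4 : Fin 100)

theorem keyOf_mul {g x : P F} {j : Nat} (hg : IsEl ω g j) : keyOf (g * x) = mapKey j (keyOf x) := by
  obtain ⟨a, b, c, d⟩ := field_key (x.2 0 : Fin 100) (x.2 1 : Fin 100) (x.2 37 : Fin 100) (x.2 4 : Fin 100)
    (by omega) (by omega) (by omega) (by omega)
  show key ((g.2 (x.2 0) : Fin 100) : Nat) ((g.2 (x.2 1) : Fin 100) : Nat) ((g.2 (x.2 37) : Fin 100) : Nat)
      ((g.2 (x.2 4) : Fin 100) : Nat) = mapKey j (keyOf x)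
  rw [mapKey, keyOf, a, b, c, d, hg.2, hg.2, hg.2, hg.2]

theorem keyOf_one : keyOf (1 : P F) = key 0 1 37 4 := rfl

namespace Gens

theorem kgen_lt {a : Nat} (ha : a < 4) : kgen a < matCount ∧ p1 (kgen a) 0 = 0 := by
  have h := allBelow_spec fix_ok a ha
  simp only [fixStep, Bool.and_eq_true, Nat.blt_eq, Nat.beq_eq] at h
  exact h

theorem mgen_facts : mgen 0 < matCount ∧ mgen 1 < matCount ∧ cpt 0 = 0 := by
  have h := mgen_lt
  simp only [Bool.and_eq_true, Nat.blt_eq, Nat.beq_eq] at h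
  exact ⟨h.1.1, h.1.2, h.2⟩

variable [Finite F] (S : Gens F ω)
include S

/-- The members of the diagonal subgroup in a fixed set, as a subgroup of it. -/
noncomputable abbrev inD (U : Subgroup (P F)) : Subgroup S.D := U.subgroupOf S.D

theorem K1_le : S.K1 ≤ S.D := (Subgroup.closure_le _).mpr (by rintro _ ⟨a, rfl⟩; exact S.E_mem _)

theorem K1_fix {x : P F} (hx : x ∈ S.K1) : x.2 0 = 0 := by
  induction hx using Subgroup.closure_induction with
  | mem y hy =>
    obtain ⟨a, rfl⟩ := hy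
    obtain ⟨h1, h2⟩ := kgen_lt a.2
    exact Fin.ext (((S.E_el (S.lt_elem h1)).2 0).trans h2)
  | one => rfl
  | mul a b _ _ ha hb => show a.2 (b.2 0) = 0; rw [hb, ha]
  | inv a _ ha => exact Equiv.Perm.inv_eq_iff_eq.mpr ha.symm

theorem tpt_pt {p : Nat} (hp : p < 100) : (((S.E (tpt p)).2 0 : Fin 100) : Nat) = p := by
  have h := allBelow_spec tpt_ok p hp
  simp only [tptStep, Bool.and_eq_true, Nat.blt_eq, Nat.beq_eq] at h
  exact ((S.E_el (S.lt_elem h.1)).2 0).trans h.2

theorem mem_K1_iff {x : P F} (hx : x ∈ S.D) : x ∈ S.K1 ↔ x.2 0 = 0 := by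
  refine ⟨S.K1_fix, fun h0 => ?_⟩
  obtain ⟨p, hp, k, hk, rfl⟩ := S.D_cover hx
  have : (((S.E (tpt p)).2 (k.2 0) : Fin 100) : Nat) = 0 := congrArg Fin.val h0
  rw [S.K1_fix hk, S.tpt_pt hp] at this
  subst this
  rw [one_spec.2.2.2.2.2.1, S.E_zero, one_mul]
  exact hk

theorem keyOf_injective {x y : P F} (hx : x ∈ S.D) (hy : y ∈ S.D) (h : keyOf x = keyOf y) : x = y := by
  obtain ⟨a, b, c, d⟩ := field_key (x.2 0 : Fin 100) (x.2 1 : Fin 100) (x.2 37 : Fin 100) (x.2 4 : Fin 100)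
    (by omega) (by omega) (by omega) (by omega)
  obtain ⟨a', b', c', d'⟩ := field_key (y.2 0 : Fin 100) (y.2 1 : Fin 100) (y.2 37 : Fin 100) (y.2 4 : Fin 100)
    (by omega) (by omega) (by omega) (by omega)
  change key _ _ _ _ = key _ _ _ _ at h
  rw [h] at a b c d
  have e0 : x.2 0 = y.2 0 := Fin.ext (a.symm.trans a')
  have e1 : x.2 1 = y.2 1 := Fin.ext (b.symm.trans b')
  have e2 : x.2 37 = y.2 37 := Fin.ext (c.symm.trans c')
  have e3 : x.2 4 = y.2 4 := Fin.ext (d.symm.trans d')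
  have hz : y⁻¹ * x ∈ S.D := mul_mem (inv_mem hy) hx
  have fx : ∀ u, x.2 u = y.2 u → (y⁻¹ * x).2 u = u := fun u e => by
    show (y.2)⁻¹ (x.2 u) = u
    rw [e]; exact Equiv.symm_apply_apply _ _
  obtain ⟨n, hn, m, hm, hzn⟩ := S.K1_cover ((S.mem_K1_iff hz).mpr (fx 0 e0))
  have hlow : ∀ z ∈ Subgroup.closure ({S.E (kgen 2), S.E (kgen 3)} : Set (P F)), z.2 1 = 1 := by
    intro z hz
    induction hz using Subgroup.closure_induction with
    | mem w hw =>
      have hf := low_fix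
      simp only [Bool.and_eq_true, Nat.beq_eq] at hf
      rcases hw with rfl | rfl
      · exact Fin.ext (((S.E_el (S.lt_elem (kgen_lt (by norm_num)).1)).2 1).trans hf.1)
      · exact Fin.ext (((S.E_el (S.lt_elem (kgen_lt (by norm_num)).1)).2 1).trans hf.2)
    | one => rfl
    | mul p q _ _ hp hq => show p.2 (q.2 1) = 1; rw [hq, hp]
    | inv p _ hp => exact Equiv.Perm.inv_eq_iff_eq.mpr hp.symm
  have h1 : ((S.E (tslot n)).2 ((S.E (lslot m)).2 1)) = 1 := by
    have := fx 1 e1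
    rw [hzn] at this
    exact this
  rw [hlow _ (S.lslot_mem m hm)] at h1
  have hn0 : n = 0 := by
    by_contra hn0
    have ht := allBelow_spec tslot_ok n hn
    simp only [tslotStep, Bool.and_eq_true, Nat.blt_eq] at ht
    have := allBelow_spec tslot_pts n hn
    simp only [Bool.or_eq_true, Nat.beq_eq, hn0, false_or, Bool.not_eq_true'] at this
    exact Nat.ne_of_beq_eq_false this (((S.E_el (S.lt_elem ht.1)).2 1).symm.trans (congrArg Fin.val h1))
  rw [hn0, one_spec.2.2.2.2.2.2.1, S.E_zero, one_mul] at hzn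
  -- the last level
  have hk : ∀ m, m < 168 → keyOf (S.E (lslot m)) = elKey (lslot m) := fun m hm => by
    have ht := allBelow_spec low_ok m hm
    simp only [lowStep, Bool.and_eq_true, Nat.blt_eq] at ht
    have he := S.E_el (S.lt_elem ht.1.1.1.1.1)
    rw [keyOf, elKey, he.2, he.2, he.2, he.2]
    rfl
  have hsort := fun a ha => allBelow_spec lsort_ok a ha
  simp only [lsortStep, Bool.and_eq_true, Nat.blt_eq] at hsort
  have hinj : ∀ a b, a < 168 → b < 168 → elKey (lslot a) = elKey (lslot b) → a = b := by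
    have hmono : ∀ a b, a < b → b < 168 → elKey (lslot (lsort a)) < elKey (lslot (lsort b)) := by
      intro a b hab
      induction b, hab using Nat.le_induction with
      | base =>
        intro hb
        have := (hsort (a + 1) hb).2
        rw [show Nat.beq (a + 1) 0 = false from rfl, cond_false, Nat.blt_eq] at this
        exact this
      | succ b hb ih =>
        intro hN
        have := (hsort (b + 1) hN).2
        rw [show Nat.beq (b + 1) 0 = false from rfl, cond_false, Nat.blt_eq] at this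
        exact (ih (by omega)).trans this
    have hinjs : Function.Injective fun a : Fin 168 => (⟨lsort a, (hsort a a.2).1⟩ : Fin 168) := by
      intro a b hab
      have e : lsort (a : Nat) = lsort (b : Nat) := congrArg Fin.val hab
      rcases lt_trichotomy (a : Nat) b with hl | he | hl
      · exact absurd (congrArg (fun q => elKey (lslot q)) e) (hmono _ _ hl b.2).ne
      · exact Fin.ext he
      · exact absurd (congrArg (fun q => elKey (lslot q)) e) (hmono _ _ hl a.2).ne'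
    intro a b ha hb e
    obtain ⟨a', ha'⟩ := Finite.surjective_of_injective hinjs ⟨a, ha⟩
    obtain ⟨b', hb'⟩ := Finite.surjective_of_injective hinjs ⟨b, hb⟩
    have ea : lsort a' = a := congrArg Fin.val ha'
    have eb : lsort b' = b := congrArg Fin.val hb'
    subst ea eb
    rcases lt_trichotomy (a' : Nat) b' with hl | he | hl
    · exact absurd e (hmono _ _ hl b'.2).ne
    · rw [he]
    · exact absurd e (hmono _ _ hl a'.2).ne'
  have hone : keyOf (y⁻¹ * x) = keyOf (1 : P F) := by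
    show key _ _ _ _ = key _ _ _ _
    rw [fx 0 e0, fx 1 e1, fx 37 e2, fx 4 e3]
    rfl
  rw [hzn, hk m hm, ← S.E_zero] at hone
  have hl0 := one_spec.2.2.2.2.2.2.2
  rw [show S.E 0 = S.E (lslot 0) by rw [hl0], hk 0 (by norm_num)] at hone
  rw [hinj m 0 hm (by norm_num) hone, hl0, S.E_zero] at hzn
  exact (inv_mul_eq_one.mp hzn).symm

/-- The stabiliser of a point, inside the diagonal subgroup. -/
noncomputable def L1 : Subgroup S.D := S.inD S.K1

/-- The transversal of the point stabiliser, by points. -/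
noncomputable def T1 (p : Fin 100) : S.D := ⟨S.E (tpt p), S.E_mem _⟩

theorem L1_cover (x : S.D) : ∃ p, ∃ k ∈ S.L1, x = S.T1 p * k := by
  obtain ⟨p, hp, k, hk, e⟩ := S.D_cover x.2
  exact ⟨⟨p, hp⟩, ⟨k, S.K1_le hk⟩, hk, Subtype.ext e⟩

theorem card_L1 : Nat.card S.D = 100 * Nat.card S.L1 := by
  let f : Fin 100 × S.L1 → S.D := fun x => S.T1 x.1 * x.2
  have hf : Function.Bijective f := by
    refine ⟨fun x y e => ?_, fun d => ?_⟩
    · have e' := congrArg (fun z : S.D => (((z : P F).2 0 : Fin 100) : Nat)) e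
      change (((S.E (tpt x.1)).2 (((x.2 : S.D) : P F).2 0) : Fin 100) : Nat) =
        (((S.E (tpt y.1)).2 (((y.2 : S.D) : P F).2 0) : Fin 100) : Nat) at e'
      have hx2 : (((x.2 : S.D) : P F)).2 0 = 0 := S.K1_fix x.2.2
      have hy2 : (((y.2 : S.D) : P F)).2 0 = 0 := S.K1_fix y.2.2
      rw [hx2, hy2, S.tpt_pt x.1.2, S.tpt_pt y.1.2] at e'
      have h1 : x.1 = y.1 := Fin.ext e'
      refine Prod.ext h1 (Subtype.ext ?_)
      change S.T1 x.1 * x.2 = S.T1 y.1 * y.2 at e
      rw [h1] at e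
      exact mul_left_cancel e
    · obtain ⟨p, k, hk, rfl⟩ := S.L1_cover d
      exact ⟨(p, ⟨k, hk⟩), rfl⟩
  rw [← Nat.card_congr (Equiv.ofBijective f hf), Nat.card_prod, Nat.card_fin]

theorem isCoatom_L1 : IsCoatom S.L1 := by
  have hroot := root_lt
  simp only [Bool.and_eq_true] at hroot
  have hn := fun p hp => allBelow_spec near_ok p hp
  simp only [nearStep, Bool.and_eq_true, Nat.blt_eq, Nat.beq_eq] at hn
  refine isCoatom_of_orbits (d := 7) (c := 3) (by norm_num) (by norm_num) S.T1 (fun h => ?_) S.L1_cover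
    S.card_L1 nearLab (fun p hp => (hn p hp).1.1.1.1)
    (fun c => if h : c < 3 then ⟨nearOrd (nearRoot c), (hn _ (Nat.blt_eq.mp (allBelow_spec hroot.1 c h))).1.1.1.2⟩ else 0)
    (fun i => ⟨nearOrd i, (hn i i.2).1.1.1.2⟩)
    (fun p => ⟨⟨nearPos p, (hn p p.2).1.1.2⟩, Fin.ext (hn p p.2).1.2⟩) (fun i => ?_) near_sub
  · show S.E (tpt 0) ∈ S.K1
    rw [one_spec.2.2.2.2.2.1, S.E_zero]; exact one_mem _
  obtain ⟨⟨⟨⟨hlab, ho⟩, -⟩, -⟩, hv⟩ := hn i i.2
  by_cases h2 : nearVia i = 2
  · left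
    rw [show Nat.beq (nearVia (i : Nat)) 2 = true from Nat.beq_eq.mpr h2, cond_true, Nat.beq_eq] at hv
    rw [dif_pos (hn _ ho).1.1.1.1]
    exact Fin.ext (show nearOrd (nearRoot (nearLab (nearOrd i))) = nearOrd i by rw [hv])
  right
  rw [show Nat.beq (nearVia (i : Nat)) 2 = false from Bool.eq_false_iff.mpr fun e => h2 (Nat.eq_of_beq_eq_true e),
    cond_false] at hv
  simp only [Bool.and_eq_true, Nat.blt_eq, Nat.beq_eq] at hv
  obtain ⟨⟨⟨hv2, hsrc⟩, hmove⟩, hl⟩ := hv
  refine ⟨⟨nearSrc i, hsrc.trans i.2⟩, hsrc, hl, ⟨S.E (kgen (nearVia i)), S.E_mem _⟩,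
    S.kgen_mem _ (hv2.trans (by norm_num)), ?_⟩
  set l : S.D := ⟨S.E (kgen (nearVia i)), S.E_mem _⟩ with hl'
  refine ⟨(S.T1 ⟨nearOrd i, ho⟩)⁻¹ * (l * S.T1 ⟨nearOrd (nearSrc i), (hn _ (hsrc.trans i.2)).1.1.1.2⟩), ?_,
    by rw [mul_inv_cancel_left]⟩
  show _ ∈ S.K1
  show (((S.T1 ⟨nearOrd i, ho⟩)⁻¹ *
    (l * S.T1 ⟨nearOrd (nearSrc i), (hn _ (hsrc.trans i.2)).1.1.1.2⟩) : S.D) : P F) ∈ S.K1
  refine (S.mem_K1_iff (SetLike.coe_mem _)).mpr ?_
  show ((S.E (tpt (nearOrd i))).2)⁻¹ ((S.E (kgen (nearVia i))).2 ((S.E (tpt (nearOrd (nearSrc i)))).2 0)) = 0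
  rw [Equiv.Perm.inv_eq_iff_eq]
  refine Fin.ext ?_
  rw [(S.E_el (S.lt_elem (kgen_lt (hv2.trans (by norm_num))).1)).2, S.tpt_pt (hn _ (hsrc.trans i.2)).1.1.1.2,
    S.tpt_pt ho, hmove]

/-- The second stabiliser. -/
noncomputable def K2 : Subgroup (P F) := Subgroup.closure {S.E (mgen 0), S.E (mgen 1)}

theorem K2_le : S.K2 ≤ S.D := (Subgroup.closure_le _).mpr (by rintro _ (rfl | rfl) <;> exact S.E_mem _)

theorem exists_mkey (j : Nat) (hj : j < 1920) : ∃ x ∈ S.K2, keyOf x = mkey j := by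
  induction j using Nat.strongRecOn with
  | _ j ih =>
    have h := allBelow_spec m_ok j hj
    simp only [mStep, Bool.and_eq_true] at h
    have ht := h.1.1.2
    by_cases h0 : j = 0
    · subst h0
      rw [show Nat.beq 0 0 = true from rfl, cond_true, Nat.beq_eq] at ht
      exact ⟨1, one_mem _, by rw [ht]; exact keyOf_one⟩
    rw [show Nat.beq j 0 = false from Bool.eq_false_iff.mpr fun e => h0 (Nat.eq_of_beq_eq_true e),
      cond_false] at ht
    simp only [Bool.and_eq_true, Nat.blt_eq, Nat.beq_eq] at ht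
    obtain ⟨⟨hsrc, hv⟩, he⟩ := ht
    obtain ⟨x, hx, hxe⟩ := ih _ hsrc (hsrc.trans hj)
    have hs := allBelow_spec m_ok _ (hsrc.trans hj)
    simp only [mStep, Bool.and_eq_true, Nat.beq_eq] at hs
    obtain ⟨⟨⟨⟨⟨⟨-, k0⟩, -⟩, k1⟩, -⟩, -⟩, -⟩ := hs
    obtain ⟨v, hv'⟩ : ∃ v, mvia j = v := ⟨_, rfl⟩
    rw [hv'] at he hv
    interval_cases v
    · refine ⟨S.E (mgen 0) * x, mul_mem (Subgroup.subset_closure (Or.inl rfl)) hx, ?_⟩
      rw [keyOf_mul (S.E_el (S.lt_elem mgen_facts.1)), hxe, k0]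
      exact congrArg mkey (by simpa [Nat.add_eq, Nat.mul_eq] using he)
    · refine ⟨S.E (mgen 1) * x, mul_mem (Subgroup.subset_closure (Or.inr rfl)) hx, ?_⟩
      rw [keyOf_mul (S.E_el (S.lt_elem mgen_facts.2.1)), hxe, k1]
      exact congrArg mkey (by simpa [Nat.add_eq, Nat.mul_eq] using he)

theorem K2_keys {x : P F} (hx : x ∈ S.K2) : ∃ j < 1920, keyOf x = mkey j := by
  refine closure_subset_of_left_closed _ {x | ∃ j < 1920, keyOf x = mkey j} ?_ ?_ x hx
  · have h := allBelow_spec m_ok 0 (by norm_num)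
    simp only [mStep, Bool.and_eq_true, Nat.beq_refl, cond_true, Nat.beq_eq] at h
    exact ⟨0, by norm_num, by rw [h.1.1.2]; exact keyOf_one⟩
  rintro s hs x ⟨j, hj, e⟩
  have h := allBelow_spec m_ok j hj
  simp only [mStep, Bool.and_eq_true, Nat.blt_eq, Nat.beq_eq] at h
  obtain ⟨⟨⟨⟨⟨⟨l0, k0⟩, l1⟩, k1⟩, -⟩, -⟩, -⟩ := h
  rcases hs with rfl | rfl
  · exact ⟨_, l0, by rw [keyOf_mul (S.E_el (S.lt_elem mgen_facts.1)), e, k0]⟩
  · exact ⟨_, l1, by rw [keyOf_mul (S.E_el (S.lt_elem mgen_facts.2.1)), e, k1]⟩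

theorem card_K2 : Nat.card S.K2 = 1920 := by
  have hsort := fun a ha => allBelow_spec m_ok a ha
  simp only [mStep, Bool.and_eq_true, Nat.blt_eq] at hsort
  have hmono : ∀ a b, a < b → b < 1920 → mkey (msort a) < mkey (msort b) := by
    intro a b hab
    induction b, hab using Nat.le_induction with
    | base =>
      intro hb
      have := (hsort (a + 1) hb).2
      rw [show Nat.beq (a + 1) 0 = false from rfl, cond_false, Nat.blt_eq] at this
      exact this
    | succ b hb ih =>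
      intro hN
      have := (hsort (b + 1) hN).2
      rw [show Nat.beq (b + 1) 0 = false from rfl, cond_false, Nat.blt_eq] at this
      exact (ih (by omega)).trans this
  have hinj : Function.Injective fun j : Fin 1920 => mkey j := by
    have hs : Function.Injective fun a : Fin 1920 => (⟨msort a, (hsort a a.2).1.2⟩ : Fin 1920) := by
      intro a b hab
      have e : mkey (msort (a : Nat)) = mkey (msort (b : Nat)) :=
        congrArg (fun q : Fin 1920 => mkey (q : Nat)) hab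
      rcases lt_trichotomy (a : Nat) b with hl | he | hl
      · exact absurd e (hmono _ _ hl b.2).ne
      · exact Fin.ext he
      · exact absurd e (hmono _ _ hl a.2).ne'
    intro x y e
    obtain ⟨a, rfl⟩ := Finite.surjective_of_injective hs x
    obtain ⟨b, rfl⟩ := Finite.surjective_of_injective hs y
    rcases lt_trichotomy (a : Nat) b with hl | he | hl
    · exact absurd e (hmono _ _ hl b.2).ne
    · rw [Fin.ext he]
    · exact absurd e (hmono _ _ hl a.2).ne'
  choose x hx hxe using fun j : Fin 1920 => S.exists_mkey j j.2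
  have hbij : Function.Bijective fun j : Fin 1920 => (⟨x j, hx j⟩ : S.K2) := by
    refine ⟨fun a b e => hinj ?_, fun y => ?_⟩
    · show mkey a = mkey b
      rw [← hxe, ← hxe, show x a = x b from congrArg Subtype.val e]
    · obtain ⟨j, hj, e⟩ := S.K2_keys y.2
      exact ⟨⟨j, hj⟩, Subtype.ext (S.keyOf_injective (S.K2_le (hx _)) (S.K2_le y.2) ((hxe _).trans e.symm))⟩
  rw [← Nat.card_congr (Equiv.ofBijective _ hbij), Nat.card_fin]

/-- The second stabiliser inside the diagonal subgroup. -/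
noncomputable def L2 : Subgroup S.D := S.inD S.K2

theorem card_L2 : Nat.card S.L2 = 1920 := by
  rw [L2, Nat.card_congr (Subgroup.subgroupOfEquivOfLe S.K2_le).toEquiv, S.card_K2]

theorem coset_move (a : Nat) (ha : a < 4) (p : Fin 315) :
    ∃ h : cQ (315 * a + p) < 315, ∃ k ∈ S.K2, S.E (cgen a) * S.E (cpt p) = S.E (cpt (cQ (315 * a + p))) * k := by
  have hp := p.2
  have hi : 315 * a + (p : Nat) < 1260 := by omega
  have h := allBelow_spec c_ok _ hi
  simp only [cStep] at h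
  rw [show Nat.div (315 * a + (p : Nat)) 315 = a by show (315 * a + (p : Nat)) / 315 = a; omega,
    show Nat.mod (315 * a + (p : Nat)) 315 = p by show (315 * a + (p : Nat)) % 315 = p; omega] at h
  simp only [Bool.and_eq_true, Nat.blt_eq, Nat.beq_eq] at h
  obtain ⟨⟨⟨⟨hc, hg⟩, hq⟩, hm⟩, hk⟩ := h
  refine ⟨hq, ?_⟩
  obtain ⟨k, hkm, hke⟩ := S.exists_mkey _ hm
  refine ⟨k, hkm, S.keyOf_injective (mul_mem (S.E_mem _) (S.E_mem _)) (mul_mem (S.E_mem _) (S.K2_le hkm)) ?_⟩
  have hcq := allBelow_spec c_ok (cQ (315 * a + p)) (hq.trans (by norm_num))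
  simp only [cStep, Bool.and_eq_true, Nat.blt_eq] at hcq
  have hc2 : cpt (cQ (315 * a + p)) < matCount := by
    have := hcq.1.1.1.1
    rwa [show Nat.mod (cQ (315 * a + p)) 315 = cQ (315 * a + p) from Nat.mod_eq_of_lt hq] at this
  rw [keyOf_mul (S.E_el (S.lt_elem hg)), keyOf_mul (S.E_el (S.lt_elem hc2)), hke, ← hk,
    ← mul_one (S.E (cpt p)), keyOf_mul (S.E_el (S.lt_elem hc)), keyOf_one]

/-- The transversal of the second stabiliser. -/
noncomputable def T2 (p : Fin 315) : S.D := ⟨S.E (cpt p), S.E_mem _⟩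

theorem L2_cover (x : S.D) : ∃ p, ∃ k ∈ S.L2, x = S.T2 p * k := by
  obtain ⟨p, k, hk, e⟩ := exists_coset ({S.a, S.b} : Set (P F)) (fun p : Fin 315 => S.E (cpt p)) S.K2 0
    (by show S.E (cpt 0) ∈ _; rw [mgen_facts.2.2, S.E_zero]; exact one_mem _) (by
    intro s hs p
    obtain ⟨a, ha, rfl⟩ : ∃ a < 2, S.E (cgen a) = s := by
      rcases hs with rfl | rfl
      exacts [⟨0, by norm_num, S.E_one⟩, ⟨1, by norm_num, S.E_two⟩]
    obtain ⟨h, k, hk, e⟩ := S.coset_move a (by omega) p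
    exact ⟨⟨_, h⟩, k, hk, e⟩) x x.2
  exact ⟨p, ⟨k, S.K2_le hk⟩, hk, Subtype.ext e⟩

theorem isCoatom_L2 : IsCoatom S.L2 := by
  have hroot := root_lt
  simp only [Bool.and_eq_true] at hroot
  have hn := fun p hp => allBelow_spec far_ok p hp
  simp only [farStep, Bool.and_eq_true, Nat.blt_eq, Nat.beq_eq] at hn
  refine isCoatom_of_orbits (d := 9) (c := 6) (by norm_num) (by norm_num) S.T2 (fun h => ?_) S.L2_cover
    (by rw [S.card_D, S.card_L2]) farLab (fun p hp => (hn p hp).1.1.1.1)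
    (fun c => if h : c < 6 then ⟨farOrd (farRoot c), (hn _ (Nat.blt_eq.mp (allBelow_spec hroot.2 c h))).1.1.1.2⟩ else 0)
    (fun i => ⟨farOrd i, (hn i i.2).1.1.1.2⟩)
    (fun p => ⟨⟨farPos p, (hn p p.2).1.1.2⟩, Fin.ext (hn p p.2).1.2⟩) (fun i => ?_) far_sub
  · show S.E (cpt 0) ∈ S.K2
    rw [mgen_facts.2.2, S.E_zero]; exact one_mem _
  obtain ⟨⟨⟨⟨hlab, ho⟩, -⟩, -⟩, hv⟩ := hn i i.2
  by_cases h2 : farVia i = 2
  · left
    rw [show Nat.beq (farVia (i : Nat)) 2 = true from Nat.beq_eq.mpr h2, cond_true, Nat.beq_eq] at hv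
    rw [dif_pos (hn _ ho).1.1.1.1]
    exact Fin.ext (show farOrd (farRoot (farLab (farOrd i))) = farOrd i by rw [hv])
  right
  rw [show Nat.beq (farVia (i : Nat)) 2 = false from Bool.eq_false_iff.mpr fun e => h2 (Nat.eq_of_beq_eq_true e),
    cond_false] at hv
  simp only [Bool.and_eq_true, Nat.blt_eq, Nat.beq_eq, Nat.add_eq, Nat.mul_eq] at hv
  obtain ⟨⟨⟨hv2, hsrc⟩, hmove⟩, hl⟩ := hv
  obtain ⟨-, k, hk, e⟩ := S.coset_move (2 + farVia i) (by omega) ⟨farOrd (farSrc i), (hn _ (hsrc.trans i.2)).1.1.1.2⟩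
  simp only [hmove] at e
  refine ⟨⟨farSrc i, hsrc.trans i.2⟩, hsrc, hl, ⟨S.E (cgen (2 + farVia i)), S.E_mem _⟩, ?_,
    ⟨k, S.K2_le hk⟩, hk, Subtype.ext e⟩
  show S.E (cgen (2 + farVia i)) ∈ S.K2
  obtain ⟨v, hv'⟩ : ∃ v, farVia i = v := ⟨_, rfl⟩
  rw [hv'] at hv2 ⊢
  interval_cases v
  exacts [Subgroup.subset_closure (Or.inl rfl), Subgroup.subset_closure (Or.inr rfl)]

/-- The first two generators generate the point stabiliser. -/
theorem k1_generated (a : Nat) (ha : a < 4) :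
    S.E (kgen a) ∈ Subgroup.closure ({S.E (kgen 0), S.E (kgen 1)} : Set (P F)) := by
  set U := Subgroup.closure ({S.E (kgen 0), S.E (kgen 1)} : Set (P F))
  have h0 : S.E (kgen 0) ∈ U := Subgroup.subset_closure (Or.inl rfl)
  have h1 : S.E (kgen 1) ∈ U := Subgroup.subset_closure (Or.inr rfl)
  by_cases hlt : a < 2
  · interval_cases a
    exacts [h0, h1]
  have hU : U ≤ S.D := (Subgroup.closure_le _).mpr (by rintro _ (rfl | rfl) <;> exact S.E_mem _)
  have hw : ∀ l : List Nat, (∀ i ∈ l, i < 2) → ∃ x ∈ U, ∀ u : Fin 100,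
      ((x.2 u : Fin 100) : Nat) = l.foldr (fun i v => p1 (kgen i) v) (u : Nat) := by
    intro l
    induction l with
    | nil => exact fun _ => ⟨1, one_mem _, fun u => rfl⟩
    | cons i l ih =>
      intro hl
      obtain ⟨x, hx, hxe⟩ := ih fun j hj => hl j (List.mem_cons_of_mem _ hj)
      have hi : i < 2 := hl i (List.mem_cons_self)
      refine ⟨S.E (kgen i) * x, mul_mem ?_ hx, fun u => ?_⟩
      · interval_cases i
        exacts [h0, h1]
      · show (((S.E (kgen i)).2 (x.2 u) : Fin 100) : Nat) = p1 (kgen i) _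
        rw [(S.E_el (S.lt_elem (kgen_lt (hi.trans (by norm_num))).1)).2, hxe]
  obtain ⟨x, hx, hxe⟩ := hw (kWord a) (by
    rcases (show a = 2 ∨ a = 3 by omega) with rfl | rfl <;> decide)
  have h := kWord_ok
  simp only [List.all_cons, List.all_nil, Bool.and_true, Bool.and_eq_true] at h
  have heq : x = S.E (kgen a) := by
    refine S.perm_injective (hU hx) (S.E_mem _) (Equiv.ext fun u => Fin.ext ?_)
    rw [hxe, (S.E_el (S.lt_elem (kgen_lt ha).1)).2]
    rcases (show a = 2 ∨ a = 3 by omega) with rfl | rfl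
    exacts [Nat.eq_of_beq_eq_true (allBelow_spec h.1 u u.2), Nat.eq_of_beq_eq_true (allBelow_spec h.2 u u.2)]
  exact heq ▸ hx

/-! ### The subgroup and the two double cosets -/

/-- The subgroup J2 of G2(4). -/
noncomputable def H : Subgroup (G6 F) := S.toMat.range

theorem inO_of_mem {g : G6 F} (hg : g ∈ S.H) {v : Nat} (hv : v < 4096) (hO : inO v = true) :
    ∃ w < 4096, inO w = true ∧
      vec ω w = ((g : GL (Fin 6) F) : Matrix (Fin 6) (Fin 6) F) *ᵥ vec ω v := by
  obtain ⟨⟨x, hx⟩, rfl⟩ := hg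
  have hlt : ∀ A u, mulV A u < 4096 := fun A u => by
    have h : ∀ i, (six fun k => gm (ent A i k) (field u 2 k)) < 4 := fun i => six_lt _
    have h0 := h 0; have h1 := h 1; have h2 := h 2; have h3 := h 3; have h4 := h 4; have h5 := h 5
    simp only [mulV, Nat.add_eq, Nat.mul_eq]
    omega
  refine closure_subset_of_left_closed ({S.a, S.b} : Set (P F))
    {y | ∃ w < 4096, inO w = true ∧ vec ω w = ((y.1 : GL (Fin 6) F) : Matrix (Fin 6) (Fin 6) F) *ᵥ vec ω v}
    ⟨v, hv, hO, by simp⟩ ?_ x hx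
  rintro s hs y ⟨w, hw, hwO, hwe⟩
  have h := allBelow_spec orb_ok w hw
  rw [orbStep, hwO, cond_true, Bool.and_eq_true] at h
  have key : ∀ j, IsEl ω s j → j < matCount → inO (mulV (em j) w) = true →
      ∃ w' < 4096, inO w' = true ∧
        vec ω w' = (((s * y).1 : GL (Fin 6) F) : Matrix (Fin 6) (Fin 6) F) *ᵥ vec ω v := fun j hs hj hO' => by
    refine ⟨_, hlt _ _, hO', ?_⟩
    rw [vec_mulV S.hω, hwe]
    show _ = (((s.1 : GL (Fin 6) F) : Matrix (Fin 6) (Fin 6) F) *
      ((y.1 : GL (Fin 6) F) : Matrix (Fin 6) (Fin 6) F)) *ᵥ vec ω v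
    rw [hs.1 hj, Matrix.mulVec_mulVec]
  rcases hs with rfl | rfl
  exacts [key 1 S.a_el (by decide) h.1, key 2 S.b_el (by decide) h.2]

theorem vec_injective {v w : Nat} (hv : v < 4096) (hw : w < 4096) (h : vec ω v = vec ω w) : v = w := by
  have e : ∀ k : Fin 6, field v 2 k = field w 2 k := fun k =>
    cf_injective S.hω (field_two_lt _ _) (field_two_lt _ _) (congrFun h k)
  have hf : ∀ N k, field N 2 k = N / 4 ^ k % 4 := fun N k => by
    show Nat.land (Nat.shiftRight N (2 * k)) 3 = _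
    rw [show Nat.shiftRight N (2 * k) = N >>> (2 * k) from rfl, Nat.shiftRight_eq_div_pow, pow_mul]
    exact Nat.and_two_pow_sub_one_eq_mod _ 2
  simp only [hf] at e
  have e0 := e 0; have e1 := e 1; have e2 := e 2; have e3 := e 3; have e4 := e 4; have e5 := e 5
  norm_num at e0 e1 e2 e3 e4 e5
  omega

/-- An intersection with a conjugate that contains the image of a maximal subgroup. -/
theorem meet_facts {L : Subgroup S.D} (hL : IsCoatom L) (i : Nat) (hi : i < 2) {x : G6 F}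
    (hx : ((x : GL (Fin 6) F) : Matrix (Fin 6) (Fin 6) F) = mat ω (xmat i))
    (hmem : ∀ l ∈ L, x⁻¹ * S.toMat l * x ∈ S.H) :
    IsCoatom (meet S.H x) ∧ (meet S.H x).index = L.index := by
  let e : S.D ≃* S.H := MonoidHom.ofInjective S.toMat_injective
  let M : Subgroup S.D := (meet S.H x).comap e.toMonoidHom
  have hLM : L ≤ M := fun l hl => by
    show e l ∈ meet S.H x
    rw [mem_meet]
    exact hmem l hl
  have hM : M = L := by
    rcases hL.le_iff.mp hLM with h | h
    swap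
    · exact h
    exfalso
    have hle : S.H ≤ S.H.map (MulAut.conj x).toMonoidHom := fun a ha => by
      obtain ⟨d, hd⟩ := e.surjective ⟨a, ha⟩
      have : e d ∈ meet S.H x := by
        show d ∈ M
        rw [h]; exact Subgroup.mem_top d
      rw [hd, mem_meet] at this
      rw [Subgroup.mem_map_equiv, MulAut.conj_symm_apply]
      exact this
    have hmv := allBelow_spec moved_ok i hi
    simp only [movedStep, Bool.and_eq_true, Nat.blt_eq, Bool.not_eq_true'] at hmv
    obtain ⟨⟨⟨hv, he⟩, hin⟩, hout⟩ := hmv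
    set v := (moved.getD i (0, 0)).1
    set j := (moved.getD i (0, 0)).2
    let G' := S.toMat ⟨S.E j, S.E_mem j⟩
    have hconj : x * G' * x⁻¹ ∈ S.H := by
      rw [Subgroup.eq_of_le_of_card_ge hle
        (le_of_eq (Subgroup.card_map_of_injective (MulAut.conj x).injective))]
      exact ⟨G', ⟨_, rfl⟩, rfl⟩
    have hlt : ∀ A u, mulV A u < 4096 := fun A u => by
      have h : ∀ i, (six fun k => gm (ent A i k) (field u 2 k)) < 4 := fun i => six_lt _
      have h0 := h 0; have h1 := h 1; have h2 := h 2; have h3 := h 3; have h4 := h 4; have h5 := h 5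
      simp only [mulV, Nat.add_eq, Nat.mul_eq]
      omega
    obtain ⟨w, hw, hwO, hwe⟩ := S.inO_of_mem hconj (hlt _ _) hin
    have hj : j < matCount := he.trans (by decide)
    have : vec ω w = vec ω (mulV (xmat i) (mulV (em j) v)) := by
      rw [hwe, vec_mulV S.hω, vec_mulV S.hω, vec_mulV S.hω, ← hx, ← (S.E_el (S.lt_elem hj)).1 hj,
        Matrix.mulVec_mulVec, Matrix.mulVec_mulVec]
      congr 1
      show (((x * G' * x⁻¹ : G6 F) : GL (Fin 6) F) : Matrix (Fin 6) (Fin 6) F) * _ = _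
      rw [← Units.val_mul, ← Subgroup.coe_mul, inv_mul_cancel_right]
      rfl
    rw [S.vec_injective hw (hlt _ _) this, hout] at hwO
    exact Bool.false_ne_true hwO
  have hm : meet S.H x = L.map e.toMonoidHom := by
    rw [← hM]
    exact (Subgroup.map_comap_eq_self_of_surjective e.surjective _).symm
  refine ⟨?_, ?_⟩
  · rw [hm]; exact (OrderIso.isCoatom_iff e.mapSubgroup _).mpr hL
  · rw [hm]; exact Subgroup.index_map_equiv L e

theorem conj_mem (i : Nat) (hi : i < 4) {x : G6 F}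
    (hx : ((x : GL (Fin 6) F) : Matrix (Fin 6) (Fin 6) F) = mat ω (xmat (i / 2))) :
    x⁻¹ * S.toMat ⟨S.E (bif Nat.blt i 2 then kgen i else mgen (Nat.sub i 2)), S.E_mem _⟩ * x ∈ S.H := by
  have h := allBelow_spec conj_ok i hi
  simp only [conjStep, Bool.and_eq_true, Nat.blt_eq, Nat.beq_eq] at h
  obtain ⟨⟨⟨⟨hf, h1⟩, h2⟩, hm1⟩, hm2⟩ := h
  set f := conjFacts.getD i (0, 0, 0)
  refine ⟨⟨S.E f.2.1, S.E_mem _⟩, ?_⟩
  rw [← hf, mul_assoc, eq_comm, inv_mul_eq_iff_eq_mul]
  apply Subtype.ext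
  apply Units.ext
  show ((( S.E f.1).1 : GL (Fin 6) F) : Matrix (Fin 6) (Fin 6) F) * _ =
    _ * (((S.E f.2.1).1 : GL (Fin 6) F) : Matrix (Fin 6) (Fin 6) F)
  rw [(S.E_el (S.lt_elem h1)).1 h1, (S.E_el (S.lt_elem h2)).1 h2, hx]
  exact (eqMul_spec S.hω hm1).trans (eqMul_spec S.hω hm2).symm

theorem mem_closure_conj {U : Set S.D} {L : Subgroup S.D} (hL : L ≤ Subgroup.closure U) (x : G6 F)
    (h : ∀ u ∈ U, x⁻¹ * S.toMat u * x ∈ S.H) : ∀ l ∈ L, x⁻¹ * S.toMat l * x ∈ S.H := by
  intro l hl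
  have h' := hL hl
  clear hl
  induction h' using Subgroup.closure_induction with
  | mem u hu => exact h u hu
  | one => simp
  | mul a b _ _ ha hb => simpa [mul_assoc] using mul_mem ha hb
  | inv a _ ha => simpa [mul_assoc] using inv_mem ha

theorem exists_x (i : Nat) (hi : i < 2) :
    ∃ x : G6 F, ((x : GL (Fin 6) F) : Matrix (Fin 6) (Fin 6) F) = mat ω (xmat i) := by
  have hw : wEnd.getD (Nat.add 2 i) 0 < 153 := by interval_cases i <;> decide
  obtain ⟨g, hg, he⟩ := exists_word S.hω _ hw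
  refine ⟨⟨g, hg⟩, ?_⟩
  show (g : Matrix (Fin 6) (Fin 6) F) = _
  rw [he]
  unfold xmat
  rfl

end Gens

open Cfsg.Lie in
/-- G2(4) on the cosets of J2 is extremely primitive. -/
theorem exists_J2_subgroup {F : Type*} [Field F] [Fintype F] (hF : Fintype.card F = 4) :
    ∃ H : Subgroup (chevG2.group F), IsCoatom H ∧ Cfsg.Spor.IsoJ2 H ∧
      ∀ x : chevG2.group F, x ∉ H → IsCoatom ((H ⊓ H.map (MulAut.conj x).toMonoidHom).subgroupOf H) := by
  classical
  have : CharP F 2 := by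
    obtain ⟨p, hp⟩ := CharP.exists F
    obtain ⟨n, hpp, hn⟩ := FiniteField.card F p
    have h : p ∣ 2 ^ 2 := by
      rw [show (2 : ℕ) ^ 2 = p ^ (n : ℕ) from by rw [← hn, hF]; norm_num]
      exact dvd_pow_self p n.ne_zero
    exact (Nat.prime_dvd_prime_iff_eq hpp Nat.prime_two).mp (hpp.dvd_of_dvd_pow h) ▸ hp
  obtain ⟨ω, hω⟩ : ∃ ω : F, ω ^ 2 + ω + 1 = 0 := by
    obtain ⟨ω, h0, h1⟩ : ∃ ω : F, ω ≠ 0 ∧ ω ≠ 1 := by
      by_contra h
      push Not at h
      have : (Finset.univ : Finset F) ⊆ {0, 1} := fun a _ => by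
        by_cases a0 : a = 0
        · simp [a0]
        · simp [h a a0]
      have := Finset.card_le_card this
      rw [Finset.card_univ, hF] at this
      have := Finset.card_le_two (a := (0 : F)) (b := 1)
      omega
    have h3 : ω ^ 3 = 1 := by
      have := FiniteField.pow_card_sub_one_eq_one ω h0
      rwa [hF] at this
    have hm : (ω - 1) * (ω ^ 2 + ω + 1) = 0 := by linear_combination h3
    exact ⟨ω, (mul_eq_zero.mp hm).resolve_left (sub_ne_zero.mpr h1)⟩
  obtain ⟨S⟩ := nonempty_gens hω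
  obtain ⟨φ⟩ := CfsgLib.OrderDegrees.G2.nonempty_equiv (F := F)
  let eH : S.D ≃* S.H := MonoidHom.ofInjective S.toMat_injective
  have hcardH : Nat.card S.H = 604800 := by rw [← Nat.card_congr eH.toEquiv, S.card_D]
  have hidx : S.H.index = 416 := by
    have h := S.H.card_mul_index
    have hG := CfsgLib.Chevalley.cardG2 (F := F)
    rw [one_mul, hF] at hG
    rw [hcardH, Nat.card_congr φ.toEquiv, hG] at h
    norm_num [chevG2] at h
    omega
  have hx := S.exists_x
  obtain ⟨x₁, hx₁⟩ := hx 0 (by norm_num)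
  obtain ⟨x₂, hx₂⟩ := hx 1 (by norm_num)
  -- generators of the two stabilisers
  have hL1 : S.L1 ≤ Subgroup.closure {u : S.D | ∃ a < 2, (u : P F) = S.E (kgen a)} := by
    intro u hu
    have hgen : S.K1 ≤ Subgroup.closure {S.E (kgen 0), S.E (kgen 1)} := by
      refine (Subgroup.closure_le _).mpr ?_
      rintro _ ⟨a, rfl⟩
      exact S.k1_generated a a.2
    have : (Subgroup.closure {u : S.D | ∃ a < 2, (u : P F) = S.E (kgen a)}).map S.D.subtype =
        Subgroup.closure {S.E (kgen 0), S.E (kgen 1)} := by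
      rw [MonoidHom.map_closure]
      congr 1
      ext y
      constructor
      · rintro ⟨u, ⟨a, ha, e⟩, rfl⟩
        interval_cases a
        exacts [Or.inl e, Or.inr e]
      · rintro (rfl | rfl)
        exacts [⟨⟨_, S.E_mem _⟩, ⟨0, by norm_num, rfl⟩, rfl⟩, ⟨⟨_, S.E_mem _⟩, ⟨1, by norm_num, rfl⟩, rfl⟩]
    obtain ⟨v, hv, e⟩ := this.ge (hgen hu)
    rwa [Subtype.ext e] at hv
  have hL2 : S.L2 ≤ Subgroup.closure {u : S.D | ∃ a < 2, (u : P F) = S.E (mgen a)} := by
    intro u hu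
    have : (Subgroup.closure {u : S.D | ∃ a < 2, (u : P F) = S.E (mgen a)}).map S.D.subtype = S.K2 := by
      rw [MonoidHom.map_closure, Gens.K2]
      congr 1
      ext y
      constructor
      · rintro ⟨u, ⟨a, ha, e⟩, rfl⟩
        interval_cases a
        exacts [Or.inl e, Or.inr e]
      · rintro (rfl | rfl)
        exacts [⟨⟨_, S.E_mem _⟩, ⟨0, by norm_num, rfl⟩, rfl⟩, ⟨⟨_, S.E_mem _⟩, ⟨1, by norm_num, rfl⟩, rfl⟩]
    obtain ⟨v, hv, e⟩ := this.ge hu
    rwa [Subtype.ext e] at hv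
  obtain ⟨c1, i1⟩ := S.meet_facts S.isCoatom_L1 0 (by norm_num) hx₁ (S.mem_closure_conj hL1 x₁ (by
    rintro u ⟨a, ha, e⟩
    have := S.conj_mem a (by omega) (x := x₁) (by rw [show a / 2 = 0 by omega]; exact hx₁)
    rw [show Nat.blt a 2 = true from Nat.blt_eq.mpr ha, cond_true] at this
    rwa [show u = ⟨S.E (kgen a), S.E_mem _⟩ from Subtype.ext e]))
  obtain ⟨c2, i2⟩ := S.meet_facts S.isCoatom_L2 1 (by norm_num) hx₂ (S.mem_closure_conj hL2 x₂ (by
    rintro u ⟨a, ha, e⟩
    have := S.conj_mem (a + 2) (by omega) (x := x₂) (by rw [show (a + 2) / 2 = 1 by omega]; exact hx₂)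
    rw [show Nat.blt (a + 2) 2 = false from Bool.eq_false_iff.mpr fun q => by
      have := Nat.blt_eq.mp q; omega, cond_false] at this
    rwa [show u = ⟨S.E (mgen a), S.E_mem _⟩ from Subtype.ext e]))
  have hD := S.card_D
  have j1 : (meet S.H x₁).index = 100 := by
    have := S.L1.card_mul_index
    rw [S.card_L1, ← i1] at this
    nlinarith [Nat.card_pos (α := S.L1)]
  have j2 : (meet S.H x₂).index = 315 := by
    have := S.L2.card_mul_index
    rw [hD, S.card_L2, ← i2] at this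
    omega
  obtain ⟨hco, hmeet⟩ := extremelyPrimitive hidx c1 j1 c2 j2
  refine ⟨S.H.map (φ : G6 F →* chevG2.group F), (OrderIso.isCoatom_iff φ.mapSubgroup _).mpr hco,
    ⟨((φ.subgroupMap S.H).symm.trans (eH.symm.trans S.equivD)).trans CfsgLib.J2Ico.equivJ2.symm⟩, ?_⟩
  intro x hx'
  obtain ⟨y, rfl⟩ := φ.surjective x
  have hy : y ∉ S.H := fun h => hx' ⟨y, h, rfl⟩
  have h := hmeet y hy
  have e : ((S.H.map (φ : G6 F →* chevG2.group F) ⊓ (S.H.map (φ : G6 F →* chevG2.group F)).map (MulAut.conj (φ y)).toMonoidHom).subgroupOf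
      (S.H.map (φ : G6 F →* chevG2.group F))) = (meet S.H y).map ((φ.subgroupMap S.H).toMonoidHom) := by
    ext a
    obtain ⟨b, rfl⟩ := (φ.subgroupMap S.H).surjective a
    rw [Subgroup.mem_map_equiv, MulEquiv.symm_apply_apply, mem_meet]
    rw [mem_meet]
    show (φ y)⁻¹ * φ b * φ y ∈ S.H.map (φ : G6 F →* chevG2.group F) ↔ _
    rw [← map_inv, ← map_mul, ← map_mul]
    exact Subgroup.mem_map_iff_mem φ.injective
  rw [e]
  exact (OrderIso.isCoatom_iff (φ.subgroupMap S.H).mapSubgroup _).mpr h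

end CfsgLib.FusionExamples.G2J2
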