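import Cfsg.Agent.Lib.FusionExamples.G2J2Mat
import Cfsg.Agent.Lib.FusionExamples.G2J2Data
import Cfsg.Agent.Lib.FusionExamples.G2J2Tables
import Cfsg.Agent.Lib.Mathieu.J2Cert

/-! Definitions of the checks: J2 inside G2(4). -/

set_option autoImplicit false
set_option linter.all false

namespace CfsgLib.FusionExamples.G2J2

open CfsgLib.SporRecognition.CosetCert (allBelow field)
open CfsgLib.OrderDegrees.G2 (Ys)

/-- Power of a code. -/
noncomputable def cpow (t k : Nat) : Nat := Nat.rec 1 (fun _ ih => gm t ih) k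

/-- Value of a polynomial at a code. -/
noncomputable def evC (t : Nat) (l : List Nat) : Nat := List.rec 0 (fun a _ ih => ga (cpow t a) ih) l

/-- The 24 root element codes are right. -/
noncomputable def yStep (n : Nat) : Bool :=
  (List.finRange 6).all fun i => (List.finRange 6).all fun j =>
    Nat.beq (ent (ymat n) i j) (evC (n % 2 + 1) (Ys ⟨n / 2 % 12, Nat.mod_lt _ (by omega)⟩ i j))

noncomputable def wStep (n : Nat) : Bool :=
  bif Nat.beq n 0 then
    [0, 1, 2, 3, 4, 5].all fun i => [0, 1, 2, 3, 4, 5].all fun j =>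
      Nat.beq (ent (wMat 0) i j) (bif Nat.beq i j then 1 else 0)
  else
    Nat.blt (wPrev n) n && Nat.blt (wRoot n) 12 && Nat.ble 1 (wScalar n) && Nat.ble (wScalar n) 2 &&
      eqMul (wMat (wPrev n)) (ymat (Nat.add (Nat.mul 2 (wRoot n)) (Nat.sub (wScalar n) 1))) (wMat n)

/-- The permutation components multiply. -/
noncomputable def mulP (x y z : Nat) : Bool :=
  allBelow 7 100 fun u => Nat.beq (p1 x (p1 y u)) (p1 z u)

/-- Both components multiply. -/
noncomputable def mulOK (x y z : Nat) : Bool :=
  Nat.blt x matCount && Nat.blt y matCount && Nat.blt z matCount && eqMul (em x) (em y) (em z) && mulP x y z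

noncomputable def elemStep (j : Nat) : Bool :=
  allBelow 7 100 (fun u => Nat.blt (p1 j u) 100) &&
  (bif Nat.blt j 3 then true else
    Nat.blt (el j) j && Nat.blt (er j) j &&
      (bif Nat.blt j matCount then mulOK (el j) (er j) j else mulP (el j) (er j) j))

noncomputable def oneStep : Bool :=
  ([0, 1, 2, 3, 4, 5].all fun i => [0, 1, 2, 3, 4, 5].all fun j =>
      Nat.beq (ent (em 0) i j) (bif Nat.beq i j then 1 else 0)) &&
  allBelow 7 100 (fun u => Nat.beq (p1 0 u) u) &&
  Nat.beq (em 1) (wMat (wEnd.getD 0 0)) && Nat.beq (em 2) (wMat (wEnd.getD 1 0)) &&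
  (wEnd.all fun n => Nat.blt n wCount) && Nat.beq (tpt 0) 0 && Nat.beq (tslot 0) 0 && Nat.beq (lslot 0) 0

/-- Left multiplication of the top transversal by a generator. -/
noncomputable def topStep (i : Nat) : Bool :=
  let p := bif Nat.blt i 100 then i else Nat.sub i 100
  let g := bif Nat.blt i 100 then 1 else 2
  Nat.blt (aQ i) 100 && Nat.blt (aJ i) 36 && Nat.blt (aM i) 168 &&
  mulOK g (tpt p) (aZ i) && mulOK (tpt (aQ i)) (aK i) (aZ i) && mulOK (tslot (aJ i)) (lslot (aM i)) (aK i)

noncomputable def tptStep (p : Nat) : Bool :=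
  Nat.blt (tpt p) matCount && Nat.beq (p1 (tpt p) 0) p

/-- Left multiplication of the second transversal. -/
noncomputable def midStep (i : Nat) : Bool :=
  let a := Nat.div i 36
  let n := Nat.mod i 36
  Nat.blt (bQ i) 36 && Nat.blt (bM i) 168 &&
  mulOK (kgen a) (tslot n) (bZ i) && mulOK (tslot (bQ i)) (lslot (bM i)) (bZ i)

noncomputable def tslotStep (n : Nat) : Bool :=
  Nat.blt (tslot n) matCount &&
  (bif Nat.beq n 0 then true else
    Nat.blt (tslotSrc n) n && Nat.blt (tslotVia n) 2 && mulOK (kgen (tslotVia n)) (tslot (tslotSrc n)) (tslot n))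

noncomputable def lowStep (m : Nat) : Bool :=
  Nat.blt (lslot m) matCount &&
  Nat.blt (lstep m) 168 && mulOK (kgen 2) (lslot m) (lslot (lstep m)) &&
  Nat.blt (lstep (Nat.add 168 m)) 168 && mulOK (kgen 3) (lslot m) (lslot (lstep (Nat.add 168 m))) &&
  (bif Nat.beq m 0 then true else
    Nat.blt (lslotSrc m) m && Nat.blt (lslotVia m) 2 &&
      Nat.beq (lstep (Nat.add (Nat.mul 168 (lslotVia m)) (lslotSrc m))) m)

/-- The images of the four base points. -/
noncomputable def key (b0 b1 b2 b3 : Nat) : Nat :=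
  Nat.add b0 (Nat.mul 128 (Nat.add b1 (Nat.mul 128 (Nat.add b2 (Nat.mul 128 b3)))))

noncomputable def elKey (j : Nat) : Nat := key (p1 j 0) (p1 j 1) (p1 j 37) (p1 j 4)

noncomputable def lsortStep (n : Nat) : Bool :=
  Nat.blt (lsort n) 168 &&
  (bif Nat.beq n 0 then true else Nat.blt (elKey (lslot (lsort (Nat.sub n 1)))) (elKey (lslot (lsort n))))

/-- The four generators of the point stabiliser fix the point. -/
noncomputable def fixStep (a : Nat) : Bool := Nat.blt (kgen a) matCount && Nat.beq (p1 (kgen a) 0) 0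

/-- The twelve given generators are among the elements. -/
noncomputable def genStep (n : Nat) : Bool :=
  Nat.blt (genWord n) elemCount &&
  allBelow 7 100 (fun u => Nat.beq (p1 (genWord n) u) (Nat.mod (Nat.shiftRight (Mathieu.J2Cert.gensP.getD n 0) (Nat.mul 7 u)) 128))

/-- An element applied to a key. -/
noncomputable def mapKey (g c : Nat) : Nat :=
  key (p1 g (field c 7 0)) (p1 g (field c 7 1)) (p1 g (field c 7 2)) (p1 g (field c 7 3))

/-- The list of the second stabiliser. -/
noncomputable def mStep (j : Nat) : Bool :=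
  Nat.blt (mstep j) 1920 && Nat.beq (mapKey (mgen 0) (mkey j)) (mkey (mstep j)) &&
  Nat.blt (mstep (Nat.add 1920 j)) 1920 && Nat.beq (mapKey (mgen 1) (mkey j)) (mkey (mstep (Nat.add 1920 j))) &&
  (bif Nat.beq j 0 then Nat.beq (mkey 0) (key 0 1 37 4) else
    Nat.blt (msrc j) j && Nat.blt (mvia j) 2 && Nat.beq (mstep (Nat.add (Nat.mul 1920 (mvia j)) (msrc j))) j) &&
  Nat.blt (msort j) 1920 &&
  (bif Nat.beq j 0 then true else Nat.blt (mkey (msort (Nat.sub j 1))) (mkey (msort j)))

/-- A generator of the whole group or of the second stabiliser. -/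
noncomputable def cgen (a : Nat) : Nat := bif Nat.blt a 2 then Nat.add a 1 else mgen (Nat.sub a 2)

/-- Left multiplication of the cosets of the second stabiliser. -/
noncomputable def cStep (i : Nat) : Bool :=
  let g := cgen (Nat.div i 315)
  let p := Nat.mod i 315
  Nat.blt (cpt p) matCount && Nat.blt g matCount && Nat.blt (cQ i) 315 && Nat.blt (cM i) 1920 &&
  Nat.beq (mapKey g (mapKey (cpt p) (key 0 1 37 4))) (mapKey (cpt (cQ i)) (mkey (cM i)))

/-- The orbits of the first stabiliser on the points. -/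
noncomputable def nearStep (p : Nat) : Bool :=
  Nat.blt (nearLab p) 3 && Nat.blt (nearOrd p) 100 && Nat.blt (nearPos p) 100 &&
  Nat.beq (nearOrd (nearPos p)) p &&
  (bif Nat.beq (nearVia p) 2 then Nat.beq (nearRoot (nearLab (nearOrd p))) p else
    Nat.blt (nearVia p) 2 && Nat.blt (nearSrc p) p &&
      Nat.beq (p1 (kgen (nearVia p)) (nearOrd (nearSrc p))) (nearOrd p) &&
      Nat.beq (nearLab (nearOrd (nearSrc p))) (nearLab (nearOrd p)))

/-- The orbits of the second stabiliser on its cosets. -/
noncomputable def farStep (p : Nat) : Bool :=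
  Nat.blt (farLab p) 6 && Nat.blt (farOrd p) 315 && Nat.blt (farPos p) 315 &&
  Nat.beq (farOrd (farPos p)) p &&
  (bif Nat.beq (farVia p) 2 then Nat.beq (farRoot (farLab (farOrd p))) p else
    Nat.blt (farVia p) 2 && Nat.blt (farSrc p) p &&
      Nat.beq (cQ (Nat.add (Nat.mul 315 (Nat.add 2 (farVia p))) (farOrd (farSrc p)))) (farOrd p) &&
      Nat.beq (farLab (farOrd (farSrc p))) (farLab (farOrd p)))

noncomputable def inO (v : Nat) : Bool := Nat.beq (field orbO 1 v) 1

/-- The set is kept by both generators. -/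
noncomputable def orbStep (v : Nat) : Bool :=
  bif inO v then inO (mulV (em 1) v) && inO (mulV (em 2) v) else true

/-- The two coset representatives. -/
noncomputable def xmat (i : Nat) : Nat := wMat (wEnd.getD (Nat.add 2 i) 0)

/-- The two representatives do not normalise the subgroup. -/
noncomputable def movedStep (i : Nat) : Bool :=
  let v := (moved.getD i (0, 0)).1
  let e := (moved.getD i (0, 0)).2
  Nat.blt v 4096 && Nat.blt e 3 && inO (mulV (xmat i) v) && !(inO (mulV (xmat i) (mulV (em e) v)))

/-- Conjugates of stabiliser generators by the representatives. -/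
noncomputable def conjStep (i : Nat) : Bool :=
  let f := conjFacts.getD i (0, 0, 0)
  let x := xmat (Nat.div i 2)
  Nat.beq f.1 (bif Nat.blt i 2 then kgen i else mgen (Nat.sub i 2)) &&
  Nat.blt f.1 matCount && Nat.blt f.2.1 matCount && eqMul (em f.1) x f.2.2 && eqMul x (em f.2.1) f.2.2

end CfsgLib.FusionExamples.G2J2
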