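import Cfsg.Agent.Lib.FusionExamples.G2J2Check
import Cfsg.Agent.Lib.SporRecognition.CosetCert.Order

/-! Checks: J2 inside G2(4), B. -/

set_option autoImplicit false
set_option linter.all false
set_option Elab.async false

namespace CfsgLib.FusionExamples.G2J2

open CfsgLib.SporRecognition.CosetCert (allBelow allBelow_of_upto Upto allPow allPow_append)

theorem top_ok_0 : allPow 200 topStep 4 0 = true := by decide +kernel

theorem top_ok_1 : allPow 200 topStep 4 16 = true := by decide +kernel

theorem top_ok_2 : allPow 200 topStep 4 32 = true := by decide +kernel

theorem top_ok_3 : allPow 200 topStep 4 48 = true := by decide +kernel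

theorem top_ok_4 : allPow 200 topStep 4 64 = true := by decide +kernel

theorem top_ok_5 : allPow 200 topStep 4 80 = true := by decide +kernel

theorem top_ok_6 : allPow 200 topStep 4 96 = true := by decide +kernel

theorem top_ok_7 : allPow 200 topStep 4 112 = true := by decide +kernel

theorem top_ok_8 : allPow 200 topStep 4 128 = true := by decide +kernel

theorem top_ok_9 : allPow 200 topStep 4 144 = true := by decide +kernel

theorem top_ok_10 : allPow 200 topStep 4 160 = true := by decide +kernel

theorem top_ok_11 : allPow 200 topStep 4 176 = true := by decide +kernel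

theorem top_ok_12 : allPow 200 topStep 4 192 = true := by decide +kernel

theorem top_ok_13 : allPow 200 topStep 4 208 = true := by decide +kernel

theorem top_ok_14 : allPow 200 topStep 4 224 = true := by decide +kernel

theorem top_ok_15 : allPow 200 topStep 4 240 = true := by decide +kernel

theorem top_ok : allBelow 8 200 topStep = true :=
  allBelow_of_upto (hi := 256) (Upto.of_pow (d := 8) (allPow_append (allPow_append (allPow_append (allPow_append top_ok_0 top_ok_1) (allPow_append top_ok_2 top_ok_3)) (allPow_append (allPow_append top_ok_4 top_ok_5) (allPow_append top_ok_6 top_ok_7))) (allPow_append (allPow_append (allPow_append top_ok_8 top_ok_9) (allPow_append top_ok_10 top_ok_11)) (allPow_append (allPow_append top_ok_12 top_ok_13) (allPow_append top_ok_14 top_ok_15)))) (Nat.le_refl _)) (by decide) (by decide)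

theorem mid_ok_0 : allPow 144 midStep 4 0 = true := by decide +kernel

theorem mid_ok_1 : allPow 144 midStep 4 16 = true := by decide +kernel

theorem mid_ok_2 : allPow 144 midStep 4 32 = true := by decide +kernel

theorem mid_ok_3 : allPow 144 midStep 4 48 = true := by decide +kernel

theorem mid_ok_4 : allPow 144 midStep 4 64 = true := by decide +kernel

theorem mid_ok_5 : allPow 144 midStep 4 80 = true := by decide +kernel

theorem mid_ok_6 : allPow 144 midStep 4 96 = true := by decide +kernel

theorem mid_ok_7 : allPow 144 midStep 4 112 = true := by decide +kernel

theorem mid_ok_8 : allPow 144 midStep 4 128 = true := by decide +kernel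

theorem mid_ok_9 : allPow 144 midStep 4 144 = true := by decide +kernel

theorem mid_ok_10 : allPow 144 midStep 4 160 = true := by decide +kernel

theorem mid_ok_11 : allPow 144 midStep 4 176 = true := by decide +kernel

theorem mid_ok_12 : allPow 144 midStep 4 192 = true := by decide +kernel

theorem mid_ok_13 : allPow 144 midStep 4 208 = true := by decide +kernel

theorem mid_ok_14 : allPow 144 midStep 4 224 = true := by decide +kernel

theorem mid_ok_15 : allPow 144 midStep 4 240 = true := by decide +kernel

theorem mid_ok : allBelow 8 144 midStep = true :=
  allBelow_of_upto (hi := 256) (Upto.of_pow (d := 8) (allPow_append (allPow_append (allPow_append (allPow_append mid_ok_0 mid_ok_1) (allPow_append mid_ok_2 mid_ok_3)) (allPow_append (allPow_append mid_ok_4 mid_ok_5) (allPow_append mid_ok_6 mid_ok_7))) (allPow_append (allPow_append (allPow_append mid_ok_8 mid_ok_9) (allPow_append mid_ok_10 mid_ok_11)) (allPow_append (allPow_append mid_ok_12 mid_ok_13) (allPow_append mid_ok_14 mid_ok_15)))) (Nat.le_refl _)) (by decide) (by decide)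

end CfsgLib.FusionExamples.G2J2
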