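import Cfsg.Agent.Lib.FusionExamples.G2J2Check
import Cfsg.Agent.Lib.SporRecognition.CosetCert.Order

/-! Checks: J2 inside G2(4), C. -/

set_option autoImplicit false
set_option linter.all false
set_option Elab.async false

namespace CfsgLib.FusionExamples.G2J2

open CfsgLib.SporRecognition.CosetCert (allBelow allBelow_of_upto Upto allPow allPow_append)

theorem low_ok_0 : allPow 168 lowStep 4 0 = true := by decide +kernel

theorem low_ok_1 : allPow 168 lowStep 4 16 = true := by decide +kernel

theorem low_ok_2 : allPow 168 lowStep 4 32 = true := by decide +kernel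

theorem low_ok_3 : allPow 168 lowStep 4 48 = true := by decide +kernel

theorem low_ok_4 : allPow 168 lowStep 4 64 = true := by decide +kernel

theorem low_ok_5 : allPow 168 lowStep 4 80 = true := by decide +kernel

theorem low_ok_6 : allPow 168 lowStep 4 96 = true := by decide +kernel

theorem low_ok_7 : allPow 168 lowStep 4 112 = true := by decide +kernel

theorem low_ok_8 : allPow 168 lowStep 4 128 = true := by decide +kernel

theorem low_ok_9 : allPow 168 lowStep 4 144 = true := by decide +kernel

theorem low_ok_10 : allPow 168 lowStep 4 160 = true := by decide +kernel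

theorem low_ok_11 : allPow 168 lowStep 4 176 = true := by decide +kernel

theorem low_ok_12 : allPow 168 lowStep 4 192 = true := by decide +kernel

theorem low_ok_13 : allPow 168 lowStep 4 208 = true := by decide +kernel

theorem low_ok_14 : allPow 168 lowStep 4 224 = true := by decide +kernel

theorem low_ok_15 : allPow 168 lowStep 4 240 = true := by decide +kernel

theorem low_ok : allBelow 8 168 lowStep = true :=
  allBelow_of_upto (hi := 256) (Upto.of_pow (d := 8) (allPow_append (allPow_append (allPow_append (allPow_append low_ok_0 low_ok_1) (allPow_append low_ok_2 low_ok_3)) (allPow_append (allPow_append low_ok_4 low_ok_5) (allPow_append low_ok_6 low_ok_7))) (allPow_append (allPow_append (allPow_append low_ok_8 low_ok_9) (allPow_append low_ok_10 low_ok_11)) (allPow_append (allPow_append low_ok_12 low_ok_13) (allPow_append low_ok_14 low_ok_15)))) (Nat.le_refl _)) (by decide) (by decide)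

theorem tslot_ok_0 : allPow 36 tslotStep 6 0 = true := by decide +kernel

theorem tslot_ok : allBelow 6 36 tslotStep = true :=
  allBelow_of_upto (hi := 64) (Upto.of_pow (d := 6) tslot_ok_0 (Nat.le_refl _)) (by decide) (by decide)

theorem lsort_ok_0 : allPow 168 lsortStep 8 0 = true := by decide +kernel

theorem lsort_ok : allBelow 8 168 lsortStep = true :=
  allBelow_of_upto (hi := 256) (Upto.of_pow (d := 8) lsort_ok_0 (Nat.le_refl _)) (by decide) (by decide)

theorem fix_ok_0 : allPow 4 fixStep 2 0 = true := by decide +kernel

theorem fix_ok : allBelow 2 4 fixStep = true :=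
  allBelow_of_upto (hi := 4) (Upto.of_pow (d := 2) fix_ok_0 (Nat.le_refl _)) (by decide) (by decide)

theorem tpt_ok_0 : allPow 100 tptStep 7 0 = true := by decide +kernel

theorem tpt_ok : allBelow 7 100 tptStep = true :=
  allBelow_of_upto (hi := 128) (Upto.of_pow (d := 7) tpt_ok_0 (Nat.le_refl _)) (by decide) (by decide)

theorem gen_ok_0 : allPow 12 genStep 4 0 = true := by decide +kernel

theorem gen_ok : allBelow 4 12 genStep = true :=
  allBelow_of_upto (hi := 16) (Upto.of_pow (d := 4) gen_ok_0 (Nat.le_refl _)) (by decide) (by decide)

end CfsgLib.FusionExamples.G2J2
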