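import Cfsg.Agent.Lib.FusionExamples.G2J2Check
import Cfsg.Agent.Lib.SporRecognition.CosetCert.Order

/-! Checks: J2 inside G2(4), D. -/

set_option autoImplicit false
set_option linter.all false
set_option Elab.async false

namespace CfsgLib.FusionExamples.G2J2

open CfsgLib.SporRecognition.CosetCert (allBelow allBelow_of_upto Upto allPow allPow_append)

theorem m_ok_0 : allPow 1920 mStep 9 0 = true := by decide +kernel

theorem m_ok_1 : allPow 1920 mStep 9 512 = true := by decide +kernel

theorem m_ok_2 : allPow 1920 mStep 9 1024 = true := by decide +kernel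

theorem m_ok_3 : allPow 1920 mStep 9 1536 = true := by decide +kernel

theorem m_ok : allBelow 11 1920 mStep = true :=
  allBelow_of_upto (hi := 2048) (Upto.of_pow (d := 11) (allPow_append (allPow_append m_ok_0 m_ok_1) (allPow_append m_ok_2 m_ok_3)) (Nat.le_refl _)) (by decide) (by decide)

theorem c_ok_0 : allPow 1260 cStep 9 0 = true := by decide +kernel

theorem c_ok_1 : allPow 1260 cStep 9 512 = true := by decide +kernel

theorem c_ok_2 : allPow 1260 cStep 9 1024 = true := by decide +kernel

theorem c_ok_3 : allPow 1260 cStep 9 1536 = true := by decide +kernel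

theorem c_ok : allBelow 11 1260 cStep = true :=
  allBelow_of_upto (hi := 2048) (Upto.of_pow (d := 11) (allPow_append (allPow_append c_ok_0 c_ok_1) (allPow_append c_ok_2 c_ok_3)) (Nat.le_refl _)) (by decide) (by decide)

theorem near_ok_0 : allPow 100 nearStep 7 0 = true := by decide +kernel

theorem near_ok : allBelow 7 100 nearStep = true :=
  allBelow_of_upto (hi := 128) (Upto.of_pow (d := 7) near_ok_0 (Nat.le_refl _)) (by decide) (by decide)

theorem far_ok_0 : allPow 315 farStep 9 0 = true := by decide +kernel

theorem far_ok : allBelow 9 315 farStep = true :=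
  allBelow_of_upto (hi := 512) (Upto.of_pow (d := 9) far_ok_0 (Nat.le_refl _)) (by decide) (by decide)

end CfsgLib.FusionExamples.G2J2
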