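import Cfsg.Agent.Lib.FusionExamples.G2J2Check
import Cfsg.Agent.Lib.SporRecognition.CosetCert.Order

/-! Checks: J2 inside G2(4), E. -/

set_option autoImplicit false
set_option linter.all false
set_option Elab.async false

namespace CfsgLib.FusionExamples.G2J2

open CfsgLib.SporRecognition.CosetCert (allBelow allBelow_of_upto Upto allPow allPow_append)

theorem y_ok_0 : allPow 24 yStep 5 0 = true := by decide +kernel

theorem y_ok : allBelow 5 24 yStep = true :=
  allBelow_of_upto (hi := 32) (Upto.of_pow (d := 5) y_ok_0 (Nat.le_refl _)) (by decide) (by decide)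

theorem w_ok_0 : allPow 153 wStep 8 0 = true := by decide +kernel

theorem w_ok : allBelow 8 153 wStep = true :=
  allBelow_of_upto (hi := 256) (Upto.of_pow (d := 8) w_ok_0 (Nat.le_refl _)) (by decide) (by decide)

theorem orb_ok_0 : allPow 4096 orbStep 9 0 = true := by decide +kernel

theorem orb_ok_1 : allPow 4096 orbStep 9 512 = true := by decide +kernel

theorem orb_ok_2 : allPow 4096 orbStep 9 1024 = true := by decide +kernel

theorem orb_ok_3 : allPow 4096 orbStep 9 1536 = true := by decide +kernel

theorem orb_ok_4 : allPow 4096 orbStep 9 2048 = true := by decide +kernel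

theorem orb_ok_5 : allPow 4096 orbStep 9 2560 = true := by decide +kernel

theorem orb_ok_6 : allPow 4096 orbStep 9 3072 = true := by decide +kernel

theorem orb_ok_7 : allPow 4096 orbStep 9 3584 = true := by decide +kernel

theorem orb_ok : allBelow 12 4096 orbStep = true :=
  allBelow_of_upto (hi := 4096) (Upto.of_pow (d := 12) (allPow_append (allPow_append (allPow_append orb_ok_0 orb_ok_1) (allPow_append orb_ok_2 orb_ok_3)) (allPow_append (allPow_append orb_ok_4 orb_ok_5) (allPow_append orb_ok_6 orb_ok_7))) (Nat.le_refl _)) (by decide) (by decide)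

theorem moved_ok_0 : allPow 2 movedStep 1 0 = true := by decide +kernel

theorem moved_ok : allBelow 1 2 movedStep = true :=
  allBelow_of_upto (hi := 2) (Upto.of_pow (d := 1) moved_ok_0 (Nat.le_refl _)) (by decide) (by decide)

theorem conj_ok_0 : allPow 4 conjStep 2 0 = true := by decide +kernel

theorem conj_ok : allBelow 2 4 conjStep = true :=
  allBelow_of_upto (hi := 4) (Upto.of_pow (d := 2) conj_ok_0 (Nat.le_refl _)) (by decide) (by decide)

theorem one_ok : oneStep = true := by decide +kernel

end CfsgLib.FusionExamples.G2J2
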