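import Cfsg.Agent.Lib.FusionExamples.G2J2CheckA
import Cfsg.Agent.Lib.FusionExamples.G2J2CheckB
import Cfsg.Agent.Lib.FusionExamples.G2J2CheckC
import Cfsg.Agent.Lib.FusionExamples.G2J2CheckD
import Cfsg.Agent.Lib.FusionExamples.G2J2CheckE
import Cfsg.Agent.Lib.SporadicB.J3.Engine
import Cfsg.Agent.Lib.Mathieu.J2

/-!
The subgroup J2 of the six dimensional group G2(4): a diagonal subgroup of G2(4) × Sym(100),
bounded by a chain of cosets, projects isomorphically to both factors.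
-/

set_option autoImplicit false
set_option linter.all false

namespace CfsgLib.FusionExamples.G2J2

open Matrix
open CfsgLib.SporRecognition.CosetCert (allBelow allBelow_spec field)
open CfsgLib.OrderDegrees.G2 (G6 Ygl Ygl_mem Ygl_val Y evM Ys ev)
open CfsgLib.SporadicB.J3 (exists_coset card_le_cosets closure_subset_of_left_closed)

theorem gen_inj : allBelow 7 100 (fun u => allBelow 7 100 fun v => Nat.beq u v ||
    (!(Nat.beq (p1 1 u) (p1 1 v)) && !(Nat.beq (p1 2 u) (p1 2 v)))) = true := by decide +kernel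

theorem em_one_ne : ∃ i j : Fin 6, True ∧ ent (em 1) i j < 4 ∧ ent (em 1) i j ≠ if i = j then 1 else 0 := by
  decide +kernel

attribute [local irreducible] em p1 el er tpt tslot lslot tslotVia tslotSrc lslotVia lslotSrc kgen
  aZ aQ aJ aM aK bZ bQ bM lstep lsort genWord mgen mkey mvia msrc mstep msort cpt cQ cM
  wPrev wRoot wScalar wMat ymat gm ga

variable {F : Type*} [Field F] [CharP F 2] {ω : F} (hω : ω ^ 2 + ω + 1 = 0)

theorem cf_cpow (hω : ω ^ 2 + ω + 1 = 0) {t : Nat} (ht : t < 4) (k : Nat) :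
    cpow t k < 4 ∧ cf ω (cpow t k) = cf ω t ^ k := by
  induction k with
  | zero => exact ⟨show (1 : Nat) < 4 by norm_num, by simp [cpow, cf]⟩
  | succ k ih =>
    refine ⟨gm_lt _ _, ?_⟩
    show cf ω (gm t (cpow t k)) = _
    rw [cf_gm hω ht ih.1, ih.2, pow_succ']

theorem cf_evC (hω : ω ^ 2 + ω + 1 = 0) {t : Nat} (ht : t < 4) (l : List Nat) :
    evC t l < 4 ∧ cf ω (evC t l) = ev (cf ω t) l := by
  induction l with
  | nil => exact ⟨show (0 : Nat) < 4 by norm_num, rfl⟩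
  | cons a l ih =>
    refine ⟨ga_lt _ _, ?_⟩
    show cf ω (ga (cpow t a) (evC t l)) = _
    rw [cf_ga (cf_cpow hω ht a).1 ih.1, (cf_cpow hω ht a).2, ih.2, CfsgLib.OrderDegrees.G2.ev_cons]

include hω in
theorem mat_ymat (r : Fin 12) {t : Nat} (ht : t = 1 ∨ t = 2) :
    mat ω (ymat (Nat.add (Nat.mul 2 r) (Nat.sub t 1))) = Y r (cf ω t) := by
  have hn : Nat.add (Nat.mul 2 r) (Nat.sub t 1) < 24 := by
    have := r.2; simp only [Nat.add_eq, Nat.mul_eq, Nat.sub_eq]; omega
  have h := allBelow_spec y_ok _ hn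
  simp only [yStep, List.all_eq_true, List.mem_finRange, forall_const, Nat.beq_eq] at h
  have hr : (⟨Nat.add (Nat.mul 2 r) (Nat.sub t 1) / 2 % 12, Nat.mod_lt _ (by omega)⟩ : Fin 12) = r :=
    Fin.ext (by have := r.2; simp only [Nat.add_eq, Nat.mul_eq, Nat.sub_eq]; omega)
  have ht' : Nat.add (Nat.mul 2 r) (Nat.sub t 1) % 2 + 1 = t := by
    simp only [Nat.add_eq, Nat.mul_eq, Nat.sub_eq]; omega
  ext i j
  show cf ω (ent _ i j) = evM _ (Ys r) i j
  rw [h i j, hr, ht', (cf_evC hω (by omega) _).2]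
  rfl

include hω in
theorem mat_id {A : Nat} (h : ([0, 1, 2, 3, 4, 5].all fun i => [0, 1, 2, 3, 4, 5].all fun j =>
    Nat.beq (ent A i j) (bif Nat.beq i j then 1 else 0)) = true) : mat ω A = 1 := by
  simp only [List.all_eq_true, Nat.beq_eq] at h
  ext i j
  show cf ω (ent A i j) = _
  rw [h i (by fin_cases i <;> simp) j (by fin_cases j <;> simp), one_apply]
  by_cases e : i = j
  · subst e; simp [Nat.beq_refl, cf]
  · rw [if_neg e, show Nat.beq (i : Nat) j = false from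
      Bool.eq_false_iff.mpr fun q => e (Fin.ext (Nat.eq_of_beq_eq_true q))]
    rfl

include hω in
theorem exists_word (n : Nat) (hn : n < 153) :
    ∃ g ∈ G6 F, (g : Matrix (Fin 6) (Fin 6) F) = mat ω (wMat n) := by
  induction n using Nat.strongRecOn with
  | _ n ih =>
    have h := allBelow_spec w_ok n hn
    by_cases h0 : n = 0
    · subst h0
      exact ⟨1, one_mem _, (mat_id hω (by simpa [wStep] using h)).symm⟩
    rw [wStep, show Nat.beq n 0 = false from Bool.eq_false_iff.mpr fun e => h0 (Nat.eq_of_beq_eq_true e),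
      cond_false] at h
    simp only [Bool.and_eq_true, Nat.blt_eq, Nat.ble_eq] at h
    obtain ⟨⟨⟨⟨hp, hr⟩, h1⟩, h2⟩, hm⟩ := h
    obtain ⟨g, hg, hge⟩ := ih _ hp (hp.trans hn)
    refine ⟨g * Ygl ⟨wRoot n, hr⟩ (cf ω (wScalar n)), mul_mem hg (Ygl_mem _ _), ?_⟩
    rw [Units.val_mul, hge, Ygl_val, ← mat_ymat hω ⟨wRoot n, hr⟩ (by omega), eqMul_spec hω hm]

/-- A matrix paired with a permutation of 100 points. -/
abbrev P (F : Type*) [Field F] [CharP F 2] : Type _ := G6 F × Equiv.Perm (Fin 100)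

/-- The pair has the tables of element `j`. -/
def IsEl (ω : F) (x : P F) (j : Nat) : Prop :=
  (j < matCount → ((x.1 : GL (Fin 6) F) : Matrix (Fin 6) (Fin 6) F) = mat ω (em j)) ∧
    ∀ u : Fin 100, ((x.2 u : Fin 100) : Nat) = p1 j u

theorem IsEl.unique {x y : P F} {j : Nat} (hj : j < matCount) (hx : IsEl ω x j) (hy : IsEl ω y j) : x = y :=
  Prod.ext (Subtype.ext (Units.ext ((hx.1 hj).trans (hy.1 hj).symm)))
    (Equiv.ext fun u => Fin.ext ((hx.2 u).trans (hy.2 u).symm))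

theorem p1_lt {j : Nat} (hj : j < elemCount) {u : Nat} (hu : u < 100) : p1 j u < 100 := by
  have h := allBelow_spec elem_ok j hj
  simp only [elemStep, Bool.and_eq_true] at h
  exact Nat.blt_eq.mp (allBelow_spec h.1 u hu)

theorem one_spec :
    ([0, 1, 2, 3, 4, 5].all fun i => [0, 1, 2, 3, 4, 5].all fun j =>
      Nat.beq (ent (em 0) i j) (bif Nat.beq i j then 1 else 0)) = true ∧
    (∀ u < 100, p1 0 u = u) ∧ em 1 = wMat (wEnd.getD 0 0) ∧ em 2 = wMat (wEnd.getD 1 0) ∧
    (∀ n ∈ wEnd, n < 153) ∧ tpt 0 = 0 ∧ tslot 0 = 0 ∧ lslot 0 = 0 := by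
  have h := one_ok
  simp only [oneStep, Bool.and_eq_true, Nat.beq_eq] at h
  obtain ⟨⟨⟨⟨⟨⟨⟨a, b⟩, c⟩, d⟩, e⟩, f⟩, g⟩, k⟩ := h
  exact ⟨a, fun u hu => Nat.eq_of_beq_eq_true (allBelow_spec b u hu), c, d,
    fun n hn => Nat.blt_eq.mp (List.all_eq_true.mp e n hn), f, g, k⟩

include hω in
theorem exists_gens : ∃ a b : P F, IsEl ω a 1 ∧ IsEl ω b 2 := by
  have hperm : ∀ j, 1 ≤ j → j ≤ 2 → ∃ σ : Equiv.Perm (Fin 100), ∀ u : Fin 100, ((σ u : Fin 100) : Nat) = p1 j u := by
    intro j h1 h2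
    have hj : j < elemCount := lt_of_le_of_lt h2 (by decide)
    let f : Fin 100 → Fin 100 := fun u => ⟨p1 j u, p1_lt hj u.2⟩
    have hs : Function.Injective f := fun u v e => Fin.ext (by
      by_contra hne
      have h := allBelow_spec (allBelow_spec gen_inj u u.2) v v.2
      simp only [Bool.or_eq_true, Bool.and_eq_true, Bool.not_eq_true', Nat.beq_eq, hne, false_or] at h
      have e' : p1 j u = p1 j v := congrArg Fin.val e
      rcases (show j = 1 ∨ j = 2 by omega) with rfl | rfl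
      · exact Nat.ne_of_beq_eq_false h.1 e'
      · exact Nat.ne_of_beq_eq_false h.2 e')
    exact ⟨Equiv.ofBijective f (Finite.injective_iff_bijective.1 hs), fun u => rfl⟩
  obtain ⟨-, -, ha, hb, hw, -⟩ := one_spec
  obtain ⟨ga', hga, hgae⟩ := exists_word hω _ (hw (wEnd.getD 0 0) (by decide))
  obtain ⟨gb', hgb, hgbe⟩ := exists_word hω _ (hw (wEnd.getD 1 0) (by decide))
  obtain ⟨σ, hσ⟩ := hperm 1 le_rfl (by norm_num)
  obtain ⟨τ, hτ⟩ := hperm 2 (by norm_num) le_rfl
  exact ⟨(⟨ga', hga⟩, σ), (⟨gb', hgb⟩, τ), ⟨fun _ => by rw [ha]; exact hgae, hσ⟩,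
    ⟨fun _ => by rw [hb]; exact hgbe, hτ⟩⟩

/-- The two generators with their tables. -/
structure Gens (F : Type*) [Field F] [CharP F 2] (ω : F) where
  hω : ω ^ 2 + ω + 1 = 0
  a : P F
  b : P F
  a_el : IsEl ω a 1
  b_el : IsEl ω b 2

namespace Gens

variable (S : Gens F ω)
include S

/-- The diagonal subgroup. -/
noncomputable def D : Subgroup (P F) := Subgroup.closure {S.a, S.b}

theorem isEl_one : IsEl ω (1 : P F) 0 := by
  obtain ⟨h0, h1, -⟩ := one_spec
  exact ⟨fun _ => (mat_id S.hω h0).symm, fun u => (h1 u u.2).symm⟩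

theorem mulP_spec {x y z : Nat} (h : mulP x y z = true) {a b : P F} (ha : IsEl ω a x) (hb : IsEl ω b y)
    (u : Fin 100) : (((a * b).2 u : Fin 100) : Nat) = p1 z u := by
  show ((a.2 (b.2 u) : Fin 100) : Nat) = _
  rw [ha.2, hb.2]
  exact Nat.eq_of_beq_eq_true (allBelow_spec h u u.2)

theorem mulOK_spec {x y z : Nat} (h : mulOK x y z = true) {a b : P F} (ha : IsEl ω a x) (hb : IsEl ω b y) :
    IsEl ω (a * b) z := by
  simp only [mulOK, Bool.and_eq_true, Nat.blt_eq] at h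
  obtain ⟨⟨⟨⟨hx, hy⟩, -⟩, hm⟩, hp⟩ := h
  refine ⟨fun _ => ?_, mulP_spec S hp ha hb⟩
  show ((a.1 : GL (Fin 6) F) : Matrix (Fin 6) (Fin 6) F) * ((b.1 : GL (Fin 6) F) : Matrix (Fin 6) (Fin 6) F) = _
  rw [ha.1 hx, hb.1 hy, eqMul_spec S.hω hm]

theorem exists_el (j : Nat) (hj : j < elemCount) : ∃ x ∈ S.D, IsEl ω x j := by
  induction j using Nat.strongRecOn with
  | _ j ih =>
    by_cases h3 : j < 3
    · interval_cases j
      · exact ⟨1, one_mem _, S.isEl_one⟩
      · exact ⟨S.a, Subgroup.subset_closure (Or.inl rfl), S.a_el⟩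
      · exact ⟨S.b, Subgroup.subset_closure (Or.inr rfl), S.b_el⟩
    have h := allBelow_spec elem_ok j hj
    rw [elemStep, show Nat.blt j 3 = false from Bool.eq_false_iff.mpr fun e => h3 (Nat.blt_eq.mp e),
      cond_false] at h
    simp only [Bool.and_eq_true, Nat.blt_eq] at h
    obtain ⟨-, ⟨hl, hr⟩, hm⟩ := h
    obtain ⟨x, hx, hxe⟩ := ih _ hl (hl.trans hj)
    obtain ⟨y, hy, hye⟩ := ih _ hr (hr.trans hj)
    refine ⟨x * y, mul_mem hx hy, ?_⟩
    by_cases hc : j < matCount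
    · rw [show Nat.blt j matCount = true from Nat.blt_eq.mpr hc, cond_true] at hm
      exact mulOK_spec S hm hxe hye
    · rw [show Nat.blt j matCount = false from Bool.eq_false_iff.mpr fun e => hc (Nat.blt_eq.mp e),
        cond_false] at hm
      exact ⟨fun e => absurd e hc, mulP_spec S hm hxe hye⟩

/-- The element with the given number. -/
noncomputable def E (j : Nat) : P F := if h : j < elemCount then (S.exists_el j h).choose else 1

theorem E_mem (j : Nat) : S.E j ∈ S.D := by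
  unfold E; split_ifs with h
  exacts [(S.exists_el j h).choose_spec.1, one_mem _]

theorem E_el {j : Nat} (hj : j < elemCount) : IsEl ω (S.E j) j := by
  rw [E, dif_pos hj]; exact (S.exists_el j hj).choose_spec.2

theorem lt_elem {j : Nat} (hj : j < matCount) : j < elemCount := hj.trans (by decide)

theorem E_zero : S.E 0 = 1 :=
  (S.E_el (by decide)).unique (by decide) S.isEl_one

theorem E_one : S.E 1 = S.a := (S.E_el (by decide)).unique (by decide) S.a_el

theorem E_two : S.E 2 = S.b := (S.E_el (by decide)).unique (by decide) S.b_el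

theorem E_mul {x y z : Nat} (h : mulOK x y z = true) : S.E x * S.E y = S.E z := by
  have h' := h
  simp only [mulOK, Bool.and_eq_true, Nat.blt_eq] at h'
  obtain ⟨⟨⟨⟨hx, hy⟩, hz⟩, -⟩, -⟩ := h'
  exact (mulOK_spec S h (S.E_el (S.lt_elem hx)) (S.E_el (S.lt_elem hy))).unique hz (S.E_el (S.lt_elem hz))

/-- The stabiliser of the point in the diagonal subgroup, by four generators. -/
noncomputable def K1 : Subgroup (P F) := Subgroup.closure (Set.range fun a : Fin 4 => S.E (kgen a))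

theorem kgen_mem (a : Nat) (ha : a < 4) : S.E (kgen a) ∈ S.K1 := Subgroup.subset_closure ⟨⟨a, ha⟩, rfl⟩

theorem lslot_mem (m : Nat) (hm : m < 168) :
    S.E (lslot m) ∈ Subgroup.closure ({S.E (kgen 2), S.E (kgen 3)} : Set (P F)) := by
  induction m using Nat.strongRecOn with
  | _ m ih =>
    obtain ⟨-, -, -, -, -, -, -, hl0⟩ := one_spec
    by_cases h0 : m = 0
    · subst h0; rw [hl0, S.E_zero]; exact one_mem _
    have h := allBelow_spec low_ok m hm
    simp only [lowStep, Bool.and_eq_true, Nat.blt_eq] at h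
    have ht := h.2
    rw [show Nat.beq m 0 = false from Bool.eq_false_iff.mpr fun e => h0 (Nat.eq_of_beq_eq_true e),
      cond_false] at ht
    simp only [Bool.and_eq_true, Nat.blt_eq, Nat.beq_eq] at ht
    obtain ⟨⟨hsrc, hv⟩, he⟩ := ht
    have hs := allBelow_spec low_ok _ (hsrc.trans hm)
    simp only [lowStep, Bool.and_eq_true, Nat.blt_eq] at hs
    obtain ⟨⟨⟨⟨⟨-, -⟩, m0⟩, -⟩, m1⟩, -⟩ := hs
    obtain ⟨v, hv'⟩ : ∃ v, lslotVia m = v := ⟨_, rfl⟩
    rw [hv'] at he hv
    interval_cases v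
    · rw [← he, show Nat.add (Nat.mul 168 0) (lslotSrc m) = lslotSrc m by simp [Nat.add_eq, Nat.mul_eq],
        ← S.E_mul m0]
      exact mul_mem (Subgroup.subset_closure (Or.inl rfl)) (ih _ hsrc (hsrc.trans hm))
    · rw [← he, show Nat.add (Nat.mul 168 1) (lslotSrc m) = Nat.add 168 (lslotSrc m) by
        simp [Nat.add_eq, Nat.mul_eq], ← S.E_mul m1]
      exact mul_mem (Subgroup.subset_closure (Or.inr rfl)) (ih _ hsrc (hsrc.trans hm))

theorem lslot_cover {x : P F} (hx : x ∈ Subgroup.closure ({S.E (kgen 2), S.E (kgen 3)} : Set (P F))) [Finite F] :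
    ∃ m < 168, x = S.E (lslot m) := by
  obtain ⟨-, -, -, -, -, -, -, hl0⟩ := one_spec
  refine closure_subset_of_left_closed _ {x | ∃ m < 168, x = S.E (lslot m)}
    ⟨0, by norm_num, by rw [hl0, S.E_zero]⟩ ?_ x hx
  rintro s hs _ ⟨m, hm, rfl⟩
  have h := allBelow_spec low_ok m hm
  simp only [lowStep, Bool.and_eq_true, Nat.blt_eq] at h
  obtain ⟨⟨⟨⟨⟨-, l0⟩, m0⟩, l1⟩, m1⟩, -⟩ := h
  rcases hs with rfl | rfl
  exacts [⟨_, l0, S.E_mul m0⟩, ⟨_, l1, S.E_mul m1⟩]

theorem tslot_mem (n : Nat) (hn : n < 36) : S.E (tslot n) ∈ S.K1 := by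
  induction n using Nat.strongRecOn with
  | _ n ih =>
    obtain ⟨-, -, -, -, -, -, ht0, -⟩ := one_spec
    by_cases h0 : n = 0
    · subst h0; rw [ht0, S.E_zero]; exact one_mem _
    have h := allBelow_spec tslot_ok n hn
    rw [tslotStep, show Nat.beq n 0 = false from Bool.eq_false_iff.mpr fun e => h0 (Nat.eq_of_beq_eq_true e),
      cond_false] at h
    simp only [Bool.and_eq_true, Nat.blt_eq] at h
    obtain ⟨-, ⟨hsrc, hv⟩, hm⟩ := h
    rw [← S.E_mul hm]
    exact mul_mem (S.kgen_mem _ (hv.trans (by norm_num))) (ih _ hsrc (hsrc.trans hn))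

theorem lslot_mem_K1 (m : Nat) (hm : m < 168) : S.E (lslot m) ∈ S.K1 :=
  (Subgroup.closure_le _).mpr (by
    rintro _ (rfl | rfl)
    exacts [S.kgen_mem 2 (by norm_num), S.kgen_mem 3 (by norm_num)]) (S.lslot_mem m hm)

theorem K1_cover [Finite F] {x : P F} (hx : x ∈ S.K1) :
    ∃ n < 36, ∃ m < 168, x = S.E (tslot n) * S.E (lslot m) := by
  obtain ⟨-, -, -, -, -, -, ht0, -⟩ := one_spec
  obtain ⟨p, k, hk, e⟩ := exists_coset (Set.range fun a : Fin 4 => S.E (kgen a))
    (fun n : Fin 36 => S.E (tslot n)) (Subgroup.closure ({S.E (kgen 2), S.E (kgen 3)} : Set (P F))) 0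
    (by show S.E (tslot 0) ∈ _; rw [ht0, S.E_zero]; exact one_mem _) (by
    rintro _ ⟨a, rfl⟩ n
    have hlt : 36 * (a : Nat) + n < 144 := by have := a.2; have := n.2; omega
    have h := allBelow_spec mid_ok _ hlt
    simp only [midStep] at h
    rw [show Nat.div (36 * (a : Nat) + n) 36 = a by
        show (36 * (a : Nat) + n) / 36 = a
        have := n.2; omega,
      show Nat.mod (36 * (a : Nat) + n) 36 = n by
        show (36 * (a : Nat) + n) % 36 = n
        have := n.2; omega] at h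
    simp only [Bool.and_eq_true, Nat.blt_eq] at h
    obtain ⟨⟨⟨hq, hm⟩, h1⟩, h2⟩ := h
    exact ⟨⟨_, hq⟩, S.E (lslot (bM (36 * (a : Nat) + n))), S.lslot_mem _ hm,
      (S.E_mul h1).trans (S.E_mul h2).symm⟩) x hx
  obtain ⟨m, hm, rfl⟩ := S.lslot_cover hk
  exact ⟨p, p.2, m, hm, e⟩

theorem D_cover [Finite F] {x : P F} (hx : x ∈ S.D) : ∃ p < 100, ∃ k ∈ S.K1, x = S.E (tpt p) * k := by
  obtain ⟨-, -, -, -, -, ht0, -, -⟩ := one_spec
  obtain ⟨p, k, hk, e⟩ := exists_coset ({S.a, S.b} : Set (P F))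
    (fun p : Fin 100 => S.E (tpt p)) S.K1 0
    (by show S.E (tpt 0) ∈ _; rw [ht0, S.E_zero]; exact one_mem _) (by
    intro s hs p
    obtain ⟨i, hi, hg⟩ : ∃ i < 200, (bif Nat.blt i 100 then i else Nat.sub i 100) = (p : Nat) ∧
        S.E (bif Nat.blt i 100 then 1 else 2) = s := by
      rcases hs with rfl | rfl
      · refine ⟨p, by omega, ?_⟩
        rw [show Nat.blt (p : Nat) 100 = true from Nat.blt_eq.mpr p.2]
        exact ⟨rfl, S.E_one⟩
      · refine ⟨100 + p, by omega, ?_⟩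
        rw [show Nat.blt (100 + (p : Nat)) 100 = false from Bool.eq_false_iff.mpr fun e => by
          have := Nat.blt_eq.mp e; omega]
        exact ⟨by show 100 + (p : Nat) - 100 = p; omega, S.E_two⟩
    have h := allBelow_spec top_ok i hi
    simp only [topStep, Bool.and_eq_true, Nat.blt_eq, hg.1] at h
    obtain ⟨⟨⟨⟨⟨hq, hj⟩, hm⟩, h1⟩, h2⟩, h3⟩ := h
    refine ⟨⟨_, hq⟩, S.E (aK i), ?_, ?_⟩
    · rw [← S.E_mul h3]; exact mul_mem (S.tslot_mem _ hj) (S.lslot_mem_K1 _ hm)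
    · rw [← hg.2]; exact (S.E_mul h1).trans (S.E_mul h2).symm) x hx
  exact ⟨p, p.2, k, hk, e⟩

theorem D_cover' [Finite F] {x : P F} (hx : x ∈ S.D) :
    ∃ p < 100, ∃ n < 36, ∃ m < 168, x = S.E (tpt p) * (S.E (tslot n) * S.E (lslot m)) := by
  obtain ⟨p, hp, k, hk, rfl⟩ := S.D_cover hx
  obtain ⟨n, hn, m, hm, rfl⟩ := S.K1_cover hk
  exact ⟨p, hp, n, hn, m, hm, rfl⟩

theorem card_D_le [Finite F] : Nat.card S.D ≤ 604800 := by
  choose p hp n hn m hm e using fun x : S.D => S.D_cover' x.2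
  refine le_trans (Nat.card_le_card_of_injective
    (fun x : S.D => ((⟨p x, hp x⟩, ⟨n x, hn x⟩, ⟨m x, hm x⟩) : Fin 100 × Fin 36 × Fin 168)) ?_) (by simp)
  intro x y h
  simp only [Prod.mk.injEq, Fin.mk.injEq] at h
  apply Subtype.ext
  rw [e x, e y, h.1, h.2.1, h.2.2]

/-- The projection to the permutations. -/
noncomputable def toPerm : S.D →* Equiv.Perm (Fin 100) := (MonoidHom.snd _ _).comp S.D.subtype

theorem range_toPerm [Finite F] :
    CfsgLib.Mathieu.J2.j2Group = S.toPerm.range ∧ Function.Injective S.toPerm := by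
  have hle : CfsgLib.Mathieu.J2.j2Group ≤ S.toPerm.range := by
    rw [CfsgLib.Mathieu.J2.j2Group, CfsgLib.Mathieu.RankThree.gen7, Subgroup.closure_le]
    rintro _ ⟨c, hc, rfl⟩
    obtain ⟨n, hn, hcn⟩ := List.getElem_of_mem hc
    have hlen : CfsgLib.Mathieu.J2Cert.gensP.length = 12 := by decide +kernel
    have h := allBelow_spec gen_ok n (hlen ▸ hn)
    simp only [genStep, Bool.and_eq_true, Nat.blt_eq] at h
    refine ⟨⟨S.E (genWord n), S.E_mem _⟩, Equiv.ext fun u => Fin.ext ?_⟩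
    show ((S.E (genWord n)).2 u : Nat) = _
    rw [(S.E_el h.1).2, CfsgLib.Mathieu.GraphAut.perm7_apply
      (CfsgLib.Mathieu.J2.gens_perm _ hc), ← hcn, ← List.getD_eq_getElem _ 0 hn]
    exact Nat.eq_of_beq_eq_true (allBelow_spec h.2 u u.2)
  have hc1 := CfsgLib.Mathieu.J2.card_j2Group
  have h1 : Nat.card S.toPerm.range ≤ Nat.card S.D :=
    Nat.card_le_card_of_surjective _ S.toPerm.rangeRestrict_surjective
  have h2 := Subgroup.card_le_of_le hle
  have h3 := S.card_D_le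
  refine ⟨Subgroup.eq_of_le_of_card_ge hle (by omega), ?_⟩
  rw [← MonoidHom.ker_eq_bot_iff, ← Subgroup.card_eq_one]
  have h4 := S.toPerm.ker.card_mul_index
  rw [Subgroup.index_ker] at h4
  nlinarith [Nat.card_pos (α := S.toPerm.ker)]

/-- The diagonal subgroup is J2. -/
noncomputable def equivD [Finite F] : S.D ≃* CfsgLib.Mathieu.J2.j2Group :=
  (MonoidHom.ofInjective S.range_toPerm.2).trans (MulEquiv.subgroupCongr S.range_toPerm.1.symm)

theorem card_D [Finite F] : Nat.card S.D = 604800 := by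
  rw [Nat.card_congr S.equivD.toEquiv, CfsgLib.Mathieu.J2.card_j2Group]

theorem isSimple_D [Finite F] : IsSimpleGroup S.D := by
  have := CfsgLib.Mathieu.J2.isSimpleGroup_j2Group
  exact S.equivD.isSimpleGroup

theorem perm_injective [Finite F] {x y : P F} (hx : x ∈ S.D) (hy : y ∈ S.D) (h : x.2 = y.2) : x = y :=
  congrArg Subtype.val (S.range_toPerm.2 (a₁ := ⟨x, hx⟩) (a₂ := ⟨y, hy⟩) h)

/-- The projection to the matrices. -/
noncomputable def toMat : S.D →* G6 F := (MonoidHom.fst _ _).comp S.D.subtype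

theorem toMat_injective [Finite F] : Function.Injective S.toMat := by
  have := S.isSimple_D
  rw [← MonoidHom.ker_eq_bot_iff]
  refine (inferInstance : S.toMat.ker.Normal).eq_bot_or_eq_top.resolve_right fun htop => ?_
  have h1 : S.toMat ⟨S.E 1, S.E_mem 1⟩ = 1 := MonoidHom.mem_ker.mp (htop ▸ Subgroup.mem_top _)
  have hm := (S.E_el (j := 1) (by decide)).1 (by decide)
  rw [show (S.E 1).1 = (1 : G6 F) from h1] at hm
  have hne : (mat ω (em 1) : Matrix (Fin 6) (Fin 6) F) ≠ 1 := by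
    obtain ⟨i, j, hij, hlt, hbad⟩ : ∃ i j : Fin 6, True ∧ ent (em 1) i j < 4 ∧
        ent (em 1) i j ≠ if i = j then 1 else 0 := em_one_ne
    intro e
    have := congrFun (congrFun e i) j
    rw [one_apply] at this
    refine hbad (cf_injective S.hω hlt (by split_ifs <;> omega) ?_)
    show mat ω (em 1) i j = _
    rw [congrFun (congrFun e i) j, one_apply]
    split_ifs <;> rfl
  exact hne hm.symm

end Gens

include hω in
theorem nonempty_gens : Nonempty (Gens F ω) := by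
  obtain ⟨a, b, ha, hb⟩ := exists_gens hω
  exact ⟨⟨hω, a, b, ha, hb⟩⟩

end CfsgLib.FusionExamples.G2J2
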