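import Cfsg.Agent.Lib.OrderDegrees.G2Iso
import Cfsg.Agent.Lib.SporRecognition.CosetCert.Basic

/-! Packed 6 × 6 matrices over the field with four elements, for kernel computations. -/

set_option autoImplicit false

namespace CfsgLib.FusionExamples.G2J2

open CfsgLib.SporRecognition.CosetCert (field)
open Matrix

/-- Multiplication of codes. -/
noncomputable def gm (a b : Nat) : Nat := field 2625168384 2 (Nat.add (Nat.mul 4 a) b)

/-- Addition of codes. -/
noncomputable def ga (a b : Nat) : Nat := field 458142180 2 (Nat.add (Nat.mul 4 a) b)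

noncomputable def six (f : Nat → Nat) : Nat :=
  ga (f 0) (ga (f 1) (ga (f 2) (ga (f 3) (ga (f 4) (f 5)))))

noncomputable def ent (A i j : Nat) : Nat := field A 2 (Nat.add (Nat.mul 6 i) j)

noncomputable def prodEnt (A B i j : Nat) : Nat := six fun k => gm (ent A i k) (ent B k j)

/-- The product of the first two packed matrices is the third. -/
noncomputable def eqMul (A B C : Nat) : Bool :=
  [0, 1, 2, 3, 4, 5].all fun i => [0, 1, 2, 3, 4, 5].all fun j => Nat.beq (prodEnt A B i j) (ent C i j)

noncomputable def mulV (A v : Nat) : Nat :=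
  let e := fun i => six fun k => gm (ent A i k) (field v 2 k)
  Nat.add (e 0) (Nat.mul 4 (Nat.add (e 1) (Nat.mul 4 (Nat.add (e 2) (Nat.mul 4 (Nat.add (e 3)
    (Nat.mul 4 (Nat.add (e 4) (Nat.mul 4 (e 5))))))))))

theorem gm_table : (List.range 16).map (fun i => gm (i / 4) (i % 4)) =
    [0, 0, 0, 0, 0, 1, 2, 3, 0, 2, 3, 1, 0, 3, 1, 2] := by decide +kernel

theorem ga_table : (List.range 16).map (fun i => ga (i / 4) (i % 4)) =
    [0, 1, 2, 3, 1, 0, 3, 2, 2, 3, 0, 1, 3, 2, 1, 0] := by decide +kernel

theorem gm_eq {a b : Nat} (ha : a < 4) (hb : b < 4) :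
    gm a b = [0, 0, 0, 0, 0, 1, 2, 3, 0, 2, 3, 1, 0, 3, 1, 2].getD (4 * a + b) 0 := by
  rw [← gm_table, List.getD_eq_getElem?_getD, List.getElem?_map, List.getElem?_range (by omega)]
  simp only [Option.map_some, Option.getD_some]
  congr 1 <;> omega

theorem ga_eq {a b : Nat} (ha : a < 4) (hb : b < 4) :
    ga a b = [0, 1, 2, 3, 1, 0, 3, 2, 2, 3, 0, 1, 3, 2, 1, 0].getD (4 * a + b) 0 := by
  rw [← ga_table, List.getD_eq_getElem?_getD, List.getElem?_map, List.getElem?_range (by omega)]
  simp only [Option.map_some, Option.getD_some]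
  congr 1 <;> omega

theorem field_two_lt (N i : Nat) : field N 2 i < 4 := by
  show Nat.land _ 3 < 4
  exact lt_of_le_of_lt Nat.and_le_right (by norm_num)

theorem ga_lt (a b : Nat) : ga a b < 4 := field_two_lt _ _
theorem gm_lt (a b : Nat) : gm a b < 4 := field_two_lt _ _
theorem six_lt (f : Nat → Nat) : six f < 4 := ga_lt _ _
theorem ent_lt (A i j : Nat) : ent A i j < 4 := field_two_lt _ _

section
variable {F : Type*} [Field F] [CharP F 2] {ω : F} (hω : ω ^ 2 + ω + 1 = 0)

/-- The field element of a code. -/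
def cf (ω : F) (a : Nat) : F :=
  match a with
  | 1 => 1
  | 2 => ω
  | 3 => ω + 1
  | _ => 0

omit [CharP F 2] in
theorem cf_zero : cf ω 0 = 0 := rfl

omit [CharP F 2] in
theorem cf_one : cf ω 1 = 1 := rfl

theorem cf_ga {a b : Nat} (ha : a < 4) (hb : b < 4) : cf ω (ga a b) = cf ω a + cf ω b := by
  rw [ga_eq ha hb]
  have h2 : (2 : F) = 0 := CharTwo.two_eq_zero
  interval_cases a <;> interval_cases b <;> simp [cf] <;> first
    | linear_combination h2 * 0
    | linear_combination -h2
    | linear_combination -ω * h2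
    | linear_combination -(ω + 1) * h2

include hω in
theorem cf_gm {a b : Nat} (ha : a < 4) (hb : b < 4) : cf ω (gm a b) = cf ω a * cf ω b := by
  rw [gm_eq ha hb]
  have h2 : (2 : F) = 0 := CharTwo.two_eq_zero
  interval_cases a <;> interval_cases b <;> simp [cf] <;> first
    | linear_combination -hω + (ω + 1) * h2
    | linear_combination -hω + h2
    | linear_combination -hω
    | linear_combination -hω + ω * h2

/-- The matrix of a code. -/
noncomputable def mat (ω : F) (A : Nat) : Matrix (Fin 6) (Fin 6) F := of fun i j => cf ω (ent A i j)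

theorem cf_six (f : Nat → Nat) (hf : ∀ k, f k < 4) :
    cf ω (six f) = ∑ k : Fin 6, cf ω (f k) := by
  rw [Fin.sum_univ_six, six, cf_ga (hf _) (ga_lt _ _), cf_ga (hf _) (ga_lt _ _),
    cf_ga (hf _) (ga_lt _ _), cf_ga (hf _) (ga_lt _ _), cf_ga (hf _) (hf _)]
  simp only [← add_assoc]
  rfl

include hω in
theorem mat_prodEnt (A B : Nat) (i j : Fin 6) : cf ω (prodEnt A B i j) = (mat ω A * mat ω B) i j := by
  rw [prodEnt, cf_six _ (fun k => gm_lt _ _), mul_apply]
  exact Finset.sum_congr rfl fun k _ => cf_gm hω (ent_lt _ _ _) (ent_lt _ _ _)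

include hω in
theorem eqMul_spec {A B C : Nat} (h : eqMul A B C = true) : mat ω A * mat ω B = mat ω C := by
  simp only [eqMul, List.all_cons, List.all_nil, Bool.and_true, Bool.and_eq_true, Nat.beq_eq] at h
  ext i j
  rw [← mat_prodEnt hω]
  show _ = cf ω (ent C i j)
  congr 1
  fin_cases i <;> fin_cases j <;> simp [h]

/-- The vector of a code. -/
noncomputable def vec (ω : F) (v : Nat) : Fin 6 → F := fun k => cf ω (field v 2 k)

theorem field_mulV (A v : Nat) (i : Fin 6) :
    field (mulV A v) 2 i = six fun k => gm (ent A i k) (field v 2 k) := by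
  have h : ∀ i, (six fun k => gm (ent A i k) (field v 2 k)) < 4 := fun i => six_lt _
  have h0 := h 0; have h1 := h 1; have h2 := h 2; have h3 := h 3; have h4 := h 4; have h5 := h 5
  have hf : ∀ N k, field N 2 k = N / 4 ^ k % 4 := fun N k => by
    show Nat.land (Nat.shiftRight N (2 * k)) 3 = _
    rw [show Nat.shiftRight N (2 * k) = N >>> (2 * k) from rfl, Nat.shiftRight_eq_div_pow, pow_mul]
    exact Nat.and_two_pow_sub_one_eq_mod _ 2
  rw [hf]
  simp only [mulV, Nat.add_eq, Nat.mul_eq]
  fin_cases i <;> simp only [] <;> omega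

include hω in
theorem vec_mulV (A v : Nat) : vec ω (mulV A v) = mat ω A *ᵥ vec ω v := by
  funext i
  show cf ω (field (mulV A v) 2 i) = _
  rw [field_mulV, cf_six _ (fun k => gm_lt _ _), mulVec, dotProduct]
  exact Finset.sum_congr rfl fun k _ => cf_gm hω (ent_lt _ _ _) (field_two_lt _ _)

include hω in
theorem cf_injective {a b : Nat} (ha : a < 4) (hb : b < 4) (h : cf ω a = cf ω b) : a = b := by
  have hw0 : ω ≠ 0 := fun e => by simp [e] at hω
  have hw1 : ω + 1 ≠ 0 := fun e => by
    have : ω ^ 2 = 0 := by linear_combination hω - e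
    exact hw0 (pow_eq_zero_iff two_ne_zero |>.mp this)
  have h2 : (2 : F) = 0 := CharTwo.two_eq_zero
  interval_cases a <;> interval_cases b <;> simp only [cf] at h <;> first
    | rfl
    | exact absurd h one_ne_zero
    | exact absurd h.symm one_ne_zero
    | exact absurd h hw0
    | exact absurd h.symm hw0
    | exact absurd h hw1
    | exact absurd h.symm hw1
    | exact absurd (by linear_combination h - h2 + h2) hw1
    | exact absurd (by linear_combination h + h2) hw1
    | exact absurd (by linear_combination -h + h2) hw1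
    | exact absurd (by linear_combination h) one_ne_zero
    | exact absurd (by linear_combination -h) one_ne_zero
    | exact absurd (by linear_combination h) hw0
    | exact absurd (by linear_combination -h) hw0

end

end CfsgLib.FusionExamples.G2J2
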