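import Cfsg.Prelude.Def_FusionComponents
import Cfsg.Agent.S5099
import Cfsg.Agent.Lib.Alperin.Theorem
import Cfsg.Agent.Lib.FusionExamples.Hyperfocal
import Cfsg.Agent.Lib.FusionExamples.SmallControl
import Cfsg.Agent.Lib.FusionBasics.KSystem
import Cfsg.Agent.Lib.FusionBasics.Focal
import Cfsg.Agent.Lib.FusionSub.Puig
import Cfsg.Agent.Lib.CoprimeAction.Basic

/-!
The focal subgroup of `C_F(T)` centralizes a normal subsystem over `T` (Henke).
-/

set_option autoImplicit false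
set_option linter.style.haveILetI false
set_option linter.unusedSectionVars false

namespace CfsgLib.FusionExamples.Henke

open Cfsg Cfsg.FusionSystem CfsgLib.Alperin CfsgLib.FusionBasics CfsgLib.FusionSub

variable {Ω : Type*} [Group Ω] {S : Subgroup Ω} [Finite S] {p : ℕ} [Fact p.Prime]
  {F : FusionSystem S} {T : Subgroup Ω}

/-- `α` extends to `Q ⊔ C_S(T)` acting trivially on the quotient by `Q`. -/
def ExtTriv (F : FusionSystem S) (T Q : Subgroup Ω) (α : MulAut Q) : Prop :=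
  ∃ β ∈ F.autGroup (Q ⊔ centralizerIn S T),
    (∀ x : Q, ((β (Subgroup.inclusion le_sup_left x) : ↥(Q ⊔ centralizerIn S T)) : Ω) = α x) ∧
    ∀ w : ↥(Q ⊔ centralizerIn S T), (w : Ω)⁻¹ * (β w : ↥(Q ⊔ centralizerIn S T)) ∈ Q

/-- The elements to be fixed. -/
def gens (F : FusionSystem S) (T : Subgroup Ω) : Set Ω :=
  {c | ∃ y₁ ∈ centralizerIn S T, ∃ y₂ ∈ centralizerIn S T, c = y₁⁻¹ * (y₂ * y₁ * y₂⁻¹)} ∪
  {c | ∃ (P : Subgroup Ω) (x : P) (γ : MulAut P) (m : ℕ), P ≤ centralizerIn S T ∧ γ ^ m = 1 ∧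
    m.Coprime p ∧ (∃ ψ ∈ F.Hom (P ⊔ T), (∀ u : P, ψ (Subgroup.inclusion le_sup_left u) = γ u) ∧
      ∀ t : T, ψ (Subgroup.inclusion le_sup_right t) = t) ∧
    c = (x : Ω)⁻¹ * ((γ x : P) : Ω)}

theorem gens_le : gens (p := p) F T ⊆ (centralizerIn S T : Set Ω) := by
  rintro c (⟨y₁, h₁, y₂, h₂, rfl⟩ | ⟨P, x, γ, m, hP, -, -, -, rfl⟩)
  · exact mul_mem (inv_mem h₁) (mul_mem (mul_mem h₂ h₁) (inv_mem h₂))
  · exact mul_mem (inv_mem (hP x.2)) (hP (γ x).2)

theorem commute_of_mem {y : Ω} (hy : y ∈ centralizerIn S T) {q : Ω} (hq : q ∈ T) : q * y = y * q :=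
  hy.2 q hq

theorem extTriv_one {Q : Subgroup Ω} : ExtTriv F T Q 1 :=
  ⟨1, one_mem _, fun _ => rfl, fun w => by simp [Q.one_mem]⟩

theorem extTriv_mul {Q : Subgroup Ω} {α α' : MulAut Q} (h : ExtTriv F T Q α)
    (h' : ExtTriv F T Q α') : ExtTriv F T Q (α * α') := by
  obtain ⟨β, hβ, hx, hw⟩ := h
  obtain ⟨β', hβ', hx', hw'⟩ := h'
  refine ⟨β * β', mul_mem hβ hβ', fun x => ?_, fun w => ?_⟩
  · show ((β (β' (Subgroup.inclusion le_sup_left x)) : ↥(Q ⊔ centralizerIn S T)) : Ω) = α (α' x)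
    rw [← hx (α' x)]
    congr 2
    exact Subtype.ext (hx' x)
  · show (w : Ω)⁻¹ * (β (β' w) : ↥(Q ⊔ centralizerIn S T)) ∈ Q
    have := Q.mul_mem (hw' w) (hw (β' w))
    simpa [mul_assoc] using this

theorem extTriv_inv {Q : Subgroup Ω} {α : MulAut Q} (h : ExtTriv F T Q α) :
    ExtTriv F T Q α⁻¹ := by
  obtain ⟨β, hβ, hx, hw⟩ := h
  refine ⟨β⁻¹, inv_mem hβ, fun x => ?_, fun w => ?_⟩
  · have : β⁻¹ (Subgroup.inclusion le_sup_left x) = Subgroup.inclusion le_sup_left (α⁻¹ x) := by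
      apply β.injective
      rw [MulAut.apply_inv_self]
      exact Subtype.ext (by rw [hx, MulAut.apply_inv_self]; rfl)
    rw [this]
    rfl
  · have := Q.inv_mem (hw (β⁻¹ w))
    rw [MulAut.apply_inv_self] at this
    simpa using this

/-- The key computation: an extension trivial on the quotient can be chosen to fix a given element. -/
theorem exists_ext_fixing (hS : IsPGroup p S) (hTS : T ≤ S) {Q : Subgroup Ω} (hQT : Q ≤ T)
    {α : MulAut Q} (hα : ExtTriv F T Q α) {c : Ω} (hc : c ∈ gens (p := p) F T) :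
    ∃ ψ ∈ F.Hom (Q ⊔ Subgroup.zpowers c),
      (∀ x : Q, ψ (Subgroup.inclusion le_sup_left x) = α x) ∧
      ψ ⟨c, Subgroup.mem_sup_right (Subgroup.mem_zpowers c)⟩ = c := by
  set C := centralizerIn S T with hC
  obtain ⟨β, hβ, hβx, hβw⟩ := hα
  have hQS : Q ≤ S := hQT.trans hTS
  have hW : Q ⊔ C ≤ S := sup_le hQS inf_le_left
  have hβH := (mem_autGroup_iff F hW).mp hβ
  haveI := finite_of_le hQS
  rcases hc with ⟨y₁, h₁, y₂, h₂, rfl⟩ | ⟨P, x, γ, m, hP, hγm, hm, ⟨ψγ, hψγ, hψγP, hψγT⟩, rfl⟩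
  · -- a commutator
    have hle : Q ⊔ Subgroup.zpowers (y₁⁻¹ * (y₂ * y₁ * y₂⁻¹)) ≤ Q ⊔ C :=
      sup_le le_sup_left (Subgroup.zpowers_le.mpr (Subgroup.mem_sup_right
        (mul_mem (inv_mem h₁) (mul_mem (mul_mem h₂ h₁) (inv_mem h₂)))))
    refine ⟨_, restrict_mem hβH hle, hβx, ?_⟩
    -- displacements
    have hq : ∀ (y : Ω) (hy : y ∈ C), ∃ q ∈ Q, (∀ t ∈ Q, q * t = t * q) ∧
        ((β ⟨y, Subgroup.mem_sup_right hy⟩ : ↥(Q ⊔ C)) : Ω) = y * q := by
      intro y hy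
      set z : ↥(Q ⊔ C) := ⟨y, Subgroup.mem_sup_right hy⟩
      refine ⟨y⁻¹ * (β z : ↥(Q ⊔ C)), hβw z, fun t ht => ?_, (mul_inv_cancel_left _ _).symm⟩
      obtain ⟨u, hu⟩ := α.surjective ⟨t, ht⟩
      have hcomm : z * Subgroup.inclusion le_sup_left u = Subgroup.inclusion le_sup_left u * z :=
        Subtype.ext (commute_of_mem hy (hQT u.2)).symm
      have h1 := congrArg (fun v => ((β v : ↥(Q ⊔ C)) : Ω)) hcomm
      simp only [map_mul, Subgroup.coe_mul, hβx, hu] at h1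
      calc y⁻¹ * (β z : ↥(Q ⊔ C)) * t = y⁻¹ * (t * (β z : ↥(Q ⊔ C))) := by rw [mul_assoc, h1]
        _ = y⁻¹ * t * y * (y⁻¹ * (β z : ↥(Q ⊔ C))) := by group
        _ = t * (y⁻¹ * (β z : ↥(Q ⊔ C))) := by
          rw [mul_assoc y⁻¹ t y, commute_of_mem hy (hQT ht), inv_mul_cancel_left]
    obtain ⟨q₁, hq₁, hz₁, e₁⟩ := hq y₁ h₁
    obtain ⟨q₂, hq₂, hz₂, e₂⟩ := hq y₂ h₂
    show ((β (⟨y₁, Subgroup.mem_sup_right h₁⟩⁻¹ * (⟨y₂, Subgroup.mem_sup_right h₂⟩ *
      ⟨y₁, Subgroup.mem_sup_right h₁⟩ * ⟨y₂, Subgroup.mem_sup_right h₂⟩⁻¹)) : ↥(Q ⊔ C)) : Ω) = _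
    simp only [map_mul, map_inv, Subgroup.coe_mul, Subgroup.coe_inv, e₁, e₂]
    have c₁ := commute_of_mem h₁ (hQT hq₁)
    have c₁' := commute_of_mem h₂ (hQT hq₁)
    have c₂ := commute_of_mem h₁ (hQT hq₂)
    have c₂' := commute_of_mem h₂ (hQT hq₂)
    have e : y₂ * q₂ * (y₁ * q₁) * (y₂ * q₂)⁻¹ = y₂ * y₁ * y₂⁻¹ * q₁ := by
      calc y₂ * q₂ * (y₁ * q₁) * (y₂ * q₂)⁻¹ = y₂ * (q₂ * y₁) * q₁ * q₂⁻¹ * y₂⁻¹ := by group
        _ = y₂ * y₁ * (q₂ * q₁) * q₂⁻¹ * y₂⁻¹ := by rw [c₂]; group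
        _ = y₂ * y₁ * (q₁ * y₂⁻¹) := by rw [← hz₁ q₂ hq₂]; group
        _ = y₂ * y₁ * y₂⁻¹ * q₁ := by
          rw [show q₁ * y₂⁻¹ = y₂⁻¹ * q₁ from (Commute.inv_right c₁').eq]; group
    rw [e]
    calc (y₁ * q₁)⁻¹ * (y₂ * y₁ * y₂⁻¹ * q₁)
        = q₁⁻¹ * (y₁⁻¹ * (y₂ * y₁ * y₂⁻¹)) * q₁ := by group
      _ = y₁⁻¹ * (y₂ * y₁ * y₂⁻¹) := by
          have hc : q₁ * (y₁⁻¹ * (y₂ * y₁ * y₂⁻¹)) = (y₁⁻¹ * (y₂ * y₁ * y₂⁻¹)) * q₁ :=
            ((Commute.inv_right c₁).mul_right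
              ((Commute.mul_right c₁' c₁).mul_right (Commute.inv_right c₁'))).eq
          rw [mul_assoc q₁⁻¹, ← hc, inv_mul_cancel_left]
  · -- a focal element of an automorphism of order prime to `p`
    set W := Q ⊔ P with hWd
    have hWC : W ≤ Q ⊔ C := sup_le_sup le_rfl hP
    have hWS : W ≤ S := hWC.trans hW
    haveI := finite_of_le hWS
    haveI := finite_autGroup F hWS
    have hPnQ : W ≤ Subgroup.normalizer (Q : Set Ω) := by
      refine sup_le Subgroup.le_normalizer fun u hu => Subgroup.mem_normalizer_iff.mpr fun q => ?_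
      have h := (hP hu).2
      constructor
      · intro hq
        rw [← commute_of_mem (hP hu) (hQT hq), mul_inv_cancel_right]
        exact hq
      · intro hq
        have h1 := commute_of_mem (inv_mem (hP hu)) (hQT hq)
        have : q = u⁻¹ * (u * q * u⁻¹) * u := by group
        rw [this, ← h1, inv_mul_cancel_right]
        exact hq
    -- the two automorphisms of `W`
    have hβW : ∀ w : W, ((β (Subgroup.inclusion hWC w) : ↥(Q ⊔ C)) : Ω) ∈ W := fun w => by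
      have h := Subgroup.mem_sup_left (T := P) (hβw (Subgroup.inclusion hWC w))
      have := W.mul_mem w.2 h
      simpa using this
    obtain ⟨b, hb, hbx⟩ := exists_aut_of_hom' F (restrict_mem hβH hWC) hβW
    have hleW : W ≤ P ⊔ T := sup_le (hQT.trans le_sup_right) le_sup_left
    have hγW : ∀ w : W, ψγ (Subgroup.inclusion hleW w) ∈ W := by
      refine fun w => apply_mem_of_sup (ψγ.comp (Subgroup.inclusion hleW)) (fun q => ?_) (fun u => ?_) w
      · exact Subgroup.mem_sup_left ((hψγT ⟨q, hQT q.2⟩).symm ▸ q.2)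
      · exact Subgroup.mem_sup_right ((hψγP u).symm ▸ (γ u).2)
    obtain ⟨g, hg, hgx⟩ := exists_aut_of_hom' F (restrict_mem hψγ hleW) hγW
    have hgQ : ∀ w : W, (w : Ω) ∈ Q → g w = w := fun w hw => Subtype.ext (by
      rw [hgx]; exact hψγT ⟨w, hQT hw⟩)
    have hgP : ∀ u : P, ((g (Subgroup.inclusion le_sup_right u) : W) : Ω) = γ u := fun u => by
      rw [hgx]; exact hψγP u
    set A := F.autGroup W
    have hbQ : ∀ w : W, (w : Ω) ∈ Q → ((b w : W) : Ω) ∈ Q := fun w hw => by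
      have h : ((b w : W) : Ω) = α ⟨w, hw⟩ := (hbx w).trans (hβx ⟨w, hw⟩)
      rw [h]
      exact (α ⟨w, hw⟩).2
    let N₁ : Subgroup A :=
      { carrier := {a | (∀ w : W, (w : Ω) ∈ Q → (a : MulAut W) w = w) ∧
          ∀ w : W, (w : Ω)⁻¹ * ((a : MulAut W) w : W) ∈ Q}
        one_mem' := ⟨fun _ _ => rfl, fun w => by simp [Q.one_mem]⟩
        mul_mem' := fun {a a'} ha ha' => ⟨fun w hw => by
            show (a : MulAut W) ((a' : MulAut W) w) = w
            rw [ha'.1 w hw, ha.1 w hw],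
          fun w => by
            show (w : Ω)⁻¹ * ((a : MulAut W) ((a' : MulAut W) w) : W) ∈ Q
            have := Q.mul_mem (ha'.2 w) (ha.2 ((a' : MulAut W) w))
            simpa [mul_assoc] using this⟩
        inv_mem' := fun {a} ha => ⟨fun w hw => by
            show (a : MulAut W).symm w = w
            rw [MulEquiv.symm_apply_eq, ha.1 w hw],
          fun w => by
            show (w : Ω)⁻¹ * ((a : MulAut W).symm w : W) ∈ Q
            have := Q.inv_mem (ha.2 ((a : MulAut W).symm w))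
            rw [MulEquiv.apply_symm_apply] at this
            simpa using this⟩ }
    have hNp : IsPGroup p N₁ := by
      rintro ⟨a, ha⟩
      obtain ⟨k, m', hkm, hm'⟩ := exists_coprime_power (p := p) a
      refine ⟨k, Subtype.ext ?_⟩
      have hb' : a ^ p ^ k ∈ N₁ := pow_mem ha _
      refine Subtype.ext (MulEquiv.ext fun w => ?_)
      refine eq_of_stable (isPGroup_of_le hS hWS) ((a ^ p ^ k : A) : MulAut W)
        (congrArg Subtype.val hkm) hm' (hb'.1 _ ?_)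
      exact hb'.2 w
    -- `g` has order prime to `p`
    have hgpow : ∀ (k : ℕ) (u : P), ((((g ^ k) (Subgroup.inclusion le_sup_right u)) : W) : Ω) = ((γ ^ k) u : P) := by
      intro k
      induction k with
      | zero => intro u; rfl
      | succ k ih =>
        intro u
        rw [pow_succ, pow_succ, MulAut.mul_apply, MulAut.mul_apply, ← ih (γ u)]
        rw [show g (Subgroup.inclusion le_sup_right u) = Subgroup.inclusion le_sup_right (γ u) from
          Subtype.ext (hgP u)]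
    have hgm : g ^ m = 1 := by
      refine MulEquiv.ext fun w => Subtype.ext ?_
      have hmem : ∀ k, ∀ w : W, (w : Ω) ∈ Q → (g ^ k) w = w := by
        intro k
        induction k with
        | zero => intro w _; rfl
        | succ k ih => intro w hw; rw [pow_succ, MulAut.mul_apply, hgQ w hw, ih w hw]
      have hle : W ≤ (MonoidHom.eqLocus (g ^ m).toMonoidHom (MonoidHom.id W)).map W.subtype := by
        refine sup_le (fun q hq => ⟨⟨q, Subgroup.mem_sup_left hq⟩, hmem m _ hq, rfl⟩) fun u hu => ?_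
        refine ⟨⟨u, Subgroup.mem_sup_right hu⟩, Subtype.ext ?_, rfl⟩
        have := hgpow m ⟨u, hu⟩
        rw [hγm] at this
        exact this
      obtain ⟨w', hw', hww⟩ := hle w.2
      obtain rfl : w' = w := Subtype.ext hww
      exact congrArg Subtype.val hw'
    let bA : A := ⟨b, hb⟩
    let gA : A := ⟨g, hg⟩
    let g' : A := bA * gA * bA⁻¹
    have hbmod : ∀ w : W, (w : Ω)⁻¹ * ((b w : W) : Ω) ∈ Q := fun w => by
      rw [hbx]; exact hβw (Subgroup.inclusion hWC w)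
    have hgnorm : gA ∈ Subgroup.normalizer (N₁ : Set A) := by
      have key : ∀ (e : A), (∀ w : W, (w : Ω) ∈ Q → (e : MulAut W) w = w) → ∀ a ∈ N₁, e * a * e⁻¹ ∈ N₁ := by
        intro e he a ha
        have hei : ∀ w : W, (w : Ω) ∈ Q → (e : MulAut W).symm w = w := fun w hw => by
          rw [MulEquiv.symm_apply_eq, he w hw]
        refine ⟨fun w hw => ?_, fun w => ?_⟩
        · show (e : MulAut W) ((a : MulAut W) ((e : MulAut W).symm w)) = w
          rw [hei w hw, ha.1 w hw, he w hw]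
        · show (w : Ω)⁻¹ * ((e : MulAut W) ((a : MulAut W) ((e : MulAut W).symm w)) : W) ∈ Q
          obtain ⟨u, rfl⟩ := (e : MulAut W).surjective w
          rw [MulEquiv.symm_apply_apply]
          have h1 := he (u⁻¹ * (a : MulAut W) u) (ha.2 u)
          rw [map_mul, map_inv] at h1
          have h2 := congrArg Subtype.val h1
          simp only [Subgroup.coe_mul, Subgroup.coe_inv] at h2
          rw [h2]
          exact ha.2 u
      refine Subgroup.mem_normalizer_iff.mpr fun a => ⟨key gA hgQ a, fun h => ?_⟩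
      have := key gA⁻¹ (fun w hw => by
        show g.symm w = w
        rw [MulEquiv.symm_apply_eq, hgQ w hw]) _ h
      simpa [mul_assoc] using this
    have hsurjQ : ∀ w : W, (w : Ω) ∈ Q → ((b.symm w : W) : Ω) ∈ Q := by
      intro w hw
      obtain ⟨u, hu⟩ := α.surjective ⟨w, hw⟩
      have : b (Subgroup.inclusion le_sup_left u) = w := Subtype.ext (by
        rw [hbx]; exact (hβx u).trans (congrArg Subtype.val hu))
      rw [← this, MulEquiv.symm_apply_apply]
      exact u.2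
    have hdiff : g' * gA⁻¹ ∈ N₁ := by
      refine ⟨fun w hw => ?_, fun w => ?_⟩
      · show b (g (b.symm (g.symm w))) = w
        have h1 : g.symm w = w := by rw [MulEquiv.symm_apply_eq, hgQ w hw]
        rw [h1, hgQ _ (hsurjQ w hw), MulEquiv.apply_symm_apply]
      · show (w : Ω)⁻¹ * ((b (g (b.symm (g.symm w))) : W) : Ω) ∈ Q
        set u := b.symm (g.symm w) with hu
        have hw : g.symm w = b u := by rw [hu, MulEquiv.apply_symm_apply]
        have hw' : w = g (b u) := by rw [← hw, MulEquiv.apply_symm_apply]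
        -- `w = g (b u) ≡ g u ≡ b (g u)`
        have h1 : (w : Ω)⁻¹ * ((g u : W) : Ω) ∈ Q := by
          have h2 : g ((b u)⁻¹ * u) = (b u)⁻¹ * u :=
            hgQ _ (by simpa using Q.inv_mem (hbmod u))
          rw [map_mul, map_inv, ← hw'] at h2
          have h3 := congrArg Subtype.val h2
          simp only [Subgroup.coe_mul, Subgroup.coe_inv] at h3
          rw [h3]
          simpa using Q.inv_mem (hbmod u)
        have := Q.mul_mem h1 (hbmod (g u))
        simpa [mul_assoc] using this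
    have hg'm : g' ^ m = 1 := by
      have hgA : gA ^ m = 1 := Subtype.ext hgm
      rw [conj_pow, hgA, mul_one, mul_inv_cancel]
    have hB : Subgroup.zpowers g' ≤ N₁ ⊔ Subgroup.zpowers gA := Subgroup.zpowers_le.mpr (by
      have := Subgroup.mul_mem _ (Subgroup.mem_sup_left hdiff)
        (Subgroup.mem_sup_right (Subgroup.mem_zpowers gA))
      rwa [inv_mul_cancel_right] at this)
    obtain ⟨k, hk⟩ := IsPGroup.iff_card.mp hNp
    have hcop : (Nat.card (Subgroup.zpowers g')).Coprime (Nat.card N₁) := by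
      rw [Nat.card_zpowers, hk]
      exact (Nat.Coprime.coprime_dvd_left (orderOf_dvd_of_pow_eq_one hg'm) hm).pow_right k
    obtain ⟨n, hn, hle⟩ := CfsgLib.CoprimeAction.exists_le_conj_of_coprime
      (H := Subgroup.zpowers gA) (Subgroup.zpowers_le.mpr hgnorm) hB hcop
      (Or.inl (CfsgLib.CoprimeAction.isSolvable_zpowers g'))
    obtain ⟨h, ⟨j, rfl⟩, hj⟩ := Subgroup.mem_pointwise_smul_iff_inv_smul_mem.mp
      (hle (Subgroup.mem_zpowers g')) |> fun h => (⟨_, h, rfl⟩ : ∃ h ∈ Subgroup.zpowers gA,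
        h = (MulAut.conj n)⁻¹ • g')
    rw [MulAut.smul_def, MulAut.conj_inv_apply] at hj
    simp only at hj
    -- `gA ^ j = gA`
    have hgj : gA ^ j = gA := by
      have hmodn : gA ^ j * gA⁻¹ ∈ N₁ := by
        have e : gA ^ j * gA⁻¹ = n⁻¹ * (g' * gA⁻¹) * (gA * n * gA⁻¹) := by rw [hj]; group
        rw [e]
        exact N₁.mul_mem (N₁.mul_mem (N₁.inv_mem hn) hdiff)
          ((Subgroup.mem_normalizer_iff.mp hgnorm n).mp hn)
      rw [← mul_inv_eq_one, ← zpow_sub_one]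
      rw [← zpow_sub_one] at hmodn
      have h1 : orderOf (gA ^ (j - 1)) ∣ m := orderOf_dvd_of_pow_eq_one (by
        rw [← zpow_natCast, ← zpow_mul, mul_comm, zpow_mul, zpow_natCast,
          show gA ^ m = 1 from Subtype.ext hgm, one_zpow])
      obtain ⟨e, he⟩ := hNp ⟨_, hmodn⟩
      have h2 : orderOf (gA ^ (j - 1)) ∣ p ^ e :=
        orderOf_dvd_of_pow_eq_one (congrArg Subtype.val he)
      exact orderOf_eq_one_iff.mp (Nat.dvd_one.mp ((hm.pow_right e) ▸ Nat.dvd_gcd h1 h2))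
    rw [hgj] at hj
    -- the corrected extension
    let b' : A := n⁻¹ * bA
    have hcomm : b' * gA = gA * b' := by
      have : g' = n * gA * n⁻¹ := by rw [hj]; group
      calc n⁻¹ * bA * gA = n⁻¹ * g' * bA := by simp only [g']; group
        _ = gA * (n⁻¹ * bA) := by rw [this]; group
    have hb'x : ∀ w : W, (w : Ω)⁻¹ * (((b' : MulAut W) w : W) : Ω) ∈ Q := fun w => by
      show (w : Ω)⁻¹ * (((n⁻¹ : A) : MulAut W) (b w) : W) ∈ Q
      have := Q.mul_mem (hbmod w) ((N₁.inv_mem hn).2 (b w))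
      simpa [mul_assoc] using this
    have hle' : Q ⊔ Subgroup.zpowers ((x : Ω)⁻¹ * ((γ x : P) : Ω)) ≤ W :=
      sup_le le_sup_left (Subgroup.zpowers_le.mpr (Subgroup.mem_sup_right
        (mul_mem (inv_mem x.2) (γ x).2)))
    refine ⟨_, restrict_mem ((mem_autGroup_iff F hWS).mp b'.2) hle', fun u => ?_, ?_⟩
    · show ((((n⁻¹ : A) : MulAut W) (b (Subgroup.inclusion le_sup_left u)) : W) : Ω) = α u
      have : b (Subgroup.inclusion le_sup_left u) = Subgroup.inclusion le_sup_left (α u) :=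
        Subtype.ext (by rw [hbx]; exact hβx u)
      rw [this, (N₁.inv_mem hn).1 _ (α u).2]
      rfl
    · set xW : W := Subgroup.inclusion le_sup_right x with hxW
      have hcW : (⟨(x : Ω)⁻¹ * ((γ x : P) : Ω), hle' (Subgroup.mem_sup_right (Subgroup.mem_zpowers _))⟩ : W) =
          xW⁻¹ * g xW := Subtype.ext (by simp [xW, hgP])
      show ((((b' : MulAut W)) ⟨(x : Ω)⁻¹ * ((γ x : P) : Ω), _⟩ : W) : Ω) = _
      rw [hcW, map_mul, map_inv]
      have h1 : (b' : MulAut W) (g xW) = g ((b' : MulAut W) xW) :=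
        congrArg (fun e : A => (e : MulAut W) xW) hcomm
      rw [h1]
      set q := xW⁻¹ * (b' : MulAut W) xW with hq
      have hqQ : (q : Ω) ∈ Q := by simpa [q] using hb'x xW
      have h2 : (b' : MulAut W) xW = xW * q := by rw [hq, mul_inv_cancel_left]
      rw [h2, map_mul, hgQ q hqQ]
      have hcC : (x : Ω)⁻¹ * ((γ x : P) : Ω) ∈ C := mul_mem (inv_mem (hP x.2)) (hP (γ x).2)
      simp only [Subgroup.coe_mul, Subgroup.coe_inv, hgP, xW, mul_inv_rev]
      show (q : Ω)⁻¹ * (x : Ω)⁻¹ * (((γ x : P) : Ω) * q) = _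
      calc (q : Ω)⁻¹ * (x : Ω)⁻¹ * (((γ x : P) : Ω) * q)
          = (q : Ω)⁻¹ * (((x : Ω)⁻¹ * ((γ x : P) : Ω)) * q) := by group
        _ = (x : Ω)⁻¹ * ((γ x : P) : Ω) := by
          rw [← commute_of_mem hcC (hQT hqQ), inv_mul_cancel_left]


/-! ### Automorphisms extending trivially modulo the subgroup -/

/-- The quotient condition may be checked on the two factors. -/
theorem trivial_mod_of_sup {Q U : Subgroup Ω} (hn : U ≤ Subgroup.normalizer (Q : Set Ω))
    (β : MulAut ↥(Q ⊔ U))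
    (hQ : ∀ x : Q, ((β (Subgroup.inclusion le_sup_left x) : ↥(Q ⊔ U)) : Ω) ∈ Q)
    (hU : ∀ u : U, (u : Ω)⁻¹ * (β (Subgroup.inclusion le_sup_right u) : ↥(Q ⊔ U)) ∈ Q)
    (w : ↥(Q ⊔ U)) : (w : Ω)⁻¹ * (β w : ↥(Q ⊔ U)) ∈ Q := by
  have hN : Q ⊔ U ≤ Subgroup.normalizer (Q : Set Ω) := sup_le Subgroup.le_normalizer hn
  let K : Subgroup ↥(Q ⊔ U) :=
    { carrier := {w | (w : Ω)⁻¹ * (β w : ↥(Q ⊔ U)) ∈ Q}
      one_mem' := by simp [Q.one_mem]
      mul_mem' := fun {a b} ha hb => by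
        have h1 := mem_normalizer_conj (Subgroup.inv_mem _ (hN b.2)) ha
        have := Q.mul_mem h1 hb
        show ((a * b : ↥(Q ⊔ U)) : Ω)⁻¹ * (β (a * b) : ↥(Q ⊔ U)) ∈ Q
        simpa [mul_assoc] using this
      inv_mem' := fun {a} ha => by
        have := mem_normalizer_conj (hN a.2) (Q.inv_mem ha)
        show ((a⁻¹ : ↥(Q ⊔ U)) : Ω)⁻¹ * (β a⁻¹ : ↥(Q ⊔ U)) ∈ Q
        simpa [mul_assoc] using this }
  have hle : Q ⊔ U ≤ K.map (Q ⊔ U).subtype :=
    sup_le (fun x hx => ⟨Subgroup.inclusion le_sup_left ⟨x, hx⟩, Q.mul_mem (Q.inv_mem hx) (hQ ⟨x, hx⟩), rfl⟩)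
      fun u hu => ⟨Subgroup.inclusion le_sup_right ⟨u, hu⟩, hU ⟨u, hu⟩, rfl⟩
  obtain ⟨w', hw', hww⟩ := hle w.2
  obtain rfl : w' = w := Subtype.ext hww
  exact hw'

/-- Every element of `Aut_E(T)` extends trivially. -/
theorem extTriv_top {E : FusionSystem T} (hE : E.IsNormalIn F p) {α : MulAut T}
    (hα : α ∈ E.autGroup T) : ExtTriv F T T α := by
  obtain ⟨β, hβ, hx, hc⟩ := hE.2 α hα
  refine ⟨β, hβ, hx, trivial_mod_of_sup ?_ β (fun x => (hx x).symm ▸ (α x).2)
    fun u => (hc (Subgroup.inclusion le_sup_right u) u.2).1⟩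
  intro u hu
  refine Subgroup.mem_normalizer_iff.mpr fun t => ⟨fun ht => ?_, fun ht => ?_⟩
  · rw [← commute_of_mem hu ht, mul_inv_cancel_right]
    exact ht
  · have h1 := commute_of_mem (inv_mem hu) ht
    have : t = u⁻¹ * (u * t * u⁻¹) * u := by group
    rw [this, ← h1, inv_mul_cancel_right]
    exact ht

/-- A conjugate of an automorphism induced by `T` extends trivially. -/
theorem extTriv_conj (hS : IsPGroup p S) {E : FusionSystem T} (hE : E.IsNormalIn F p)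
    {Q : Subgroup Ω} (hQc : E.IsCentric Q) {α₁ : MulAut Q} (hα₁ : α₁ ∈ E.autGroup Q)
    {τ : MulAut Q} (hτ : τ ∈ autInducedBy T Q) : ExtTriv F T Q (α₁ * τ * α₁⁻¹) := by
  obtain ⟨⟨-, hF, hsub, hsc, -, hfrat⟩, -⟩ := hE
  have hQT : Q ≤ T := hQc.1
  have hTS : T ≤ S := hsc.1
  have hQS : Q ≤ S := hQT.trans hTS
  haveI := finite_of_le hTS
  obtain ⟨t, htT, htx⟩ := mem_autInducedBy_iff.mp hτ
  have htN : t ∈ normalizerIn S Q := ⟨hTS htT, normalizer_of_induced htx⟩
  obtain ⟨Q', hQ'c, hQ'n⟩ := exists_isFullyNormalized F hQS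
  obtain ⟨f, hf, hfN, hfQ⟩ := exists_hom_normalizerIn_of_fullyNormalized hS hF hQ'n hQ'c
  set φ : Q →* Ω := f.comp (Subgroup.inclusion (le_normalizerIn hQS)) with hφd
  have hφ : φ ∈ F.Hom Q := restrict_mem hf _
  have hφT : ∀ x : Q, φ x ∈ T := hsc.2 Q hQT φ hφ
  have hφr : φ.range = Q' := (range_comp_inclusion f (le_normalizerIn hQS)).trans hfQ
  have hφQ' : ∀ x : Q, φ x ∈ Q' := fun x => hφr.le ⟨x, rfl⟩
  have hQ'ex : ∀ y ∈ Q', ∃ x : Q, φ x = y := fun y hy => hφr.ge hy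
  -- `C_T(Q') ≤ Q'`
  have hcent : ∀ y ∈ T, (∀ z ∈ Q', z * y = y * z) → y ∈ Q' := by
    intro y hy hyz
    obtain ⟨a, -, φ₀, hφ₀, hφeq⟩ := hfrat Q hQT φ hφ
    set y₀ := a.symm ⟨y, hy⟩ with hy₀
    have hy0 : (y₀ : Ω) ∈ centralizerIn T φ₀.range := by
      refine ⟨y₀.2, ?_⟩
      rintro _ ⟨q, rfl⟩
      have h1 : a ⟨φ₀ q, apply_mem hφ₀ q⟩ * ⟨y, hy⟩ = ⟨y, hy⟩ * a ⟨φ₀ q, apply_mem hφ₀ q⟩ :=
        Subtype.ext (hyz _ ((hφeq q (apply_mem hφ₀ q)) ▸ hφQ' q))
      have h2 := congrArg a.symm h1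
      rw [map_mul, map_mul, MulEquiv.symm_apply_apply] at h2
      exact congrArg Subtype.val h2
    obtain ⟨q, hq⟩ := hQc.2 φ₀.range (isConj_of_hom hφ₀) hy0
    have h3 : a ⟨φ₀ q, apply_mem hφ₀ q⟩ = ⟨y, hy⟩ := by
      rw [show (⟨φ₀ q, apply_mem hφ₀ q⟩ : T) = y₀ from Subtype.ext hq, hy₀, MulEquiv.apply_symm_apply]
    have e : ((a ⟨φ₀ q, apply_mem hφ₀ q⟩ : T) : Ω) = y := congrArg Subtype.val h3
    rw [← e, ← hφeq q]
    exact hφQ' q
  -- the automorphisms of `Q' C_S(Q')`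
  set W := Q' ⊔ centralizerIn S Q' with hWd
  have hWS : W ≤ S := sup_le hQ'n.1 (centralizerIn_le S Q')
  haveI := finite_of_le hWS
  haveI := finite_of_le hQ'n.1
  set eQ := isoOfHom φ (F.injective_of_mem hφ) hφr with heQ
  have hα₁F : α₁ ∈ F.autGroup Q :=
    (mem_autGroup_iff F hQS).mpr (hsub Q ((mem_autGroup_iff E hQT).mp hα₁))
  have hαs : MulAut.congr eQ α₁ ∈ F.autGroup Q' :=
    (autGroup_map_congr hφ hφr).le (Subgroup.mem_map_of_mem _ hα₁F)
  have hαsH := (mem_autGroup_iff F hQ'n.1).mp hαs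
  obtain ⟨ψ, hψ, hψx⟩ := (receptive_of_fullyNormalized hS hF hQ'n).2 Q' _ hαsH (by
    rw [MonoidHom.range_comp, MonoidHom.range_eq_top.mpr (MulAut.congr eQ α₁).surjective,
      ← MonoidHom.range_eq_map, Subgroup.range_subtype])
  have hWe : W ≤ extender S Q' (Q'.subtype.comp (MulAut.congr eQ α₁).toMonoidHom) :=
    sup_centralizerIn_le_extender hαsH
  have hψQ : ∀ z : Q', ψ (Subgroup.inclusion hWe (Subgroup.inclusion le_sup_left z)) =
      ((MulAut.congr eQ α₁ z : Q') : Ω) := fun z => hψx z z.2 _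
  have hψW : ∀ w : W, ψ (Subgroup.inclusion hWe w) ∈ W := by
    refine fun w => apply_mem_of_sup (ψ.comp (Subgroup.inclusion hWe)) (fun z => ?_) (fun c => ?_) w
    · rw [MonoidHom.comp_apply, hψQ]
      exact Subgroup.mem_sup_left (MulAut.congr eQ α₁ z).2
    · refine Subgroup.mem_sup_right ⟨apply_mem hψ _, fun y hy => ?_⟩
      obtain ⟨u, hu⟩ := (MulAut.congr eQ α₁).surjective ⟨y, hy⟩
      have h1 : y = ψ (Subgroup.inclusion hWe (Subgroup.inclusion le_sup_left u)) := by rw [hψQ, hu]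
      have hcu : Subgroup.inclusion hWe (Subgroup.inclusion le_sup_left u) *
          Subgroup.inclusion hWe (Subgroup.inclusion le_sup_right c) =
          Subgroup.inclusion hWe (Subgroup.inclusion le_sup_right c) *
          Subgroup.inclusion hWe (Subgroup.inclusion le_sup_left u) :=
        Subtype.ext (c.2.2 u u.2)
      rw [h1, MonoidHom.comp_apply]
      simpa only [map_mul] using congrArg ψ hcu
  obtain ⟨A, hA, hAx⟩ := exists_aut_of_hom' F (restrict_mem hψ hWe) hψW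
  set t' := f ⟨t, htN⟩ with ht'
  have ht'T : t' ∈ T :=
    hsc.2 (Subgroup.zpowers t) (Subgroup.zpowers_le.mpr htT) _
      (restrict_mem hf (Subgroup.zpowers_le.mpr htN)) ⟨t, Subgroup.mem_zpowers t⟩
  have ht'N : t' ∈ Subgroup.normalizer (Q' : Set Ω) := (hfN _).2
  have hconjW : ∀ w : W, conjHom W t' w ∈ W := by
    refine fun w => apply_mem_of_sup (conjHom W t') (fun z => ?_) (fun c => ?_) w
    · exact Subgroup.mem_sup_left (mem_normalizer_conj ht'N z.2)
    · refine Subgroup.mem_sup_right ⟨S.mul_mem (S.mul_mem (hTS ht'T) c.2.1) (S.inv_mem (hTS ht'T)),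
        fun y hy => ?_⟩
      have h1 := c.2.2 _ (mem_normalizer_conj (Subgroup.inv_mem _ ht'N) hy)
      show y * (t' * (c : Ω) * t'⁻¹) = t' * (c : Ω) * t'⁻¹ * y
      calc y * (t' * (c : Ω) * t'⁻¹) = t' * (t'⁻¹ * y * t'⁻¹⁻¹ * (c : Ω)) * t'⁻¹ := by group
        _ = t' * ((c : Ω) * (t'⁻¹ * y * t'⁻¹⁻¹)) * t'⁻¹ := by rw [h1]
        _ = t' * (c : Ω) * t'⁻¹ * y := by group
  obtain ⟨σ, hσ, hσx⟩ := exists_aut_of_hom' F (F.conj_mem hWS (hTS ht'T)) hconjW
  have hWN : centralizerIn S Q' ≤ Subgroup.normalizer (Q' : Set Ω) :=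
    (centralizerIn_le_normalizerIn S Q').trans inf_le_right
  have hσtriv : ∀ w : W, (w : Ω)⁻¹ * (σ w : W) ∈ Q' := by
    refine trivial_mod_of_sup hWN σ (fun z => ?_) fun c => ?_
    · rw [hσx]
      exact mem_normalizer_conj ht'N z.2
    · rw [hσx]
      show (c : Ω)⁻¹ * (t' * (c : Ω) * t'⁻¹) ∈ Q'
      refine hcent _ ?_ ?_
      · have := T.mul_mem (stronglyClosed_conj hsc (S.inv_mem c.2.1) ht'T)
          (T.inv_mem ht'T)
        simpa [mul_assoc] using this
      · intro z hz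
        have h0 := c.2.2 _ (mem_normalizer_conj (Subgroup.inv_mem _ ht'N) hz)
        have h1 : Commute z (t' * (c : Ω) * t'⁻¹) := by
          show z * (t' * (c : Ω) * t'⁻¹) = t' * (c : Ω) * t'⁻¹ * z
          calc z * (t' * (c : Ω) * t'⁻¹) = t' * (t'⁻¹ * z * t'⁻¹⁻¹ * (c : Ω)) * t'⁻¹ := by group
            _ = t' * ((c : Ω) * (t'⁻¹ * z * t'⁻¹⁻¹)) * t'⁻¹ := by rw [h0]
            _ = t' * (c : Ω) * t'⁻¹ * z := by group
        exact ((Commute.inv_right (c.2.2 z hz)).mul_right h1).eq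
  set B : MulAut W := A * σ * A⁻¹ with hB
  have hAQ : ∀ w : W, (w : Ω) ∈ Q' → ((A w : W) : Ω) ∈ Q' := fun w hw => by
    have h : ((A w : W) : Ω) = ((MulAut.congr eQ α₁ ⟨w, hw⟩ : Q') : Ω) :=
      (hAx w).trans (hψQ ⟨w, hw⟩)
    rw [h]
    exact (MulAut.congr eQ α₁ _).2
  have hBtriv : ∀ w : W, (w : Ω)⁻¹ * (B w : W) ∈ Q' := fun w => by
    obtain ⟨u, rfl⟩ := A.surjective w
    show ((A u : W) : Ω)⁻¹ * (A (σ (A.symm (A u))) : W) ∈ Q'
    rw [MulEquiv.symm_apply_apply]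
    have h1 := hAQ (u⁻¹ * σ u) (hσtriv u)
    rwa [map_mul, map_inv] at h1
  -- pull back to `Q C_S(T)`
  set V := Q ⊔ centralizerIn S T with hVd
  have hCN : centralizerIn S T ≤ normalizerIn S Q := fun c hc => ⟨hc.1,
    (centralizerIn_le_normalizerIn S Q ⟨hc.1, fun q hq => hc.2 q (hQT hq)⟩).2⟩
  have hVN : V ≤ normalizerIn S Q := sup_le (le_normalizerIn hQS) hCN
  set g : V →* Ω := f.comp (Subgroup.inclusion hVN) with hgd
  have hg : g ∈ F.Hom V := restrict_mem hf hVN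
  have hgW : ∀ v : V, g v ∈ W := by
    refine fun v => apply_mem_of_sup g (fun x => Subgroup.mem_sup_left (hφQ' x)) (fun c => ?_) v
    refine Subgroup.mem_sup_right (apply_mem_centralizerIn hf (le_normalizerIn hQS) hfQ _ ?_)
    exact fun q hq => c.2.2 q (hQT hq)
  set V' := g.range with hV'
  have hV'W : V' ≤ W := by
    rintro _ ⟨v, rfl⟩
    exact hgW v
  have hQ'V : Q' ≤ V' := fun y hy => by
    obtain ⟨x, rfl⟩ := hQ'ex y hy
    exact ⟨Subgroup.inclusion le_sup_left x, rfl⟩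
  haveI := finite_of_le (hV'W.trans hWS)
  have hBA : B ∈ F.autGroup W := mul_mem (mul_mem hA hσ) (inv_mem hA)
  have hBV : ∀ v : V', ((B (Subgroup.inclusion hV'W v) : W) : Ω) ∈ V' := fun v => by
    have := V'.mul_mem v.2 (hQ'V (hBtriv (Subgroup.inclusion hV'W v)))
    simpa using this
  obtain ⟨B', hB', hB'x⟩ := exists_aut_of_hom' F
    (restrict_mem ((mem_autGroup_iff F hWS).mp hBA) hV'W) hBV
  obtain ⟨β, hβ, hβB⟩ := (autGroup_map_congr hg rfl).ge hB'
  set eV := isoOfHom g (F.injective_of_mem hg) rfl with heV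
  have hgβ : ∀ v : V, g (β v) = ((B ⟨g v, hgW v⟩ : W) : Ω) := fun v => by
    have h1 : eV (β v) = B' (eV v) := by
      have := DFunLike.congr_fun hβB (eV v)
      rw [← this]
      show _ = eV (β (eV.symm (eV v)))
      rw [MulEquiv.symm_apply_apply]
    exact (congrArg Subtype.val h1).trans (hB'x _)
  have hAj : ∀ x : Q, A ⟨φ x, Subgroup.mem_sup_left (hφQ' x)⟩ =
      ⟨φ (α₁ x), Subgroup.mem_sup_left (hφQ' _)⟩ := fun x => by
    refine Subtype.ext ?_
    refine ((hAx _).trans (hψQ ⟨φ x, hφQ' x⟩)).trans ?_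
    show ((eQ (α₁ (eQ.symm (eQ x))) : Q') : Ω) = _
    rw [MulEquiv.symm_apply_apply]
    rfl
  refine ⟨β, hβ, fun z => ?_, fun v => ?_⟩
  · obtain ⟨x, rfl⟩ := α₁.surjective z
    set z' : V := Subgroup.inclusion le_sup_left (α₁ x)
    have h1 : g (β z') = g (Subgroup.inclusion le_sup_left ((α₁ * τ * α₁⁻¹) (α₁ x))) := by
      rw [hgβ]
      have hz : (⟨g z', hgW z'⟩ : W) = A ⟨φ x, Subgroup.mem_sup_left (hφQ' x)⟩ := by
        rw [hAj]
        rfl
      rw [hz]
      show ((A (σ (A.symm (A ⟨φ x, _⟩))) : W) : Ω) = φ ((α₁ * τ * α₁⁻¹) (α₁ x))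
      rw [MulEquiv.symm_apply_apply]
      have hs : σ ⟨φ x, Subgroup.mem_sup_left (hφQ' x)⟩ =
          ⟨φ (τ x), Subgroup.mem_sup_left (hφQ' _)⟩ := by
        refine Subtype.ext ((hσx _).trans ?_)
        show t' * φ x * t'⁻¹ = φ (τ x)
        rw [ht', hφd, MonoidHom.comp_apply, MonoidHom.comp_apply, ← map_inv, ← map_mul, ← map_mul]
        exact congrArg f (Subtype.ext (htx x).symm)
      rw [hs, hAj]
      show φ (α₁ (τ x)) = φ (α₁ (τ (α₁.symm (α₁ x))))
      rw [MulEquiv.symm_apply_apply]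
    exact congrArg Subtype.val (F.injective_of_mem hg h1)
  · have h1 : g (v⁻¹ * β v) ∈ Q' := by
      rw [map_mul, map_inv, hgβ]
      exact hBtriv ⟨g v, hgW v⟩
    obtain ⟨q, hq⟩ := hQ'ex _ h1
    have h2 : Subgroup.inclusion le_sup_left q = v⁻¹ * β v := F.injective_of_mem hg hq
    have h3 := congrArg Subtype.val h2
    simp only [Subgroup.coe_mul, Subgroup.coe_inv, Subgroup.coe_inclusion] at h3
    exact h3 ▸ q.2

/-! ### The subsystem fixing a set of elements -/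

theorem apply_zpowers {P : Subgroup Ω} {c : Ω} {ψ : ↥(P ⊔ Subgroup.zpowers c) →* Ω}
    (h : ψ ⟨c, Subgroup.mem_sup_right (Subgroup.mem_zpowers c)⟩ = c) (u : Subgroup.zpowers c) :
    ψ (Subgroup.inclusion le_sup_right u) = u := by
  obtain ⟨n, hn⟩ := Subgroup.mem_zpowers_iff.mp u.2
  have e : Subgroup.inclusion (le_sup_right : Subgroup.zpowers c ≤ P ⊔ Subgroup.zpowers c) u =
      ⟨c, Subgroup.mem_sup_right (Subgroup.mem_zpowers c)⟩ ^ n := Subtype.ext (by simp [hn])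
  rw [e, map_zpow, h, hn]

/-- The maps of `E` that extend fixing each element of `X`. -/
def fixSystem (E : FusionSystem T) (F : FusionSystem S) (hTS : T ≤ S) (X : Set Ω)
    (hX : X ⊆ (centralizerIn S T : Set Ω)) : FusionSystem T where
  Hom P := {φ | φ ∈ E.Hom P ∧ ∀ c ∈ X, ∃ ψ ∈ F.Hom (P ⊔ Subgroup.zpowers c),
    (∀ x : P, ψ (Subgroup.inclusion le_sup_left x) = φ x) ∧
    ψ ⟨c, Subgroup.mem_sup_right (Subgroup.mem_zpowers c)⟩ = c}
  le_of_mem h := E.le_of_mem h.1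
  injective_of_mem h := E.injective_of_mem h.1
  conj_mem := by
    intro P g hP hg
    refine ⟨E.conj_mem hP hg, fun c hc => ⟨conjHom _ g, F.conj_mem
      (sup_le (hP.trans hTS) (Subgroup.zpowers_le.mpr (hX hc).1)) (hTS hg), fun x => rfl, ?_⟩⟩
    show g * c * g⁻¹ = c
    rw [commute_of_mem (hX hc) hg, mul_inv_cancel_right]
  comp_mem := by
    rintro P R φ φ' ⟨hφ, hφX⟩ ⟨hφ', hφ'X⟩ h
    refine ⟨E.comp_mem hφ hφ' h, fun c hc => ?_⟩
    obtain ⟨ψ, hψ, hψx, hψc⟩ := hφX c hc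
    obtain ⟨ψ', hψ', hψ'x, hψ'c⟩ := hφ'X c hc
    have hmem : ∀ z, ψ z ∈ R ⊔ Subgroup.zpowers c := apply_mem_of_sup ψ
      (fun x => Subgroup.mem_sup_left ((hψx x).symm ▸ h x))
      (fun u => Subgroup.mem_sup_right ((apply_zpowers hψc u).symm ▸ u.2))
    refine ⟨_, F.comp_mem hψ hψ' hmem, fun x => ?_, ?_⟩
    · show ψ' ⟨ψ (Subgroup.inclusion le_sup_left x), _⟩ = φ' ⟨φ x, h x⟩
      rw [← hψ'x ⟨φ x, h x⟩]
      exact congrArg ψ' (Subtype.ext (hψx x))
    · show ψ' ⟨ψ _, _⟩ = c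
      refine Eq.trans (congrArg ψ' (Subtype.ext hψc)) hψ'c
  inv_mem := by
    rintro P φ ⟨hφ, hφX⟩
    obtain ⟨χ, hχ, hχx⟩ := E.inv_mem hφ
    refine ⟨χ, ⟨hχ, fun c hc => ?_⟩, hχx⟩
    obtain ⟨ψ, hψ, hψx, hψc⟩ := hφX c hc
    obtain ⟨ξ, hξ, hξx⟩ := F.inv_mem hψ
    have hle : φ.range ⊔ Subgroup.zpowers c ≤ ψ.range :=
      sup_le (by rintro _ ⟨x, rfl⟩; exact ⟨_, hψx x⟩)
        (Subgroup.zpowers_le.mpr ⟨_, hψc⟩)
    refine ⟨_, restrict_mem hξ hle, ?_, ?_⟩
    · rintro ⟨_, x, rfl⟩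
      rw [hχx]
      refine Eq.trans (congrArg ξ (Subtype.ext ?_)) (hξx (Subgroup.inclusion le_sup_left x))
      exact (hψx x).symm
    · refine Eq.trans (congrArg ξ (Subtype.ext ?_))
        (hξx ⟨c, Subgroup.mem_sup_right (Subgroup.mem_zpowers c)⟩)
      exact hψc.symm

theorem autGroup_le_fixSystem (hS : IsPGroup p S) {E : FusionSystem T} (hE : E.IsNormalIn F p)
    {X : Set Ω} (hX : X ⊆ (centralizerIn S T : Set Ω)) (hXg : X ⊆ gens (p := p) F T)
    {Q : Subgroup Ω} (hQn : E.IsFullyNormalized Q) (hQc : E.IsCentric Q)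
    (hmax : ∀ R : Subgroup Ω, Nat.card Q < Nat.card R →
      E.Hom R ⊆ (fixSystem E F hE.1.2.2.2.1.1 X hX).Hom R) :
    E.autGroup Q ≤ (fixSystem E F hE.1.2.2.2.1.1 X hX).autGroup Q := by
  have hTS : T ≤ S := hE.1.2.2.2.1.1
  have hQT : Q ≤ T := hQn.1
  have hTp := isPGroup_of_le hS hTS
  haveI := finite_of_le hTS
  set G := fixSystem E F hE.1.2.2.2.1.1 X hX
  have hgood : ∀ α ∈ E.autGroup Q, ExtTriv F T Q α → α ∈ G.autGroup Q := fun α hα h =>
    (mem_autGroup_iff G hQT).mpr ⟨(mem_autGroup_iff E hQT).mp hα,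
      fun c hc => exists_ext_fixing hS hTS hQT h (hXg hc)⟩
  by_cases hQ : Q = T
  · subst hQ
    exact fun α hα => hgood α hα (extTriv_top hE hα)
  haveI := finite_autGroup E hQT
  set A := E.autGroup Q with hA
  obtain ⟨-, -, R, hR⟩ := centralized_automized_of_fullyNormalized hTp hE.1.1 hQn
  set M := Subgroup.normalClosure ((R : Subgroup A) : Set A) with hM
  have hMtriv : ∀ a ∈ M, ExtTriv F T Q (a : MulAut Q) := by
    let K : Subgroup A :=
      { carrier := {a | ExtTriv F T Q (a : MulAut Q)}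
        one_mem' := extTriv_one
        mul_mem' := fun ha hb => extTriv_mul ha hb
        inv_mem' := fun ha => extTriv_inv ha }
    suffices h : M ≤ K from fun a ha => h ha
    refine (Subgroup.closure_le K).mpr fun a ha => ?_
    obtain ⟨r, hr, hra⟩ := Group.mem_conjugatesOfSet_iff.mp ha
    obtain ⟨c, rfl⟩ := isConj_iff.mp hra
    rw [SetLike.mem_coe, hR] at hr
    exact extTriv_conj hS hE hQc c.2 (Subgroup.mem_subgroupOf.mp hr)
  have hsup := Sylow.normalizer_sup_eq_top' R (N := M)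
    fun a ha => Subgroup.subset_normalClosure ha
  intro α hα
  suffices h : (⊤ : Subgroup A) ≤ (G.autGroup Q).subgroupOf A from
    h (Subgroup.mem_top (⟨α, hα⟩ : A))
  rw [← hsup]
  refine sup_le (fun a ha => ?_) fun a ha => hgood a a.2 (hMtriv a ha)
  -- normalizing elements extend
  have haH := (mem_autGroup_iff E hQT).mp a.2
  have hext : normalizerIn T Q ≤ extender T Q (Q.subtype.comp (a : MulAut Q).toMonoidHom) := by
    intro g hg
    set τ : A := ⟨conjAut Q g hg.2, autInducedBy_le_autGroup E hQT (conjAut_mem hg.1 hg.2)⟩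
    have hτR : τ ∈ (R : Subgroup A) := by
      rw [hR]
      exact Subgroup.mem_subgroupOf.mpr (conjAut_mem hg.1 hg.2)
    have h1 : a * τ * a⁻¹ ∈ (R : Subgroup A) := (Subgroup.mem_normalizer_iff.mp ha τ).mp hτR
    rw [hR, Subgroup.mem_subgroupOf] at h1
    obtain ⟨h, hh, hhx⟩ := mem_autInducedBy_iff.mp h1
    refine mem_extender_iff.mpr ⟨hg.1, hg.2, h, hh, fun x hx => ?_⟩
    have h2 := hhx ((a : MulAut Q) x)
    refine Eq.trans ?_ h2
    show (((a : MulAut Q) ⟨g * x * g⁻¹, hx⟩ : Q) : Ω) =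
      (((a : MulAut Q) ((τ : MulAut Q) ((a : MulAut Q).symm ((a : MulAut Q) x)))) : Q)
    rw [MulEquiv.symm_apply_apply]
    rfl
  obtain ⟨ψ, hψ, hψx⟩ := (receptive_of_fullyNormalized hTp hE.1.1 hQn).2 Q _ haH (by
    rw [MonoidHom.range_comp, MonoidHom.range_eq_top.mpr (a : MulAut Q).surjective,
      ← MonoidHom.range_eq_map, Subgroup.range_subtype])
  have hlt : Q < extender T Q (Q.subtype.comp (a : MulAut Q).toMonoidHom) :=
    lt_of_lt_of_le (CfsgLib.Alperin.lt_normalizerIn hTp (lt_of_le_of_ne hQT hQ)) hext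
  haveI := finite_of_le (extender_le (S := T) Q (Q.subtype.comp (a : MulAut Q).toMonoidHom))
  haveI := finite_of_le hQT
  have hcard : Nat.card Q < Nat.card (extender T Q (Q.subtype.comp (a : MulAut Q).toMonoidHom)) :=
    lt_of_le_of_ne (Subgroup.card_le_of_le hlt.le)
      fun he => hlt.ne (Subgroup.eq_of_le_of_card_ge hlt.le he.ge)
  exact (mem_autGroup_iff G hQT).mpr (restrict_mem_apply (hmax _ hcard hψ) hlt.le
    fun z => (hψx z z.2 _).symm)

/-- All maps of the normal subsystem extend fixing the elements of `gens`. -/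
theorem hom_le_fixSystem (hS : IsPGroup p S) {E : FusionSystem T} (hE : E.IsNormalIn F p) :
    ∀ P : Subgroup Ω, E.Hom P ⊆ (fixSystem E F hE.1.2.2.2.1.1 _ (gens_le (p := p) (F := F))).Hom P := by
  have hTp := isPGroup_of_le hS hE.1.2.2.2.1.1
  haveI := finite_of_le hE.1.2.2.2.1.1
  set G := fixSystem E F hE.1.2.2.2.1.1 _ (gens_le (p := p) (F := F)) with hG
  have hGE : G.IsSubsystemOf E := fun P φ hφ => hφ.1
  suffices h : ∀ n k : ℕ, Nat.card T ≤ k + n → ∀ R : Subgroup Ω, k < Nat.card R →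
      E.Hom R ⊆ G.Hom R by
    intro P φ hφ
    haveI := finite_of_le (dom_le hφ)
    exact h (Nat.card T) 0 (by omega) P Nat.card_pos hφ
  intro n
  induction n with
  | zero =>
    intro k hk R hR φ hφ
    haveI := finite_of_le (dom_le hφ)
    have := Subgroup.card_le_of_le (dom_le hφ)
    omega
  | succ n ih =>
    intro k hk
    have hnext := ih (k + 1) (by omega)
    have hall : ∀ P, E.Hom P ⊆ (SmallControl.aboveSystem G E hGE k).Hom P := by
      refine alperin hTp hE.1.1 _ fun Q hQ α hα => ?_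
      have hQn : E.IsFullyNormalized Q ∧ E.IsCentric Q := by
        rcases hQ with rfl | hess
        · exact ⟨isFullyNormalized_top E, isCentric_top E⟩
        · exact ⟨hess.2.1, hess.1⟩
      refine (mem_autGroup_iff _ hQn.1.1).mpr ⟨(mem_autGroup_iff E hQn.1.1).mp hα, ?_⟩
      by_cases hle : Nat.card Q ≤ k
      · exact Or.inl hle
      · exact Or.inr ((mem_autGroup_iff G hQn.1.1).mp
          (autGroup_le_fixSystem hS hE (gens_le (p := p) (F := F)) subset_rfl hQn.1 hQn.2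
            (fun R hR => hnext R (by omega)) hα))
    intro R hR φ hφ
    exact (hall R hφ).2.resolve_left (by omega)

/-- The focal subgroup of a saturated centralizer system is generated by `gens`. -/
theorem focal_le (hS : IsPGroup p S) (D : FusionSystem (centralizerIn S T)) (hDs : D.IsSaturated p)
    (hD : F.IsCentralizerSystem T D) : D.focalSubgroup ≤ Subgroup.closure (gens (p := p) F T) := by
  haveI := finite_of_le (centralizerIn_le S T)
  rw [focal_eq_hyperfocal_sup (isPGroup_of_le hS (centralizerIn_le S T)) hDs]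
  set K := Subgroup.closure (gens (p := p) F T)
  refine sup_le ((Subgroup.closure_le K).mpr ?_) (Subgroup.commutator_le.mpr fun a ha b hb => ?_)
  · rintro _ ⟨P, α, x, hP, hα, rfl⟩
    revert x
    unfold pResidual at hα
    induction hα using Subgroup.closure_induction with
    | mem γ hγ =>
      intro x
      have hγH := (mem_autGroup_iff D hP).mp γ.2
      rw [hD P] at hγH
      obtain ⟨-, -, -, ψ, hψ, hψP, hψT⟩ := hγH
      exact Subgroup.subset_closure (Or.inr ⟨P, x, γ, orderOf γ, hP,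
        congrArg Subtype.val (pow_orderOf_eq_one γ), hγ, ⟨ψ, hψ, hψP, hψT⟩, rfl⟩)
    | one => intro x; simp [K.one_mem]
    | mul γ δ _ _ hγ hδ =>
      intro x
      have := K.mul_mem (hδ x) (hγ ((δ : MulAut P) x))
      simpa [mul_assoc] using this
    | inv γ _ hγ =>
      intro x
      have := K.inv_mem (hγ ((γ : MulAut P).symm x))
      show (x : Ω)⁻¹ * ((γ : MulAut P).symm x : P) ∈ K
      simpa using this
  · refine Subgroup.subset_closure (Or.inl ⟨a⁻¹, inv_mem ha, b, hb, ?_⟩)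
    rw [commutatorElement_def]
    group

end CfsgLib.FusionExamples.Henke
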