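import Cfsg.Agent.Lib.FusionExamples.J2FusionCheck
import Cfsg.Agent.Lib.FusionExamples.NormalSubsystem

/-!
The 2-fusion system of a group isomorphic to the permutation group of J2 on 100 points is simple.
-/

set_option autoImplicit false
set_option linter.all false

namespace CfsgLib.FusionExamples.J2Fusion

open CfsgLib.Mathieu CfsgLib.Mathieu.RankThree CfsgLib.Mathieu.GraphAut CfsgLib.Mathieu.J2Cert CfsgLib.Mathieu.J2 MulAction
open scoped Classical

/-- The permutation group. -/
noncomputable abbrev JG : Type := ↥j2Group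

attribute [local irreducible] sylList special pairStab gensP rows gtab treeSrc treeVia rank cgen ctgt specialWords
  pairStabWords sylGens backConj qConj

/-- The element of a code. -/
noncomputable def el (c : Nat) : JG :=
  if h : perm7 100 c ∈ j2Group then ⟨perm7 100 c, h⟩ else 1

/-- A code is good when it names a member. -/
def Good (c : Nat) : Prop := isPerm7 100 c = true ∧ perm7 100 c ∈ j2Group

theorem el_apply {c : Nat} (h : Good c) (p : Fin 100) : ((el c • p : Fin 100) : Nat) = app7 c p := by
  rw [el, dif_pos h.2]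
  exact perm7_apply h.1 p

theorem good_of_memOK {c : Nat} {w : List Nat} (h : memOK c w = true) : Good c := by
  simp only [memOK, Bool.and_eq_true, List.all_eq_true, beq_iff_eq, List.mem_range] at h
  obtain ⟨⟨h1, h2⟩, h3⟩ := h
  refine ⟨h1, ?_⟩
  have e : perm7 100 c = wordPerm7 100 gensP w := Equiv.ext fun x => Fin.ext (by
    rw [perm7_apply h1, wordPerm7_apply gens_perm h2]
    exact (h3 x x.2).symm)
  rw [e]
  exact wordPerm7_mem perm7_mem_gen7 h2

theorem spec_good {i : Nat} (hi : i < 13) : Good (spec i) := by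
  have h := special_ok
  simp only [List.all_eq_true, List.mem_range] at h
  exact good_of_memOK (h i (lt_of_lt_of_le hi (by decide +kernel)))

theorem good1 {a : Nat} (ha : Good a) : ∀ c ∈ [a], Good c := fun c hc => by
  rw [List.mem_singleton] at hc; exact hc ▸ ha

theorem good2 {a b : Nat} (ha : Good a) (hb : Good b) : ∀ c ∈ [a, b], Good c := fun c hc => by
  rcases List.mem_cons.mp hc with rfl | hc
  exacts [ha, good1 hb c hc]

theorem good3 {a b d : Nat} (ha : Good a) (hb : Good b) (hd : Good d) : ∀ c ∈ [a, b, d], Good c := fun c hc => by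
  rcases List.mem_cons.mp hc with rfl | hc
  exacts [ha, good2 hb hd c hc]

theorem good0 : ∀ c ∈ ([] : List Nat), Good c := fun c hc => absurd hc List.not_mem_nil

/-- The product of a list of codes. -/
noncomputable def prodL (l : List Nat) : JG := (l.map el).prod

theorem prodL_apply {l : List Nat} (hl : ∀ c ∈ l, Good c) (p : Fin 100) :
    ((prodL l • p : Fin 100) : Nat) = img l p := by
  induction l with
  | nil => simp [prodL, img]
  | cons c l ih =>
    show (((el c * prodL l) • p : Fin 100) : Nat) = app7 c (img l p)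
    rw [mul_smul, el_apply (hl c List.mem_cons_self), ih fun d hd => hl d (List.mem_cons_of_mem _ hd)]

theorem ext_smul {x y : JG} (h : ∀ p : Fin 100, x • p = y • p) : x = y :=
  Subtype.ext (Equiv.ext h)

theorem prodL_eq {l m : List Nat} (hl : ∀ c ∈ l, Good c) (hm : ∀ c ∈ m, Good c) (h : eqL l m = true) :
    prodL l = prodL m := by
  simp only [eqL, List.all_eq_true, beq_iff_eq, List.mem_range] at h
  exact ext_smul fun p => Fin.ext (by rw [prodL_apply hl, prodL_apply hm, h p p.2])

/-- The generators of the Sylow subgroup. -/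
noncomputable def g (a : Nat) : JG := el (spec a)

/-- The `j`th element. -/
noncomputable def f (j : Nat) : JG := el (elt j)

/-- The Sylow subgroup. -/
noncomputable def syl : Subgroup JG := Subgroup.closure {g 0, g 1, g 2}

theorem g_mem_syl {a : Nat} (ha : a < 3) : g a ∈ syl := by
  refine Subgroup.subset_closure ?_
  interval_cases a <;> simp

theorem prodL_singleton (c : Nat) : prodL [c] = el c := by simp [prodL]

theorem prodL_pair (c d : Nat) : prodL [c, d] = el c * el d := by simp [prodL]

theorem elt_spec : ∀ j, j < 128 → Good (elt j) ∧ f j ∈ syl := by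
  intro j
  induction j using Nat.strongRecOn with
  | _ j ih =>
    intro hj
    have h := tree_ok
    simp only [List.all_eq_true, List.mem_range] at h
    have h := h j hj
    simp only [treeStep, Bool.and_eq_true] at h
    obtain ⟨h1, h2⟩ := h
    by_cases hj0 : j = 0
    · subst hj0
      simp only [beq_self_eq_true, cond_true, List.all_eq_true, beq_iff_eq, List.mem_range] at h2
      have e : perm7 100 (elt 0) = 1 := Equiv.ext fun p => Fin.ext (by rw [perm7_apply h1]; exact h2 p p.2)
      have hg : Good (elt 0) := ⟨h1, e ▸ one_mem _⟩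
      refine ⟨hg, ?_⟩
      have : f 0 = 1 := ext_smul fun p => Fin.ext (by
        show ((el (elt 0) • p : Fin 100) : Nat) = _
        rw [el_apply hg, one_smul, h2 p p.2])
      rw [this]; exact one_mem _
    · rw [beq_false_of_ne hj0, cond_false] at h2
      simp only [Bool.and_eq_true, decide_eq_true_eq, eqL, List.all_eq_true, beq_iff_eq, List.mem_range] at h2
      obtain ⟨⟨hs, hv⟩, he⟩ := h2
      set a := treeVia.getD j 0
      set s := treeSrc.getD j 0
      obtain ⟨hgs, hms⟩ := ih s hs (by omega)
      have hga : Good (spec a) := spec_good (by omega)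
      have hall : ∀ c ∈ [spec a, elt s], Good c := by
        intro c hc
        simp only [List.mem_cons, List.not_mem_nil, or_false] at hc
        rcases hc with rfl | rfl
        exacts [hga, hgs]
      have e : perm7 100 (elt j) = ((el (spec a) * el (elt s) : JG) : Equiv.Perm (Fin 100)) :=
        Equiv.ext fun p => Fin.ext (by
          rw [perm7_apply h1, ← prodL_pair]
          have e1 : app7 (elt j) p = img [spec a, elt s] p := he p p.2
          rw [e1, ← prodL_apply hall p]
          rfl)
      have hm : perm7 100 (elt j) ∈ j2Group := e ▸ Subtype.property _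
      refine ⟨⟨h1, hm⟩, ?_⟩
      have : f j = el (spec a) * el (elt s) := Subtype.ext (by rw [f, el, dif_pos hm]; exact e)
      rw [this]
      exact mul_mem (g_mem_syl hv) hms

theorem elt_good {j : Nat} (hj : j < 128) : Good (elt j) := (elt_spec j hj).1

theorem f_mem_syl {j : Nat} (hj : j < 128) : f j ∈ syl := (elt_spec j hj).2

theorem f_apply {j : Nat} (hj : j < 128) (p : Fin 100) : ((f j • p : Fin 100) : Nat) = app7 (elt j) p :=
  el_apply (elt_good hj) p

theorem g_apply {a : Nat} (ha : a < 3) (p : Fin 100) : ((g a • p : Fin 100) : Nat) = app7 (spec a) p :=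
  el_apply (spec_good (by omega)) p

theorem f_zero : f 0 = 1 := ext_smul fun p => Fin.ext (by
  have h := tree_ok
  simp only [List.all_eq_true, List.mem_range] at h
  have h := h 0 (by norm_num)
  simp only [treeStep, Bool.and_eq_true, beq_self_eq_true, cond_true, List.all_eq_true, beq_iff_eq,
    List.mem_range] at h
  rw [f_apply (by norm_num), one_smul, h.2 p p.2])

theorem prod_idxL {l : List Nat} : prodL (idxL l) = (l.map f).prod := by
  simp only [prodL, idxL, List.map_map, Function.comp_def]
  rfl

theorem good_idxL {l : List Nat} (hl : ∀ i ∈ l, i < 128) : ∀ c ∈ idxL l, Good c := by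
  intro c hc
  obtain ⟨i, hi, rfl⟩ := List.mem_map.mp hc
  exact elt_good (hl i hi)

theorem closure_subset (T : Set JG) (P : Set JG) (h1 : (1 : JG) ∈ P) (hs : ∀ s ∈ T, ∀ x ∈ P, s * x ∈ P) :
    ∀ x ∈ Subgroup.closure T, x ∈ P := by
  intro x hx
  have hx' : x ∈ (Subgroup.closure T).toSubmonoid := hx
  rw [Subgroup.closure_toSubmonoid_of_finite] at hx'
  have key : ∀ y ∈ P, x * y ∈ P := by
    clear hx
    induction hx' using Submonoid.closure_induction with
    | mem y hy => exact hs y hy
    | one => simp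
    | mul a b _ _ ha hb => intro y hy; rw [mul_assoc]; exact ha _ (hb y hy)
  simpa using key 1 h1

theorem mem_syl_iff {x : JG} : x ∈ syl ↔ ∃ j < 128, f j = x := by
  constructor
  · intro hx
    refine closure_subset {g 0, g 1, g 2} {x | ∃ j < 128, f j = x} ⟨0, by norm_num, f_zero⟩ ?_ x hx
    have key : ∀ a < 3, ∀ x, (∃ j < 128, f j = x) → ∃ j < 128, f j = g a * x := by
      rintro a ha _ ⟨j, hj, rfl⟩
      have h := closed_ok
      simp only [List.all_eq_true, List.mem_range] at h
      have h := h a ha j hj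
      simp only [closedStep, Bool.and_eq_true, decide_eq_true_eq] at h
      refine ⟨_, h.1, ?_⟩
      have e := prodL_eq (good2 (spec_good (show a < 13 by omega)) (elt_good hj))
        (good1 (elt_good h.1)) h.2
      rw [prodL_pair, prodL_singleton] at e
      exact e.symm
    rintro s hs x hx
    rcases hs with rfl | rfl | rfl
    exacts [key 0 (by norm_num) x hx, key 1 (by norm_num) x hx, key 2 (by norm_num) x hx]
  · rintro ⟨j, hj, rfl⟩
    exact f_mem_syl hj

theorem f_injective {i j : Nat} (hi : i < 128) (hj : j < 128) (h : f i = f j) : i = j := by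
  have hnd : (sylList.map fun c => (List.range 100).map (app7 c)).Nodup := of_decide_eq_true syl_nodup
  have hlen := sylList_length
  have hi' : i < sylList.length := by omega
  have hj' : j < sylList.length := by omega
  refine (hnd.getElem_inj_iff (hi := by simpa using hi') (hj := by simpa using hj')).mp ?_
  rw [List.getElem_map, List.getElem_map]
  refine List.map_congr_left fun p hp => ?_
  rw [List.mem_range] at hp
  have := congrArg (fun x : JG => ((x • (⟨p, hp⟩ : Fin 100) : Fin 100) : Nat)) h
  simp only [f_apply hi, f_apply hj, elt, List.getD_eq_getElem _ _ hi', List.getD_eq_getElem _ _ hj'] at this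
  exact this

theorem f_ne_one {j : Nat} (hj : j < 128) (hj0 : j ≠ 0) : f j ≠ 1 := fun e =>
  hj0 (f_injective hj (by norm_num) (e.trans f_zero.symm))

theorem card_syl : Nat.card syl = 128 := by
  let F : Fin 128 → syl := fun j => ⟨f j, f_mem_syl j.2⟩
  have hF : Function.Bijective F := by
    refine ⟨fun a b e => Fin.ext (f_injective a.2 b.2 (congrArg Subtype.val e)), fun ⟨x, hx⟩ => ?_⟩
    obtain ⟨j, hj, e⟩ := mem_syl_iff.mp hx
    exact ⟨⟨j, hj⟩, Subtype.ext e⟩
  rw [← Nat.card_congr (Equiv.ofBijective F hF), Nat.card_fin]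

/-- The orbit under the Sylow subgroup. -/
noncomputable def orbF (p : Fin 100) : Finset (Fin 100) :=
  Finset.univ.filter fun q => ∃ x ∈ syl, x • p = q

theorem card_orbF (p : Fin 100) : (orbF p).card = osz p := by
  rw [osz, cntBits, ← List.toFinset_card_of_nodup (List.nodup_range.filter _),
    ← Finset.card_image_of_injective (orbF p) Fin.val_injective]
  refine congrArg Finset.card ?_
  ext n
  simp only [Finset.mem_image, orbF, Finset.mem_filter, Finset.mem_univ, true_and, List.mem_toFinset,
    List.mem_filter, List.mem_range, testBit_orBits, List.mem_map]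
  constructor
  · rintro ⟨q, ⟨x, hx, rfl⟩, rfl⟩
    obtain ⟨j, hj, rfl⟩ := mem_syl_iff.mp hx
    have hj' : j < sylList.length := by rw [sylList_length]; exact hj
    refine ⟨Fin.isLt _, sylList[j], List.getElem_mem hj', ?_⟩
    rw [f_apply hj, elt, List.getD_eq_getElem _ _ hj']
  · rintro ⟨-, c, hc, rfl⟩
    obtain ⟨j, hj, rfl⟩ := List.getElem_of_mem hc
    have hj' : j < 128 := by rw [← sylList_length]; exact hj
    refine ⟨f j • p, ⟨f j, f_mem_syl hj', rfl⟩, ?_⟩
    rw [f_apply hj', elt, List.getD_eq_getElem _ _ hj]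

theorem osz_normalizer {x : JG} (hx : x ∈ Subgroup.normalizer (syl : Set JG)) (p : Fin 100) :
    osz (x • p : Fin 100) = osz p := by
  rw [← card_orbF, ← card_orbF, ← Finset.card_image_of_injective (orbF p) (MulAction.injective x)]
  refine congrArg Finset.card ?_
  ext q
  simp only [Finset.mem_image, orbF, Finset.mem_filter, Finset.mem_univ, true_and]
  constructor
  · rintro ⟨s, hs, rfl⟩
    refine ⟨(x⁻¹ * s * x) • p, ⟨_, (Subgroup.mem_normalizer_iff''.mp hx s).mp hs, rfl⟩, ?_⟩
    rw [← mul_smul, ← mul_smul]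
    congr 1
    group
  · rintro ⟨r, ⟨s, hs, rfl⟩, rfl⟩
    refine ⟨x * s * x⁻¹, (Subgroup.mem_normalizer_iff.mp hx s).mp hs, ?_⟩
    rw [← mul_smul, ← mul_smul]
    congr 1
    group

theorem pretransitive : IsPretransitive JG (Fin 100) := transitive

theorem far_preserved {x : JG} (h0 : x • (0 : Fin 100) = 0) (p : Fin 100) :
    (packAt rows 100 0).testBit (x • p : Fin 100).1 = (packAt rows 100 0).testBit p.1 := by
  have h := (mem_rowAut.mp (j2Group_le x.2)) 0 p
  have h0' : (x : Equiv.Perm (Fin 100)) 0 = 0 := h0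
  rw [h0'] at h
  exact h

/-- The two point stabilizer is the list. -/
theorem pairStab_eq {x : JG} (h0 : x • (0 : Fin 100) = 0) (hy : x • (⟨65, by norm_num⟩ : Fin 100) = ⟨65, by norm_num⟩) :
    ∃ i < 96, x = el (pairStab.getD i 0) := by
  set y : Fin 100 := ⟨65, by norm_num⟩
  set P0 := stabilizer JG (0 : Fin 100)
  set K := stabilizer P0 y
  have hok := pairStab_ok
  simp only [Bool.and_eq_true, beq_iff_eq, List.all_eq_true, List.mem_range] at hok
  obtain ⟨hlen, hK⟩ := hok
  have hgood : ∀ i, i < 96 → Good (pairStab.getD i 0) := fun i hi => good_of_memOK (hK i hi).1.1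
  let fk : Fin 96 → K := fun i => ⟨⟨el (pairStab.getD i 0), Fin.ext (by
      rw [el_apply (hgood i i.2)]; exact (hK i i.2).1.2)⟩, Fin.ext (by
      show ((el (pairStab.getD i 0) • y : Fin 100) : Nat) = 65
      rw [el_apply (hgood i i.2)]; exact (hK i i.2).2)⟩
  have hfk : Function.Injective fk := by
    intro i i' e
    have e' : el (pairStab.getD i 0) = el (pairStab.getD i' 0) := congrArg (fun k : K => ((k : P0) : JG)) e
    have hnd : (pairStab.map fun c => (List.range 100).map (app7 c)).Nodup := of_decide_eq_true pairStab_nodup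
    have hi : (i : Nat) < pairStab.length := by omega
    have hi' : (i' : Nat) < pairStab.length := by omega
    refine Fin.ext ((hnd.getElem_inj_iff (hi := by simpa using hi) (hj := by simpa using hi')).mp ?_)
    rw [List.getElem_map, List.getElem_map]
    refine List.map_congr_left fun p hp => ?_
    rw [List.mem_range] at hp
    have := congrArg (fun z : JG => ((z • (⟨p, hp⟩ : Fin 100) : Fin 100) : Nat)) e'
    simp only [el_apply (hgood i i.2), el_apply (hgood i' i'.2)] at this
    rw [List.getD_eq_getElem _ _ hi, List.getD_eq_getElem _ _ hi'] at this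
    exact this
  have hyfar : y ∈ far := by
    simp only [far, Finset.mem_filter, Finset.mem_univ, true_and]
    have h := osz_orbs
    simp only [Bool.and_eq_true, Bool.not_eq_true'] at h
    exact ⟨by simp [y, Fin.ext_iff], h.2⟩
  have hO : 63 ≤ (orbit P0 y).ncard := by
    rw [← card_far, ← Set.ncard_coe_finset]
    refine Set.ncard_le_ncard (fun q hq => ?_) (Set.toFinite _)
    obtain ⟨z, hz0, hzy⟩ := data.trans₂ y hyfar q hq
    exact ⟨⟨z, hz0⟩, hzy⟩
  have hP0 : Nat.card P0 * 100 = 604800 := by
    have := pretransitive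
    have h := MulAction.index_stabilizer_of_transitive JG (0 : Fin 100)
    rw [Nat.card_fin] at h
    have h2 := Subgroup.card_mul_index P0
    rw [show P0.index = 100 from h, card_j2Group] at h2
    exact h2
  have hprod : Nat.card K * (orbit P0 y).ncard = Nat.card P0 := by
    rw [← index_stabilizer, Subgroup.card_mul_index]
  have hK96 : 96 ≤ Nat.card K := by simpa using Nat.card_le_card_of_injective fk hfk
  have hKeq : Nat.card K = 96 := by nlinarith
  have hbij : Function.Bijective fk :=
    (Nat.bijective_iff_injective_and_card fk).mpr ⟨hfk, by rw [hKeq, Nat.card_fin]⟩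
  obtain ⟨i, hi⟩ := hbij.2 ⟨⟨x, h0⟩, hy⟩
  exact ⟨i, i.2, (congrArg (fun k : K => ((k : P0) : JG)) hi).symm⟩

theorem orb_zero {p : Fin 100} (hp : (p : Nat) ∈ orb) : ∃ s ∈ syl, s • (0 : Fin 100) = p := by
  have h := trans_ok
  simp only [Bool.and_eq_true, decide_eq_true_eq, List.all_eq_true] at h
  obtain ⟨⟨⟨⟨⟨⟨h1, -⟩, h2⟩, -⟩, -⟩, -⟩, -⟩ := h
  rw [← h2] at hp
  obtain ⟨j, hj, e⟩ := List.mem_map.mp hp
  exact ⟨f j, f_mem_syl (h1 j hj), Fin.ext ((f_apply (h1 j hj) _).trans e)⟩

theorem small_syl {i : Nat} (hi : i < 3) {x : JG} (hx : x ∈ syl) {p : Fin 100}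
    (hp : (p : Nat) ∈ small.getD i []) : ((x • p : Fin 100) : Nat) ∈ small.getD i [] := by
  have h := small_ok
  simp only [Bool.and_eq_true, List.all_eq_true, List.mem_range, List.contains_iff_mem] at h
  refine closure_subset {g 0, g 1, g 2}
    {x : JG | ((x • p : Fin 100) : Nat) ∈ small.getD i []} ?_ ?_ x hx
  · show (((1 : JG) • p : Fin 100) : Nat) ∈ small.getD i []
    rwa [one_smul]
  · intro s hs z hz
    show (((s * z) • p : Fin 100) : Nat) ∈ small.getD i []
    rw [mul_smul]
    have hh := ((h.2 i hi).1 _ hz).2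
    rcases hs with rfl | rfl | rfl
    all_goals rw [g_apply (by norm_num)]
    exacts [hh 0 (by norm_num), hh 1 (by norm_num), hh 2 (by norm_num)]

/-- The elements moving the short orbits to the first one. -/
noncomputable def back (i : Nat) : JG := prodL (backL i)

theorem backL_good (i : Nat) : ∀ c ∈ backL i, Good c := by
  intro c hc
  rcases i with _ | _ | _ | i
  · exact absurd hc (List.not_mem_nil)
  · rw [show backL 1 = [spec 3] from rfl, List.mem_singleton] at hc
    exact hc ▸ spec_good (by norm_num)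
  · rw [show backL 2 = [spec 4] from rfl, List.mem_singleton] at hc
    exact hc ▸ spec_good (by norm_num)
  · exact absurd hc (List.not_mem_nil)

theorem back_norm {i : Nat} (hi : i < 3) : back i ∈ Subgroup.normalizer (syl : Set JG) := by
  have h := small_ok
  simp only [Bool.and_eq_true, List.all_eq_true, List.mem_range, decide_eq_true_eq] at h
  have hle : syl ≤ syl.comap (MulAut.conj (back i)).toMonoidHom := by
    rw [syl, Subgroup.closure_le]
    have key : ∀ a, a < 3 → back i * g a * (back i)⁻¹ ∈ syl := by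
      intro a ha
      obtain ⟨hb, he⟩ := (h.2 i hi).2 a ha
      have e := prodL_eq (l := backL i ++ [spec a]) (m := elt ((backConj.getD i []).getD a 0) :: backL i) (by
        intro c hc
        rw [List.mem_append, List.mem_singleton] at hc
        rcases hc with hc | rfl
        exacts [backL_good i c hc, spec_good (by omega)]) (by
        intro c hc
        rw [List.mem_cons] at hc
        rcases hc with rfl | hc
        exacts [elt_good hb, backL_good i c hc]) he
      rw [show prodL (backL i ++ [spec a]) = back i * g a by simp [prodL, back, g],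
        show prodL (elt ((backConj.getD i []).getD a 0) :: backL i) = f ((backConj.getD i []).getD a 0) * back i by
          simp [prodL, back, f]] at e
      rw [e, mul_inv_cancel_right]
      exact f_mem_syl hb
    rintro s (rfl | rfl | rfl)
    exacts [key 0 (by norm_num), key 1 (by norm_num), key 2 (by norm_num)]
  refine Subgroup.mem_normalizer_iff_map_conj_eq.mpr (Subgroup.eq_of_le_of_card_ge ?_ ?_)
  · rintro _ ⟨x, hx, rfl⟩
    exact hle hx
  · rw [Subgroup.card_map_of_injective (MulEquiv.injective _)]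

theorem mem_syl_of_fix {x : JG} (hx : x ∈ Subgroup.normalizer (syl : Set JG))
    (h0 : x • (0 : Fin 100) = 0) : x ∈ syl := by
  set y : Fin 100 := ⟨65, by norm_num⟩
  have ho := osz_ok
  simp only [List.all_eq_true, List.mem_range] at ho
  have hob := osz_orbs
  simp only [Bool.and_eq_true, List.all_eq_true, beq_iff_eq, decide_eq_true_eq, Bool.not_eq_true',
    Bool.or_eq_true, List.contains_iff_mem] at hob
  obtain ⟨⟨⟨⟨⟨-, h8⟩, h16⟩, hy8⟩, hfar⟩, hyb⟩ := hob
  have hin : ∀ (z : JG), z ∈ Subgroup.normalizer (syl : Set JG) → ∀ p : Fin 100,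
      ((p : Nat) ∈ orb8 → ((z • p : Fin 100) : Nat) ∈ orb8) ∧
      ((p : Nat) ∈ orb16 → ((z • p : Fin 100) : Nat) ∈ orb16) := by
    intro z hz p
    refine ⟨fun hp => ?_, fun hp => ?_⟩
    · have h := ho _ (z • p : Fin 100).2
      rw [osz_normalizer hz, (h8 _ hp).1] at h
      simpa using h
    · have h := ho _ (z • p : Fin 100).2
      rw [osz_normalizer hz, (h16 _ hp).1] at h
      simpa using h
  have hm : ((x • y : Fin 100) : Nat) ∈ farOrb8 := by
    have h1 := (hin x hx y).1 hy8
    rcases hfar _ h1 with h | h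
    · rw [far_preserved h0] at h
      exact absurd (hyb.symm.trans h) (by decide)
    · exact h
  have ht := trans_ok
  simp only [Bool.and_eq_true, decide_eq_true_eq, List.all_eq_true, beq_iff_eq] at ht
  obtain ⟨⟨⟨⟨⟨⟨-, t1⟩, -⟩, t2⟩, t3⟩, -⟩, -⟩ := ht
  rw [← t2] at hm
  obtain ⟨j, hj, e⟩ := List.mem_map.mp hm
  have hs := f_mem_syl (t1 j hj)
  have hs0 : f j • (0 : Fin 100) = 0 := Fin.ext ((f_apply (t1 j hj) _).trans (t3 j hj))
  have hsy : f j • y = x • y := Fin.ext ((f_apply (t1 j hj) _).trans e)
  have hk : (f j)⁻¹ * x ∈ Subgroup.normalizer (syl : Set JG) :=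
    mul_mem (inv_mem (Subgroup.le_normalizer hs)) hx
  obtain ⟨i, hi, hki⟩ := pairStab_eq (x := (f j)⁻¹ * x)
    (by rw [mul_smul, h0, inv_smul_eq_iff, hs0]) (by rw [mul_smul, ← hsy, inv_smul_smul])
  have hn := norm_ok
  simp only [List.all_eq_true, List.mem_range] at hn
  have hn := hn i hi
  simp only [normStep, Bool.or_eq_true, Bool.not_eq_true', Bool.and_eq_true, decide_eq_true_eq] at hn
  have hok := pairStab_ok
  simp only [Bool.and_eq_true, beq_iff_eq, List.all_eq_true, List.mem_range] at hok
  have hg : Good (pairStab.getD i 0) := good_of_memOK (hok.2 i hi).1.1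
  rcases hn with hn | ⟨hidx, he⟩
  · exfalso
    refine absurd hn ?_
    rw [Bool.and_eq_false_iff, not_or]
    constructor
    · intro hf
      obtain ⟨p, hp, hpn⟩ := List.all_eq_false.mp hf
      refine hpn ?_
      rw [List.contains_iff_mem]
      have h1 := (hin _ hk ⟨p, (h8 p hp).2⟩).1 hp
      rw [hki, el_apply hg] at h1
      exact h1
    · intro hf
      obtain ⟨p, hp, hpn⟩ := List.all_eq_false.mp hf
      refine hpn ?_
      rw [List.contains_iff_mem]
      have h1 := (hin _ hk ⟨p, (h16 p hp).2⟩).2 hp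
      rw [hki, el_apply hg] at h1
      exact h1
  · have e := prodL_eq (good1 hg) (good1 (elt_good hidx)) he
    rw [prodL_singleton, prodL_singleton] at e
    have := mul_mem hs (f_mem_syl hidx)
    rw [show f (pairStabIdx.getD i 0) = el (pairStab.getD i 0) from e.symm, ← hki, mul_inv_cancel_left] at this
    exact this

theorem normalizer_eq {x : JG} (hx : x ∈ Subgroup.normalizer (syl : Set JG)) :
    ∃ i < 3, back i * x ∈ syl := by
  have ho := osz_ok
  simp only [List.all_eq_true, List.mem_range] at ho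
  have h := ho _ (x • (0 : Fin 100) : Fin 100).2
  have h4 : osz (x • (0 : Fin 100) : Fin 100) = 4 := by
    rw [osz_normalizer hx]
    have := osz_orbs
    simp only [Bool.and_eq_true, beq_iff_eq] at this
    exact this.1.1.1.1.1
  simp only [h4, beq_self_eq_true, if_true, List.any_eq_true, List.contains_iff_mem] at h
  obtain ⟨o, hmo, hp⟩ := h
  obtain ⟨i, hi, rfl⟩ := List.getElem_of_mem hmo
  have hs := small_ok
  simp only [Bool.and_eq_true, beq_iff_eq, List.all_eq_true, List.mem_range, List.contains_iff_mem] at hs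
  have hi3 : i < 3 := hs.1 ▸ hi
  refine ⟨i, hi3, ?_⟩
  have hp' : ((x • (0 : Fin 100) : Fin 100) : Nat) ∈ small.getD i [] := by
    rwa [List.getD_eq_getElem _ _ hi]
  have ho' : (((back i * x) • (0 : Fin 100) : Fin 100) : Nat) ∈ orb := by
    rw [mul_smul, back, prodL_apply (backL_good i)]
    exact ((hs.2 i hi3).1 _ hp').1.2
  obtain ⟨s, hs', e⟩ := orb_zero ho'
  have hn : s⁻¹ * (back i * x) ∈ Subgroup.normalizer (syl : Set JG) :=
    mul_mem (inv_mem (Subgroup.le_normalizer hs')) (mul_mem (back_norm hi3) hx)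
  have := mul_mem hs' (mem_syl_of_fix hn (by rw [mul_smul, ← e, inv_smul_smul]))
  rwa [mul_inv_cancel_left] at this

/-- The subgroup `Q`. -/
noncomputable def subQ : Subgroup JG := Subgroup.closure {y | ∃ j ∈ qGens, f j = y}

theorem qGens_lt {j : Nat} (hj : j ∈ qGens) : j < 128 := by
  have h := q_ok
  simp only [Bool.and_eq_true, List.all_eq_true, decide_eq_true_eq] at h
  exact h.1.1 j hj

theorem subQ_le : subQ ≤ syl := (Subgroup.closure_le _).mpr (by
  rintro _ ⟨j, hj, rfl⟩; exact f_mem_syl (qGens_lt hj))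

theorem prod_mem_subQ {l : List Nat} (hl : ∀ i ∈ l, i ∈ qGens) : prodL (idxL l) ∈ subQ := by
  rw [prod_idxL]
  refine list_prod_mem ?_
  intro y hy
  obtain ⟨i, hi, rfl⟩ := List.mem_map.mp hy
  exact Subgroup.subset_closure ⟨i, hl i hi, rfl⟩

/-- The elements mapping `Q` into itself. -/
noncomputable def normQ : Subgroup JG where
  carrier := {x | ∀ y ∈ subQ, x * y * x⁻¹ ∈ subQ}
  one_mem' := fun y hy => by simpa using hy
  mul_mem' := fun {a b} ha hb y hy => by simpa [mul_assoc] using ha _ (hb y hy)
  inv_mem' := fun {a} ha y hy => by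
    have : ∀ k : ℕ, a ^ k * y * (a ^ k)⁻¹ ∈ subQ := by
      intro k
      induction k with
      | zero => simpa using hy
      | succ k ih => simpa [pow_succ', mul_assoc] using ha _ ih
    have he : a⁻¹ = a ^ (orderOf a - 1) := by
      refine inv_eq_of_mul_eq_one_right ?_
      rw [← pow_succ', Nat.sub_add_cancel (orderOf_pos a), pow_orderOf_eq_one]
    rw [he]
    exact this _

theorem conj_mem_subQ {c j : Nat} {l : List Nat} (hc : Good c) (hj : j < 128) (hl : ∀ i ∈ l, i ∈ qGens)
    (he : eqL [c, elt j] (idxL l ++ [c]) = true) : el c * f j * (el c)⁻¹ ∈ subQ := by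
  have e := prodL_eq (good2 hc (elt_good hj)) (by
    intro d hd
    rw [List.mem_append, List.mem_singleton] at hd
    rcases hd with hd | rfl
    exacts [good_idxL (fun i hi => qGens_lt (hl i hi)) d hd, hc]) he
  have h2 : prodL (idxL l ++ [c]) = prodL (idxL l) * el c := by simp [prodL]
  rw [prodL_pair, h2] at e
  show el c * el (elt j) * (el c)⁻¹ ∈ subQ
  rw [e, mul_inv_cancel_right]
  exact prod_mem_subQ hl

theorem mem_normQ {x : JG} (h : ∀ j ∈ qGens, x * f j * x⁻¹ ∈ subQ) : x ∈ normQ := by
  have hle : subQ ≤ subQ.comap (MulAut.conj x).toMonoidHom := (Subgroup.closure_le _).mpr (by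
    rintro _ ⟨j, hj, rfl⟩
    rw [SetLike.mem_coe, Subgroup.mem_comap, MulEquiv.coe_toMonoidHom, MulAut.conj_apply]
    exact h j hj)
  intro y hy
  have h1 := hle hy
  rw [Subgroup.mem_comap, MulEquiv.coe_toMonoidHom, MulAut.conj_apply] at h1
  exact h1

theorem mover_good {m : Nat} (hm : m < 6) : [0, 1, 2, 4, 5, 6].getD m 0 < 13 := by
  interval_cases m <;> decide

theorem mover_mem {m : Nat} (hm : m < 6) : el (spec ([0, 1, 2, 4, 5, 6].getD m 0)) ∈ normQ := by
  refine mem_normQ fun j hj => ?_
  have h := q_ok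
  simp only [Bool.and_eq_true, List.all_eq_true, decide_eq_true_eq, beq_iff_eq, List.mem_range,
    List.contains_iff_mem] at h
  obtain ⟨-, h2⟩ := h.2 m hm
  obtain ⟨k, hk, hkj⟩ := List.getElem_of_mem hj
  obtain ⟨hsub, he⟩ := h2 k hk
  rw [List.getD_eq_getElem _ _ hk, hkj] at he
  exact conj_mem_subQ (spec_good (mover_good hm)) (qGens_lt hj) hsub he

theorem syl_le_normQ : syl ≤ normQ := by
  rw [syl, Subgroup.closure_le]
  rintro s (rfl | rfl | rfl)
  exacts [mover_mem (m := 0) (by norm_num), mover_mem (m := 1) (by norm_num), mover_mem (m := 2) (by norm_num)]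

theorem normalizer_le :
    Subgroup.normalizer (syl : Set JG) ≤
      Subgroup.closure {x : JG | (∀ y ∈ subQ, x * y * x⁻¹ ∈ subQ) ∧ ∃ k : ℕ, x ^ (2 ^ k) = 1} := by
  intro x hx
  obtain ⟨i, hi, hmem⟩ := normalizer_eq hx
  set C := Subgroup.closure {x : JG | (∀ y ∈ subQ, x * y * x⁻¹ ∈ subQ) ∧ ∃ k : ℕ, x ^ (2 ^ k) = 1}
  have h := t_ok
  simp only [Bool.and_eq_true] at h
  obtain ⟨⟨⟨h1, h2⟩, h3⟩, h4⟩ := h
  have g5 : Good (spec 5) := spec_good (by norm_num)
  have g6 : Good (spec 6) := spec_good (by norm_num)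
  have g4 : Good (spec 4) := spec_good (by norm_num)
  have g3 : Good (spec 3) := spec_good (by norm_num)
  have e1 := prodL_eq (good2 g5 g6) (good1 g4) h1
  have e2 := prodL_eq (good2 g4 g4) (good1 g3) h2
  have e3 := prodL_eq (good2 g5 g5) good0 h3
  have e4 := prodL_eq (good2 g6 g6) good0 h4
  simp only [prodL_pair, prodL_singleton, show prodL [] = 1 from rfl] at e1 e2 e3 e4
  have hu : el (spec 5) ∈ C := Subgroup.subset_closure
    ⟨mover_mem (m := 4) (by norm_num), 1, by rw [pow_one, pow_two]; exact e3⟩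
  have hv : el (spec 6) ∈ C := Subgroup.subset_closure
    ⟨mover_mem (m := 5) (by norm_num), 1, by rw [pow_one, pow_two]; exact e4⟩
  have ht : el (spec 4) ∈ C := e1 ▸ mul_mem hu hv
  have hback : back i ∈ C := by
    interval_cases i
    · exact one_mem C
    · rw [back, show backL 1 = [spec 3] from rfl, prodL_singleton, ← e2]
      exact mul_mem ht ht
    · rw [back, show backL 2 = [spec 4] from rfl, prodL_singleton]
      exact ht
  have hS : back i * x ∈ C := by
    refine Subgroup.subset_closure ⟨syl_le_normQ hmem, ?_⟩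
    have hp : IsPGroup 2 syl := IsPGroup.of_card (n := 7) (by rw [card_syl]; norm_num)
    obtain ⟨k, hk⟩ := hp ⟨_, hmem⟩
    exact ⟨k, by simpa using congrArg Subtype.val hk⟩
  simpa using mul_mem (inv_mem hback) hS

theorem normalizer_normQ {x : JG} (hx : x ∈ Subgroup.normalizer (syl : Set JG)) : x ∈ normQ :=
  (show Subgroup.closure {x : JG | (∀ y ∈ subQ, x * y * x⁻¹ ∈ subQ) ∧ ∃ k : ℕ, x ^ (2 ^ k) = 1} ≤ normQ
    from (Subgroup.closure_le _).mpr fun _ h => h.1) (normalizer_le hx)

theorem centralizer_Q {x : JG} (hx : ∀ y ∈ subQ, x * y = y * x) : x ∈ syl := by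
  have hfix : ∀ (js : List Nat) (ws : List (List Nat)) (pt : Fin 100) (fx : List Nat),
      fixStep js ws pt fx = true → ((x • pt : Fin 100) : Nat) ∈ fx := by
    intro js ws pt fx h
    simp only [fixStep, Bool.and_eq_true, beq_iff_eq, List.all_eq_true, List.mem_range, Bool.or_eq_true,
      Bool.not_eq_true', List.contains_iff_mem] at h
    rcases h.2 _ (x • pt : Fin 100).2 with h' | h'
    · exfalso
      obtain ⟨j, hj, hne⟩ := List.all_eq_false.mp h'
      refine hne ?_
      obtain ⟨k, hk, rfl⟩ := List.getElem_of_mem hj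
      obtain ⟨⟨hsub, he⟩, hp⟩ := h.1.2 k hk
      rw [List.getD_eq_getElem _ _ hk] at he hp
      have hq : prodL (idxL (ws.getD k [])) ∈ subQ := prod_mem_subQ hsub
      have hl : ∀ i ∈ ws.getD k [], i < 128 := fun i hi => qGens_lt (hsub i hi)
      simp only [eqL, List.all_eq_true, beq_iff_eq, List.mem_range] at he
      have happ : ∀ p : Fin 100, ((prodL (idxL (ws.getD k [])) • p : Fin 100) : Nat) = app7 (elt js[k]) p :=
        fun p => (prodL_apply (good_idxL hl) p).trans (by simpa [img] using he p p.2)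
      have hfp : prodL (idxL (ws.getD k [])) • pt = pt := Fin.ext ((happ pt).trans hp)
      rw [beq_iff_eq, ← happ, ← mul_smul, ← hx _ hq, mul_smul, hfp]
    · exact h'
  have hf := fix_ok
  rw [Bool.and_eq_true] at hf
  have h0 := hfix qFix0 qFix0Words 0 fix0 hf.1
  have hy := hfix qFixY qFixYWords ⟨65, by norm_num⟩ fixY hf.2
  have hp := pairs_ok
  simp only [Bool.and_eq_true, List.all_eq_true, List.any_eq_true, decide_eq_true_eq, beq_iff_eq] at hp
  obtain ⟨e, he, he0, hey⟩ := hp.2 _ h0 _ hy
  have he128 := hp.1 e he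
  obtain ⟨i, hi, hki⟩ := pairStab_eq (x := (f e)⁻¹ * x)
    (by rw [mul_smul, inv_smul_eq_iff]; exact Fin.ext ((f_apply he128 _).trans he0).symm)
    (by rw [mul_smul, inv_smul_eq_iff]; exact Fin.ext ((f_apply he128 _).trans hey).symm)
  have hx' : x = f e * el (pairStab.getD i 0) := by rw [← hki, mul_inv_cancel_left]
  have hok := pairStab_ok
  simp only [Bool.and_eq_true, beq_iff_eq, List.all_eq_true, List.mem_range] at hok
  have hg : Good (pairStab.getD i 0) := good_of_memOK (hok.2 i hi).1.1
  have hc := cent_ok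
  simp only [List.all_eq_true, List.mem_range] at hc
  have hc := hc e he i hi
  simp only [centStep, Bool.or_eq_true, Bool.and_eq_true, decide_eq_true_eq, List.any_eq_true,
    Bool.not_eq_true'] at hc
  rcases hc with ⟨hidx, heq⟩ | ⟨q, hq, hne⟩
  · have e2 := prodL_eq (good1 hg) (good1 (elt_good hidx)) heq
    rw [prodL_singleton, prodL_singleton] at e2
    rw [hx', e2]
    exact mul_mem (f_mem_syl he128) (f_mem_syl hidx)
  · exfalso
    rw [← Bool.not_eq_true] at hne
    refine hne ?_
    have hq128 := qGens_lt hq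
    have hcomm := hx (f q) (Subgroup.subset_closure ⟨q, hq, rfl⟩)
    rw [hx'] at hcomm
    simp only [eqL, List.all_eq_true, beq_iff_eq, List.mem_range]
    intro p hp
    have hgood1 : ∀ c ∈ [elt e, pairStab.getD i 0, elt q], Good c := good3 (elt_good he128) hg (elt_good hq128)
    have hgood2 : ∀ c ∈ [elt q, elt e, pairStab.getD i 0], Good c := good3 (elt_good hq128) (elt_good he128) hg
    rw [← prodL_apply hgood1 ⟨p, hp⟩, ← prodL_apply hgood2 ⟨p, hp⟩]
    have : prodL [elt e, pairStab.getD i 0, elt q] = prodL [elt q, elt e, pairStab.getD i 0] := by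
      simpa [prodL, f, mul_assoc] using hcomm
    rw [this]

theorem step_down {j : Nat} (hj : j < 128) (hj0 : j ≠ 0) (hjz : j ≠ zElt) :
    ∃ a c, a < 3 ∧ c < 128 ∧ c ≠ 0 ∧ rank.getD c 0 < rank.getD j 0 ∧ g a * f j = f c * (f j * g a) := by
  have h := centre_ok
  simp only [Bool.and_eq_true, List.all_eq_true, List.mem_range] at h
  have h := h.2 j hj
  simp only [centreStep, Bool.or_eq_true, Bool.and_eq_true, beq_iff_eq, decide_eq_true_eq,
    Bool.not_eq_true', beq_eq_false_iff_ne] at h
  rcases h with (h | h) | h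
  · exact absurd h hj0
  · exact absurd h hjz
  obtain ⟨⟨⟨⟨ha, hc⟩, hc0⟩, hr⟩, he⟩ := h
  refine ⟨_, _, ha, hc, hc0, hr, ?_⟩
  have hga : Good (spec (cgen.getD j 0)) := spec_good (by omega)
  have e := prodL_eq (good2 hga (elt_good hj)) (good3 (elt_good hc) (elt_good hj) hga) he
  simpa [prodL, g, f, mul_assoc] using e

theorem stronglyClosed_trivial {T : Subgroup JG} (hT : T ≤ syl)
    (hcl : ∀ x ∈ T, ∀ w : JG, w * x * w⁻¹ ∈ syl → w * x * w⁻¹ ∈ T) : T = ⊥ ∨ T = syl := by
  by_cases hb : T = ⊥
  · exact Or.inl hb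
  right
  obtain ⟨x, hxT, hx1⟩ := (Subgroup.bot_or_exists_ne_one T).resolve_left hb
  have hzz : ∀ n, ∀ j, j < 128 → j ≠ 0 → rank.getD j 0 = n → f j ∈ T → f zElt ∈ T := by
    intro n
    induction n using Nat.strongRecOn with
    | _ n ih =>
      intro j hj hj0 hn hjT
      by_cases hjz : j = zElt
      · exact hjz ▸ hjT
      obtain ⟨a, c, ha, hc, hc0, hr, e⟩ := step_down hj hj0 hjz
      refine ih _ (hn ▸ hr) c hc hc0 rfl ?_
      have h1 : g a * f j * (g a)⁻¹ ∈ T :=
        hcl _ hjT _ (mul_mem (mul_mem (g_mem_syl ha) (hT hjT)) (inv_mem (g_mem_syl ha)))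
      have : f c = g a * f j * (g a)⁻¹ * (f j)⁻¹ := by rw [e]; group
      rw [this]
      exact mul_mem h1 (inv_mem hjT)
  obtain ⟨j, hj, rfl⟩ := mem_syl_iff.mp (hT hxT)
  have hzT := hzz _ j hj (by rintro rfl; exact hx1 f_zero) rfl hxT
  refine le_antisymm hT ?_
  have h := zConj_ok
  simp only [Bool.and_eq_true, List.all_eq_true, List.mem_range, beq_iff_eq, decide_eq_true_eq,
    Bool.or_eq_true, List.contains_iff_mem] at h
  obtain ⟨⟨⟨hlen, -⟩, hk⟩, hgen⟩ := h
  have hz128 : zElt < 128 := by
    have := centre_ok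
    simp only [Bool.and_eq_true, decide_eq_true_eq] at this
    exact this.1.1
  have hall : ∀ k, k ≤ 6 → ∀ i ∈ zConj.take k, i < 128 ∧ f i ∈ T := by
    intro k
    induction k with
    | zero => intro _ i hi; simp at hi
    | succ k ih =>
      intro hk6 i hi
      have ih := ih (by omega)
      have hkl : k < zConj.length := by omega
      rw [← List.take_concat_get' zConj k hkl] at hi
      rcases List.mem_append.mp hi with hi | hi
      · exact ih i hi
      rw [List.mem_singleton] at hi
      subst hi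
      obtain ⟨⟨hlt, hsrc⟩, he⟩ := hk k (by omega)
      rw [List.getD_eq_getElem _ _ hkl] at hlt he
      refine ⟨hlt, ?_⟩
      have hsl : ∀ i ∈ zConjSrc.getD k [], i < 128 ∧ f i ∈ T := fun i hi =>
        (hsrc i hi).elim (fun e => e ▸ ⟨hz128, hzT⟩) (ih i)
      have hy : prodL (idxL (zConjSrc.getD k [])) ∈ T := by
        rw [prod_idxL]
        refine list_prod_mem ?_
        intro y hy
        obtain ⟨i, hi, rfl⟩ := List.mem_map.mp hy
        exact (hsl i hi).2
      have hw : Good (spec (7 + k)) := spec_good (by omega)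
      have hfl := good_idxL fun i hi => (hsl i hi).1
      have e := prodL_eq (l := spec (7 + k) :: idxL (zConjSrc.getD k [])) (by
        intro c hc
        rcases List.mem_cons.mp hc with rfl | hc
        exacts [hw, hfl c hc]) (m := [elt zConj[k], spec (7 + k)]) (good2 (elt_good hlt) hw) he
      rw [prodL_pair, show prodL (spec (7 + k) :: idxL (zConjSrc.getD k [])) =
        el (spec (7 + k)) * prodL (idxL (zConjSrc.getD k [])) by simp [prodL]] at e
      have e' : el (spec (7 + k)) * prodL (idxL (zConjSrc.getD k [])) * (el (spec (7 + k)))⁻¹ = f zConj[k] := by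
        rw [e, mul_inv_cancel_right]; rfl
      rw [← e']
      exact hcl _ hy _ (e' ▸ f_mem_syl hlt)
  have hg : ∀ a, a < 3 → g a ∈ T := by
    intro a ha
    obtain ⟨hm, he⟩ := hgen a ha
    have hsl : ∀ i ∈ gFromConj.getD a [], i < 128 ∧ f i ∈ T := fun i hi =>
      (hm i hi).elim (fun e => e ▸ ⟨hz128, hzT⟩) fun h' =>
        hall 6 le_rfl i (by rwa [List.take_of_length_le (by omega)])
    have e := prodL_eq (good_idxL fun i hi => (hsl i hi).1) (good1 (spec_good (show a < 13 by omega))) he
    rw [prodL_singleton, prod_idxL] at e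
    show el (spec a) ∈ T
    rw [← e]
    refine list_prod_mem ?_
    intro y hy
    obtain ⟨i, hi, rfl⟩ := List.mem_map.mp hy
    exact (hsl i hi).2
  rw [syl, Subgroup.closure_le]
  rintro s (rfl | rfl | rfl)
  exacts [hg 0 (by norm_num), hg 1 (by norm_num), hg 2 (by norm_num)]

/-- The 2-fusion system of a group isomorphic to the permutation group. -/
theorem isSimple_of_equiv {G : Type*} [Group G] [Finite G] (e : JG ≃* G) (S : Sylow 2 G) :
    (Cfsg.groupFusionSystem (S : Subgroup G)).IsSimple 2 := by
  have hcardG : (Nat.card G).factorization 2 = 7 := by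
    rw [← Nat.card_congr e.toEquiv, card_j2Group, show (604800 : ℕ) = 2 ^ 7 * 4725 by norm_num,
      Nat.factorization_mul (by norm_num) (by norm_num),
      Finsupp.add_apply, Nat.prime_two.factorization_pow, Finsupp.single_eq_same,
      Nat.factorization_eq_zero_of_not_dvd (show ¬ 2 ∣ 4725 by norm_num)]
  have hc : Nat.card (syl.map e.toMonoidHom) = 2 ^ (Nat.card G).factorization 2 := by
    rw [hcardG, Subgroup.card_map_of_injective e.injective, card_syl]; norm_num
  obtain ⟨P, hP⟩ : ∃ P : Sylow 2 G, (P : Subgroup G) = syl.map e.toMonoidHom :=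
    ⟨Sylow.ofCard _ hc, rfl⟩
  obtain ⟨w, hw⟩ := MulAction.exists_smul_eq G P S
  let E : JG ≃* G := e.trans (MulAut.conj w)
  have hS : (S : Subgroup G) = syl.map E.toMonoidHom := by
    rw [← hw, Sylow.coe_subgroup_smul, hP, Subgroup.pointwise_smul_def]
    exact Subgroup.map_map syl (MulAut.conj w).toMonoidHom e.toMonoidHom
  have hmem : ∀ x : JG, E x ∈ (S : Subgroup G) ↔ x ∈ syl := fun x => by
    rw [hS]
    exact ⟨fun ⟨y, hy, he⟩ => E.injective he ▸ hy, fun h => ⟨x, h, rfl⟩⟩
  have hnorm : ∀ v : JG, E v ∈ Subgroup.normalizer ((S : Subgroup G) : Set G) →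
      v ∈ Subgroup.normalizer (syl : Set JG) := by
    intro v hv
    rw [Subgroup.mem_normalizer_iff]
    intro k
    have h1 := Subgroup.mem_normalizer_iff.mp hv (E k)
    rwa [← map_inv, ← map_mul, ← map_mul, hmem, hmem] at h1
  refine NormalSubsystem.isSimple S ?_ ?_ (P := subQ.map E.toMonoidHom) ?_ ?_ ?_ ?_
  · intro hb
    have h1 := (hmem _).mpr (g_mem_syl (a := 0) (by norm_num))
    rw [hb, Subgroup.mem_bot, E.map_eq_one_iff] at h1
    have hg : sylGens.getD 0 0 < 128 ∧ sylGens.getD 0 0 ≠ 0 := by decide +kernel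
    have h := gens_ok
    simp only [List.all_eq_true, List.mem_range, Bool.and_eq_true] at h
    have e := prodL_eq (l := [gC 0]) (m := [spec 0]) (good1 (elt_good hg.1)) (good1 (spec_good (show (0 : Nat) < 13 by norm_num)))
      (h 0 (by norm_num)).2
    rw [prodL_singleton, prodL_singleton] at e
    exact f_ne_one hg.1 hg.2 (e.trans h1)
  · intro T hT
    rcases stronglyClosed_trivial (T := T.comap E.toMonoidHom) (fun x hx => (hmem x).mp (hT.1 hx))
      (fun x hx v hv => by
        have hy : E x ∈ T := hx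
        show E (v * x * v⁻¹) ∈ T
        have he : E (v * x * v⁻¹) = E v * E x * (E v)⁻¹ := by rw [map_mul, map_mul, map_inv]
        rw [he]
        have hle : Subgroup.zpowers (E x) ≤ T := Subgroup.zpowers_le.mpr hy
        refine hT.2 _ hle (Cfsg.conjHom (Subgroup.zpowers (E x)) (E v)) ?_ ⟨E x, Subgroup.mem_zpowers _⟩
        refine ⟨hle.trans hT.1, ?_, E v, fun _ => rfl⟩
        rintro ⟨_, n, rfl⟩
        show E v * E x ^ n * (E v)⁻¹ ∈ (S : Subgroup G)
        rw [← conj_zpow]
        exact zpow_mem (he ▸ (hmem _).mpr hv) n) with h | h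
    · left
      rw [← Subgroup.map_comap_eq_self_of_surjective (f := E.toMonoidHom) E.surjective T, h, Subgroup.map_bot]
    · right
      rw [← Subgroup.map_comap_eq_self_of_surjective (f := E.toMonoidHom) E.surjective T, h, hS]
  · rw [hS]; exact Subgroup.map_mono subQ_le
  · intro v hv x hx
    obtain ⟨y, hy, rfl⟩ := hx
    obtain ⟨v, rfl⟩ := E.surjective v
    exact ⟨_, normalizer_normQ (hnorm v hv) y hy, by simp⟩
  · intro v hv
    obtain ⟨v, rfl⟩ := E.surjective v
    exact (hmem v).mpr (centralizer_Q fun y hy => E.injective (by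
      rw [map_mul, map_mul]; exact hv _ ⟨y, hy, rfl⟩))
  · intro v hv
    obtain ⟨v, rfl⟩ := E.surjective v
    have h1 := Subgroup.mem_map_of_mem E.toMonoidHom (normalizer_le (hnorm v hv))
    rw [MonoidHom.map_closure] at h1
    refine Subgroup.closure_mono ?_ h1
    rintro _ ⟨x, ⟨hx, k, hk⟩, rfl⟩
    refine ⟨?_, k, by rw [← map_pow, hk, map_one]⟩
    rintro _ ⟨y, hy, rfl⟩
    exact ⟨_, hx y hy, by simp⟩

end CfsgLib.FusionExamples.J2Fusion
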