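import Cfsg.Agent.Lib.FusionExamples.J2FusionData

/-! The checks for the 2-fusion of J2 on 100 points. -/

set_option autoImplicit false
set_option Elab.async false

namespace CfsgLib.FusionExamples.J2Fusion

open CfsgLib.Mathieu CfsgLib.Mathieu.GraphAut CfsgLib.Mathieu.J2Cert

/-- The code of the `j`th element. -/
def elt (j : Nat) : Nat := sylList.getD j 0

/-- The code of a special element. -/
def spec (i : Nat) : Nat := special.getD i 0

/-- The code of a generator. -/
def gC (a : Nat) : Nat := elt (sylGens.getD a 0)

/-- Image of a point under a product of codes. -/
def img (l : List Nat) (p : Nat) : Nat := l.foldr app7 p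

/-- Two products of codes agree. -/
def eqL (l m : List Nat) : Bool := (List.range 100).all fun p => img l p == img m p

/-- A code of a member given by a word. -/
def memOK (c : Nat) (w : List Nat) : Bool :=
  isPerm7 100 c && wordValid gensP w && (List.range 100).all fun p => word7 gensP w p == app7 c p

theorem special_ok : ((List.range special.length).all fun i =>
    memOK (spec i) (specialWords.getD i [])) = true := by decide +kernel

theorem pairStab_ok : (pairStab.length == 96 && (List.range 96).all (fun i =>
    memOK (pairStab.getD i 0) (pairStabWords.getD i []) && app7 (pairStab.getD i 0) 0 == 0 &&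
      app7 (pairStab.getD i 0) 65 == 65)) = true := by decide +kernel

theorem pairStab_nodup : decide ((pairStab.map fun c => (List.range 100).map (app7 c)).Nodup) = true := by
  decide +kernel

def treeStep (j : Nat) : Bool :=
  isPerm7 100 (elt j) && bif j == 0 then (List.range 100).all (fun p => app7 (elt j) p == p) else
    decide (treeSrc.getD j 0 < j) && decide (treeVia.getD j 0 < 3) &&
      eqL [elt j] [spec (treeVia.getD j 0), elt (treeSrc.getD j 0)]

theorem tree_ok : (List.range 128).all treeStep = true := by decide +kernel

theorem gens_ok : (List.range 3).all (fun a =>
    decide (sylGens.getD a 0 < 128) && eqL [gC a] [spec a]) = true := by decide +kernel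

def closedStep (a j : Nat) : Bool :=
  decide ((gtab.getD a []).getD j 0 < 128) && eqL [spec a, elt j] [elt ((gtab.getD a []).getD j 0)]

theorem closed_ok : (List.range 3).all (fun a => (List.range 128).all (closedStep a)) = true := by
  decide +kernel

theorem syl_nodup : decide ((sylList.map fun c => (List.range 100).map (app7 c)).Nodup) = true := by
  decide +kernel

theorem sylList_length : sylList.length = 128 := by decide +kernel

/-- Number of bits below 100. -/
def cntBits (m : Nat) : Nat := ((List.range 100).filter fun q => m.testBit q).length

/-- Size of the orbit of a point. -/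
def osz (p : Nat) : Nat := cntBits (orBits (sylList.map fun c => app7 c p))

theorem osz_ok : ((List.range 100).all fun p =>
    if osz p == 4 then small.any (fun o => o.contains p)
    else if osz p == 8 then orb8.contains p
    else if osz p == 16 then orb16.contains p
    else true) = true := by decide +kernel

theorem osz_orbs : (osz 0 == 4 && orb8.all (fun p => osz p == 8 && decide (p < 100)) &&
    orb16.all (fun p => osz p == 16 && decide (p < 100)) && orb8.contains 65 &&
    orb8.all (fun p => (packAt rows 100 0).testBit p || farOrb8.contains p) &&
    !(packAt rows 100 0).testBit 65) = true := by decide +kernel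

theorem trans_ok : (transList.all (fun j => decide (j < 128)) && transY.all (fun j => decide (j < 128)) &&
    decide (transList.map (fun j => app7 (elt j) 0) = orb) &&
    decide (transY.map (fun j => app7 (elt j) 65) = farOrb8) &&
    transY.all (fun j => app7 (elt j) 0 == 0) &&
    orb.contains 0 && (small.getD 0 [] == orb)) = true := by decide +kernel

/-- Elements moving the short orbits to the first. -/
def backL (i : Nat) : List Nat := bif i == 1 then [spec 3] else bif i == 2 then [spec 4] else []

theorem small_ok : (small.length == 3 && (List.range 3).all (fun i =>
    (small.getD i []).all (fun p => decide (p < 100) && orb.contains (img (backL i) p) &&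
      (List.range 3).all (fun a => (small.getD i []).contains (app7 (spec a) p))) &&
    (List.range 3).all (fun a => decide ((backConj.getD i []).getD a 0 < 128) &&
      eqL (backL i ++ [spec a]) (elt ((backConj.getD i []).getD a 0) :: backL i)))) = true := by
  decide +kernel

/-- Elements of the two point stabilizer preserving both orbits lie in the list. -/
def normStep (i : Nat) : Bool :=
  !(orb8.all (fun p => orb8.contains (app7 (pairStab.getD i 0) p)) &&
    orb16.all (fun p => orb16.contains (app7 (pairStab.getD i 0) p))) ||
  (decide (pairStabIdx.getD i 0 < 128) && eqL [pairStab.getD i 0] [elt (pairStabIdx.getD i 0)])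

theorem norm_ok : (List.range 96).all normStep = true := by decide +kernel

def centreStep (j : Nat) : Bool :=
  j == 0 || j == zElt ||
    (decide (cgen.getD j 0 < 3) && decide (ctgt.getD j 0 < 128) && !(ctgt.getD j 0 == 0) &&
      decide (rank.getD (ctgt.getD j 0) 0 < rank.getD j 0) &&
      eqL [spec (cgen.getD j 0), elt j] [elt (ctgt.getD j 0), elt j, spec (cgen.getD j 0)])

theorem centre_ok : (decide (zElt < 128) && !(zElt == 0) &&
    (List.range 128).all centreStep) = true := by decide +kernel

/-- The product named by indices. -/
def idxL (l : List Nat) : List Nat := l.map elt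

theorem q_ok : (qGens.all (fun j => decide (j < 128)) && qConj.length == 6 &&
    (List.range 6).all (fun m => (qConj.getD m []).length == qGens.length &&
      (List.range qGens.length).all (fun k =>
        ((qConj.getD m []).getD k []).all (fun i => qGens.contains i) &&
        eqL [spec ([0, 1, 2, 4, 5, 6].getD m 0), elt (qGens.getD k 0)]
          (idxL ((qConj.getD m []).getD k []) ++ [spec ([0, 1, 2, 4, 5, 6].getD m 0)])))) = true := by
  decide +kernel

def fixStep (js : List Nat) (ws : List (List Nat)) (pt : Nat) (fx : List Nat) : Bool :=
  js.length == ws.length &&
  (List.range js.length).all (fun k => (ws.getD k []).all (fun i => qGens.contains i) &&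
    eqL (idxL (ws.getD k [])) [elt (js.getD k 0)] && app7 (elt (js.getD k 0)) pt == pt) &&
  (List.range 100).all fun p => !(js.all fun j => app7 (elt j) p == p) || fx.contains p

theorem fix_ok : (fixStep qFix0 qFix0Words 0 fix0 && fixStep qFixY qFixYWords 65 fixY) = true := by
  decide +kernel

theorem pairs_ok : (pairElts.all (fun e => decide (e < 128)) && fix0.all (fun a => fixY.all fun b =>
    pairElts.any fun e => app7 (elt e) 0 == a && app7 (elt e) 65 == b)) = true := by decide +kernel

def centStep (e i : Nat) : Bool :=
  (decide (pairStabIdx.getD i 0 < 128) && eqL [pairStab.getD i 0] [elt (pairStabIdx.getD i 0)]) ||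
    qGens.any fun q => !eqL [elt e, pairStab.getD i 0, elt q] [elt q, elt e, pairStab.getD i 0]

theorem cent_ok : pairElts.all (fun e => (List.range 96).all (centStep e)) = true := by decide +kernel

theorem t_ok : (eqL [spec 5, spec 6] [spec 4] && eqL [spec 4, spec 4] [spec 3] &&
    eqL [spec 5, spec 5] [] && eqL [spec 6, spec 6] []) = true := by decide +kernel

theorem zConj_ok : (zConj.length == 6 && zConjSrc.length == 6 && (List.range 6).all (fun k =>
    decide (zConj.getD k 0 < 128) &&
    (zConjSrc.getD k []).all (fun i => i == zElt || (zConj.take k).contains i) &&
    eqL (spec (7 + k) :: idxL (zConjSrc.getD k [])) [elt (zConj.getD k 0), spec (7 + k)]) &&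
    (List.range 3).all (fun a => (gFromConj.getD a []).all (fun i => i == zElt || zConj.contains i) &&
      eqL (idxL (gFromConj.getD a [])) [spec a])) = true := by decide +kernel

end CfsgLib.FusionExamples.J2Fusion
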