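import Cfsg.Agent.Lib.FusionExamples.J3FusionData

/-! The checks for the 2-fusion of J3 on 6156 points. -/

set_option autoImplicit false
set_option Elab.async false

namespace CfsgLib.FusionExamples.J3Fusion

open CfsgLib.SporadicB.J3
open CfsgLib.SporRecognition.CosetCert (allBelow allPow trace allPow_append)

/-- The four tables: two generators and two generators of the stabilizer of the point `0`. -/
noncomputable def tb (a : Nat) : Nat → Nat :=
  bif Nat.blt a 2 then Data.tab a else Data.perm (Nat.sub a 2)

/-- Evaluation of a word. -/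
noncomputable def ev (w : List Nat) (u : Nat) : Nat := trace (w.map tb) u

def wOK (w : List Nat) : Bool := w.all fun a => Nat.blt a 4

/-- The word of the `j`th element of the Sylow subgroup. -/
noncomputable def wS' : Nat → Nat → List Nat :=
  Nat.rec (fun _ => []) fun _ ih j => bif Nat.beq j 0 then [] else ih (src j) ++ gw (via j)

noncomputable def wS (j : Nat) : List Nat := wS' 7 j

noncomputable def wQ (l : List Nat) : List Nat := l.flatMap wS

/-- Two words agree on the base `0`, `ptA`, `ptB`. -/
noncomputable def eqB (v w : List Nat) : Bool :=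
  Nat.beq (ev v 0) (ev w 0) && Nat.beq (ev v ptA) (ev w ptA) && Nat.beq (ev v ptB) (ev w ptB)

theorem words_ok : (wOK (gw 0) && wOK (gw 1) && wOK (gw 2) && wOK zw && wOK tw1 && wOK tw2 &&
    wOK uw && wOK vw && zConj.all fun p => wOK p.2) = true := by decide +kernel

noncomputable def closedStep (a j : Nat) : Bool :=
  Nat.blt (gtab a j) 128 && eqB (wS j ++ gw a) (wS (gtab a j))

theorem closed_ok : (allBelow 7 128 (closedStep 0) && allBelow 7 128 (closedStep 1) &&
    allBelow 7 128 (closedStep 2)) = true := by decide +kernel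

noncomputable def key (j : Nat) : Nat :=
  Nat.add (Nat.mul (ev (wS j) 0) 67108864) (Nat.add (Nat.mul (ev (wS j) ptA) 8192) (ev (wS j) ptB))

noncomputable def srtStep (j : Nat) : Bool :=
  Nat.blt (srt j) 128 &&
    (bif Nat.beq j 0 then true else Nat.blt (key (srt (Nat.sub j 1))) (key (srt j)))

theorem srt_ok : allBelow 7 128 srtStep = true := by decide +kernel

theorem stab_ok : (Nat.beq stabList.length 16 && stabList.all (fun j => Nat.blt j 128 &&
    Nat.beq (ev (wS j) 0) 0 && Nat.beq (ev (wS j) ptA) ptA) &&
    decide ((stabList.map fun j => ev (wS j) ptB).Nodup)) = true := by decide +kernel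

theorem lab_ok' : Data.lab ptA = 3 ∧ Data.lab ptA' = 3 ∧ ptA < 6156 ∧ ptA' < 6156 ∧ ptB < 6156 ∧
    orb.length = 4 ∧ (∀ u ∈ orb, Data.lab u = 3 → u = ptA ∨ u = ptA') ∧ 0 ∈ orb ∧ ptA ∈ orb := by
  decide +kernel

theorem orb_ok : (orb.all (fun u => orb.contains (ev (gw 0) u) && orb.contains (ev (gw 1) u) &&
    orb.contains (ev (gw 2) u)) && decide (transList.map (fun j => ev (wS j) 0) = orb) &&
    transList.all (fun j => Nat.blt j 128) && Nat.blt swapElt 128 &&
    Nat.beq (ev (wS swapElt) 0) 0 && Nat.beq (ev (wS swapElt) ptA) ptA') = true := by decide +kernel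

noncomputable def smallStep (i : Nat) : Bool :=
  (small.getD i []).all (fun u => (small.getD i []).contains (ev (gw 0) u) &&
    (small.getD i []).contains (ev (gw 1) u) && (small.getD i []).contains (ev (gw 2) u) &&
    orb.contains (ev (back i) u)) &&
  allBelow 2 3 (fun a => Nat.blt (backConj i a) 128 &&
    (Nat.beq i 0 || eqB (gw a ++ back i) (back i ++ wS (backConj i a))))

theorem small_ok : allBelow 2 3 smallStep = true := by decide +kernel

noncomputable def centreStep (j : Nat) : Bool :=
  Nat.beq j 0 || Nat.beq j zElt ||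
    (Nat.blt (cgen j) 3 && Nat.blt (ctgt j) 128 && !Nat.beq (ctgt j) 0 &&
      Nat.blt (rank (ctgt j)) (rank j) &&
      eqB (wS j ++ gw (cgen j)) (gw (cgen j) ++ wS j ++ wS (ctgt j)))

theorem centre_ok : allBelow 7 128 centreStep = true := by decide +kernel

theorem z_ok : (Nat.blt zElt 128 && !Nat.beq zElt 0 && eqB zw (wS zElt) &&
    eqB (zw ++ gw 0) (gw 0 ++ zw) && eqB (zw ++ gw 1) (gw 1 ++ zw) &&
    eqB (zw ++ gw 2) (gw 2 ++ zw) && eqB (wQ qCentre) zw) = true := by decide +kernel

/-- At most four values. -/
def short (l : List Nat) : Bool := Nat.ble (l.dedup.length) 4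

noncomputable def scanStep (u : Nat) : Bool :=
  bif Nat.beq (ev zw u) u then
    (small.any (fun o => o.contains u) || !short (probe.map fun j => ev (wS j) u)) &&
      (!(qFix.all fun j => Nat.beq (ev (wS j) u) u) || orb.contains u)
  else true

theorem scan_ok_0 : allPow 6156 scanStep 10 0 = true := by decide +kernel

theorem scan_ok_1 : allPow 6156 scanStep 10 1024 = true := by decide +kernel

theorem scan_ok_2 : allPow 6156 scanStep 10 2048 = true := by decide +kernel

theorem scan_ok_3 : allPow 6156 scanStep 10 3072 = true := by decide +kernel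

theorem scan_ok_4 : allPow 6156 scanStep 10 4096 = true := by decide +kernel

theorem scan_ok_5 : allPow 6156 scanStep 10 5120 = true := by decide +kernel

theorem scan_ok_6 : allPow 6156 scanStep 10 6144 = true := by decide +kernel

theorem scan_ok_7 : allPow 6156 scanStep 10 7168 = true := by decide +kernel

theorem scan_ok : allBelow 13 6156 scanStep = true :=
  allBelow_of_allPow rfl (allPow_append (allPow_append (allPow_append scan_ok_0 scan_ok_1)
    (allPow_append scan_ok_2 scan_ok_3)) (allPow_append (allPow_append scan_ok_4 scan_ok_5)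
    (allPow_append scan_ok_6 scan_ok_7)))

/-- The elements conjugating the group `Q`. -/
def movers : List (List Nat) := [gw 0, gw 1, gw 2, tw1, uw, vw]

noncomputable def qStep (x : List Nat) (ps : List (List Nat)) : Bool :=
  (List.zipWith (fun j p => p.all (fun k => qGens.contains k) && eqB (wS j ++ x) (x ++ wQ p))
    qGens ps).all id && Nat.beq ps.length qGens.length

theorem q_ok : ((List.zipWith qStep movers qConj).all id && Nat.beq qConj.length 6 &&
    qCentre.all (fun k => qGens.contains k) && qGens.all (fun j => Nat.blt j 128) &&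
    Nat.beq qFixWords.length qFix.length &&
    (List.zipWith (fun j p => p.all (fun k => qGens.contains k) && eqB (wQ p) (wS j) &&
      orb.all fun u => Nat.beq (ev (wS j) u) u) qFix qFixWords).all id) = true := by decide +kernel

theorem t_ok : (eqB (vw ++ uw) tw1 && eqB (tw1 ++ tw1) tw2 && eqB (uw ++ uw) [] &&
    eqB (vw ++ vw) []) = true := by decide +kernel

theorem zConj_ok : (zConj.all (fun p => Nat.blt p.1 128 && eqB (zw ++ p.2) (p.2 ++ wS p.1)) &&
    Nat.beq gFromConj.length 3 &&
    gFromConj.all (fun l => l.all fun k => (zConj.map Prod.fst).contains k) &&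
    eqB (wQ (gFromConj.getD 0 [])) (gw 0) && eqB (wQ (gFromConj.getD 1 [])) (gw 1) &&
    eqB (wQ (gFromConj.getD 2 [])) (gw 2)) = true := by decide +kernel

end CfsgLib.FusionExamples.J3Fusion
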