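import Cfsg.Agent.Lib.SporadicB.J3.Basic
import Cfsg.Agent.Lib.FusionExamples.J3FusionCheck

/-! J3 as a permutation group on 6156 points with four tabulated elements. -/

set_option autoImplicit false
set_option linter.all false

namespace CfsgLib.FusionExamples.J3Fusion

open CfsgLib.SporadicB.J3 MulAction

attribute [local irreducible] Data.tab0 Data.tab1 Data.perm0 Data.perm1 Data.lab

/-- The properties of the permutation group that the fusion argument uses. -/
structure IsAct (H : Subgroup (Equiv.Perm (Fin 6156))) : Prop where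
  card : Nat.card H = 50232960
  stab : Nat.card (stabilizer H (0 : Fin 6156)) = 8160
  tbl : ∀ a < 4, ∃ g : H, ∀ p : Fin 6156, (((g : Equiv.Perm (Fin 6156)) p : Fin 6156) : Nat) = tb a p

open Cfsg.Spor in
theorem exists_act {F : Type*} [Field F] [Fintype F] [CharP F 2] {ω : F} (hω : ω ^ 2 + ω + 1 = 0) :
    ∃ H : Subgroup (Equiv.Perm (Fin 6156)), IsAct H ∧ Nonempty (J3 F ω ≃* H) := by
  obtain ⟨-, -, -, -, -, hc3⟩ := j3_main (F := F) hω
  obtain ⟨φ, hker, htrans, hfix, htab, hperm⟩ := exists_phi (F := F) hω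
  obtain ⟨hsimp, hcard⟩ := isJ3_quotient (F := F) hω
  obtain ⟨z, hzK, hzc, hzo, -⟩ := exists_scalar (F := F) hω
  have hz : Subgroup.center (threeJ3 F ω) = Subgroup.zpowers z :=
    (Subgroup.eq_of_le_of_card_ge (Subgroup.zpowers_le.mpr hzc)
      (by rw [hc3, Nat.card_zpowers, hzo])).symm
  have hle : Subgroup.center (threeJ3 F ω) ≤ φ.ker := by
    rw [hz, Subgroup.zpowers_le, hker]
    intro g
    rw [Subgroup.mem_center_iff.mp hzc g, mul_inv_cancel_right]
    exact hzK
  have hker' : φ.ker = Subgroup.center (threeJ3 F ω) := by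
    refine le_antisymm ?_ hle
    rcases hsimp.eq_bot_or_eq_top_of_normal (φ.ker.map (QuotientGroup.mk' _))
      (Subgroup.Normal.map inferInstance _ (QuotientGroup.mk'_surjective _)) with h | h
    · rw [Subgroup.map_eq_bot_iff, QuotientGroup.ker_mk'] at h
      exact h
    · exfalso
      have htop : φ.ker = ⊤ := by
        rw [← Subgroup.comap_top (QuotientGroup.mk' (Subgroup.center (threeJ3 F ω))), ← h,
          Subgroup.comap_map_eq, QuotientGroup.ker_mk', sup_eq_left.mpr hle]
      obtain ⟨g, hg⟩ := htrans ⟨1, by norm_num⟩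
      have h1 : φ g = 1 := MonoidHom.mem_ker.mp (htop ▸ Subgroup.mem_top g)
      rw [h1] at hg
      simp at hg
  let e : J3 F ω ≃* φ.range :=
    (QuotientGroup.quotientMulEquivOfEq hker'.symm).trans (QuotientGroup.quotientKerEquivRange φ)
  have hH : Nat.card φ.range = 50232960 := by rw [← Nat.card_congr e.toEquiv]; exact hcard
  have hpt : IsPretransitive φ.range (Fin 6156) := by
    rw [isPretransitive_iff_base (0 : Fin 6156)]
    intro p
    obtain ⟨g, hg⟩ := htrans p
    exact ⟨⟨φ g, g, rfl⟩, hg⟩
  refine ⟨φ.range, ⟨hH, ?_, ?_⟩, ⟨e⟩⟩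
  · have h := MulAction.index_stabilizer_of_transitive φ.range (0 : Fin 6156)
    rw [Nat.card_fin] at h
    have h2 := Subgroup.card_mul_index (stabilizer φ.range (0 : Fin 6156))
    rw [hH, h] at h2
    omega
  · intro a ha
    by_cases h2 : a < 2
    · obtain ⟨s, -, hs⟩ := mem_genSet_of (F := F) hω a h2
      refine ⟨⟨φ s, s, rfl⟩, fun p => ?_⟩
      have : tb a = Data.tab a := by interval_cases a <;> rfl
      rw [this]
      exact htab a s h2 hs p
    · obtain ⟨k, -, hk⟩ := hperm (a - 2) (by omega)
      refine ⟨⟨φ k, k, rfl⟩, fun p => ?_⟩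
      have : tb a = Data.perm (a - 2) := by
        interval_cases a <;> first | omega | rfl
      rw [this]
      exact hk p

end CfsgLib.FusionExamples.J3Fusion
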