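import Cfsg.Agent.Lib.FusionExamples.J3Action
import Cfsg.Agent.Lib.FusionExamples.NormalSubsystem

/-!
The 2-fusion system of J3 is simple: a Sylow 2-subgroup is given by words, the set stabilizer of one of
its three orbits of length 4 is the subgroup itself.
-/

set_option autoImplicit false
set_option linter.all false

namespace CfsgLib.FusionExamples.J3Fusion

open CfsgLib.SporadicB.J3 MulAction
open CfsgLib.SporRecognition.CosetCert (allBelow allBelow_spec trace trace_append orbit_eq_of_cert ncard_lab)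

theorem tb_perm : tb 2 = Data.perm0 ∧ tb 3 = Data.perm1 := ⟨rfl, rfl⟩

attribute [local irreducible] Data.tab0 Data.tab1 Data.perm0 Data.perm1 Data.lab Data.root Data.rk Data.via
  Data.src tb via src gtab rank cgen ctgt srt

variable {H : Subgroup (Equiv.Perm (Fin 6156))} (hH : IsAct H)

/-- The tabulated elements. -/
noncomputable def gen (a : Nat) : H := if h : a < 4 then Classical.choose (hH.tbl a h) else 1

include hH in
theorem gen_apply {a : Nat} (ha : a < 4) (p : Fin 6156) : ((gen hH a • p : Fin 6156) : Nat) = tb a p := by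
  rw [gen, dif_pos ha]
  exact Classical.choose_spec (hH.tbl a ha) p

/-- The element of a word. -/
noncomputable def el : List Nat → H
  | [] => 1
  | a :: w => el w * gen hH a

theorem el_nil : el hH [] = 1 := rfl

theorem el_append (v w : List Nat) : el hH (v ++ w) = el hH w * el hH v := by
  induction v with
  | nil => simp [el]
  | cons a v ih => simp [el, ih, mul_assoc]

theorem ev_append (v w : List Nat) (u : Nat) : ev (v ++ w) u = ev w (ev v u) := by
  rw [ev, List.map_append, trace_append]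
  rfl

theorem el_apply {w : List Nat} (hw : wOK w = true) (p : Fin 6156) :
    ((el hH w • p : Fin 6156) : Nat) = ev w p := by
  induction w generalizing p with
  | nil => simp [el, ev]
  | cons a w ih =>
    simp only [wOK, List.all_cons, Bool.and_eq_true, Nat.blt_eq] at hw
    rw [el, mul_smul, ih hw.2, gen_apply hH hw.1]
    rfl

theorem wOK_append {v w : List Nat} : wOK (v ++ w) = (wOK v && wOK w) := List.all_append

theorem wOK_gw (a : Nat) : wOK (gw a) = true := by
  have h := words_ok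
  simp only [Bool.and_eq_true] at h
  obtain ⟨⟨⟨⟨⟨⟨⟨⟨h0, h1⟩, h2⟩, -⟩, -⟩, -⟩, -⟩, -⟩, -⟩ := h
  rcases a with _ | _ | _ | a
  · exact h0
  · exact h1
  · exact h2
  · rfl

theorem wOK_wS' : ∀ d j, wOK (wS' d j) = true := by
  intro d
  induction d with
  | zero => exact fun j => rfl
  | succ d ih =>
    intro j
    show wOK (bif Nat.beq j 0 then [] else wS' d (src j) ++ gw (via j)) = true
    cases Nat.beq j 0
    · rw [cond_false, wOK_append, ih, wOK_gw]; rfl
    · rfl

theorem wOK_wS (j : Nat) : wOK (wS j) = true := wOK_wS' 7 j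

theorem wOK_wQ (l : List Nat) : wOK (wQ l) = true := by
  induction l with
  | nil => rfl
  | cons a l ih =>
    show wOK (wS a ++ wQ l) = true
    rw [wOK_append, wOK_wS, ih]; rfl

theorem wOK_misc : wOK zw = true ∧ wOK tw1 = true ∧ wOK tw2 = true ∧ wOK uw = true ∧ wOK vw = true ∧
    ∀ p ∈ zConj, wOK p.2 = true := by
  have h := words_ok
  simp only [Bool.and_eq_true, List.all_eq_true] at h
  obtain ⟨⟨⟨⟨⟨⟨-, h3⟩, h4⟩, h5⟩, h6⟩, h7⟩, h8⟩ := h
  exact ⟨h3, h4, h5, h6, h7, h8⟩

theorem wOK_back (i : Nat) : wOK (back i) = true := by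
  rcases i with _ | _ | _ | i
  · rfl
  · exact wOK_misc.2.1
  · exact wOK_misc.2.2.1
  · rfl

/-- A generator of the Sylow subgroup. -/
noncomputable def g (a : Nat) : H := el hH (gw a)

/-- The `j`th element of the Sylow subgroup. -/
noncomputable def f (j : Nat) : H := el hH (wS j)

/-- The three points of the base. -/
def pt0 : Fin 6156 := 0
def pA : Fin 6156 := ⟨ptA, lab_ok'.2.2.1⟩
def pB : Fin 6156 := ⟨ptB, lab_ok'.2.2.2.2.1⟩

theorem f_apply (j : Nat) (p : Fin 6156) : ((f hH j • p : Fin 6156) : Nat) = ev (wS j) p :=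
  el_apply hH (wOK_wS j) p

theorem getD_mem' {α : Type*} {l : List α} {i : Nat} {d : α} (h : i < l.length) : l.getD i d ∈ l := by
  rw [List.getD_eq_getElem _ _ h]; exact List.getElem_mem h

theorem stabList_mem {j : Nat} (hj : j ∈ stabList) :
    j < 128 ∧ f hH j • pt0 = pt0 ∧ f hH j • pA = pA := by
  have h := stab_ok
  simp only [Bool.and_eq_true, List.all_eq_true, Nat.blt_eq] at h
  obtain ⟨⟨h1, h2⟩, h3⟩ := h.1.2 j hj
  exact ⟨h1, Fin.ext ((f_apply hH j pt0).trans (Nat.eq_of_beq_eq_true h2)),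
    Fin.ext ((f_apply hH j pA).trans (Nat.eq_of_beq_eq_true h3))⟩

include hH in
/-- The stabilizer of two points of the base and the suborbit. -/
theorem stab_two :
    (∀ h : H, h • pt0 = pt0 → h • pA = pA → ∃ j ∈ stabList, h = f hH j) ∧
    ∀ h : H, h • pt0 = pt0 → Data.lab ((h • pA : Fin 6156) : Nat) = 3 := by
  classical
  set P0 := stabilizer H (0 : Fin 6156)
  set K := stabilizer P0 pA
  let fk : Fin 16 → K := fun i =>
    ⟨⟨f hH (stabList.getD i 0), (stabList_mem hH (getD_mem' (by
      have := stab_ok; simp only [Bool.and_eq_true] at this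
      rw [Nat.eq_of_beq_eq_true this.1.1]; exact i.2))).2.1⟩,
      (stabList_mem hH (getD_mem' (by
      have := stab_ok; simp only [Bool.and_eq_true] at this
      rw [Nat.eq_of_beq_eq_true this.1.1]; exact i.2))).2.2⟩
  have hs := stab_ok
  simp only [Bool.and_eq_true] at hs
  have hlen : stabList.length = 16 := Nat.eq_of_beq_eq_true hs.1.1
  have hfk : Function.Injective fk := by
    intro i i' e
    have e' : f hH (stabList.getD i 0) = f hH (stabList.getD i' 0) :=
      congrArg (fun k : K => ((k : P0) : H)) e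
    have hb := congrArg (fun x : H => ((x • pB : Fin 6156) : Nat)) e'
    simp only [f_apply] at hb
    have hnd : (stabList.map fun j => ev (wS j) ptB).Nodup := of_decide_eq_true hs.2
    have hi : (i : Nat) < (stabList.map fun j => ev (wS j) ptB).length := by simp [hlen]
    have hi' : (i' : Nat) < (stabList.map fun j => ev (wS j) ptB).length := by simp [hlen]
    refine Fin.ext ((hnd.getElem_inj_iff (hi := hi) (hj := hi')).mp ?_)
    rw [List.getD_eq_getElem _ _ (show (i : Nat) < stabList.length by omega),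
      List.getD_eq_getElem _ _ (show (i' : Nat) < stabList.length by omega)] at hb
    rw [List.getElem_map, List.getElem_map]
    exact hb
  have hK : 16 ≤ Nat.card K := by simpa using Nat.card_le_card_of_injective fk hfk
  -- the suborbit
  let k0 : P0 := ⟨gen hH 2, Fin.ext ((gen_apply hH (by norm_num) 0).trans (by decide +kernel))⟩
  let k1 : P0 := ⟨gen hH 3, Fin.ext ((gen_apply hH (by norm_num) 0).trans (by decide +kernel))⟩
  let gens : List (Subgroup.closure ({k0, k1} : Set P0)) :=
    [⟨k0, Subgroup.subset_closure (Or.inl rfl)⟩, ⟨k1, Subgroup.subset_closure (Or.inr rfl)⟩]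
  have hgens : Subgroup.closure {x | x ∈ gens} = ⊤ := by
    rw [← Subgroup.closure_closure_coe_preimage (k := ({k0, k1} : Set P0))]
    congr 1
    ext x
    show x ∈ gens ↔ (x : P0) = k0 ∨ (x : P0) = k1
    simp only [gens, List.mem_cons, List.not_mem_nil, or_false]
    exact or_congr Subtype.ext_iff Subtype.ext_iff
  have hl := fun u hu => allBelow_spec Data.lab_ok u hu
  simp only [Data.labOK, CfsgLib.SporRecognition.CosetCert.labStep, Bool.and_eq_true, Nat.blt_eq] at hl
  have hr : Data.root 3 < 6156 ∧ Data.lab (Data.root 3) = 3 := by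
    simpa using root_ok 3
  have horb := orbit_eq_of_cert (G := Subgroup.closure ({k0, k1} : Set P0)) gens [Data.perm0, Data.perm1]
    hgens rfl (by
      intro j hj u
      have : j < 2 := hj
      interval_cases j
      · exact (gen_apply hH (by norm_num : 2 < 4) u).trans (by rw [tb_perm.1]; rfl)
      · exact (gen_apply hH (by norm_num : 3 < 4) u).trans (by rw [tb_perm.2]; rfl)) Data.lab Data.root Data.rk Data.via Data.src (by
      intro j hj u hu
      have : j < 2 := hj
      interval_cases j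
      · exact Nat.eq_of_beq_eq_true (hl u hu).1.1.1
      · exact Nat.eq_of_beq_eq_true (hl u hu).1.1.2)
    (fun u hu => (hl u hu).2) ⟨Data.root 3, hr.1⟩
    (by show Data.root 3 = Data.root (Data.lab (Data.root 3)); rw [hr.2])
  have hsub : {u : Fin 6156 | Data.lab u = 3} ⊆ orbit P0 pA := by
    intro u hu
    have h1 : u ∈ orbit (Subgroup.closure ({k0, k1} : Set P0)) (⟨Data.root 3, hr.1⟩ : Fin 6156) := by
      rw [horb]; exact hu.trans hr.2.symm
    have h2 : pA ∈ orbit (Subgroup.closure ({k0, k1} : Set P0)) (⟨Data.root 3, hr.1⟩ : Fin 6156) := by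
      rw [horb]; exact lab_ok'.1.trans hr.2.symm
    rw [← orbit_eq_iff.mpr h2] at h1
    obtain ⟨⟨x, hx⟩, hxu⟩ := h1
    exact ⟨x, hxu⟩
  have h510 : {u : Fin 6156 | Data.lab u = 3}.ncard = 510 := by
    rw [ncard_lab (d := 13) (by norm_num)]; exact Data.size3
  have hO : 510 ≤ (orbit P0 pA).ncard := h510 ▸ Set.ncard_le_ncard hsub (Set.toFinite _)
  have hprod : Nat.card K * (orbit P0 pA).ncard = 8160 := by
    rw [← index_stabilizer, Subgroup.card_mul_index]
    exact hH.stab
  have hKeq : Nat.card K = 16 := by nlinarith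
  have hOeq : (orbit P0 pA).ncard = 510 := by rw [hKeq] at hprod; omega
  constructor
  · intro h h0 ha
    have hbij : Function.Bijective fk :=
      (Nat.bijective_iff_injective_and_card fk).mpr ⟨hfk, by rw [hKeq, Nat.card_fin]⟩
    obtain ⟨i, hi⟩ := hbij.2 ⟨⟨h, h0⟩, ha⟩
    exact ⟨_, getD_mem' (by rw [hlen]; exact i.2), (congrArg (fun k : K => ((k : P0) : H)) hi).symm⟩
  · intro h h0
    have e : orbit P0 pA = {u : Fin 6156 | Data.lab u = 3} :=
      (Set.eq_of_subset_of_ncard_le hsub (by rw [hOeq, h510]) (Set.toFinite _)).symm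
    have hm : h • pA ∈ orbit P0 pA := ⟨⟨h, h0⟩, rfl⟩
    rw [e] at hm
    exact hm

include hH in
/-- An element fixing the base is trivial. -/
theorem eq_one_of_base {h : H} (h0 : h • pt0 = pt0) (ha : h • pA = pA) (hb : h • pB = pB) : h = 1 := by
  obtain ⟨j, hj, rfl⟩ := (stab_two hH).1 h h0 ha
  have hs := stab_ok
  simp only [Bool.and_eq_true] at hs
  have hnd : (stabList.map fun j => ev (wS j) ptB).Nodup := of_decide_eq_true hs.2
  have h0mem : 0 ∈ stabList := by decide
  have h0B : ev (wS 0) ptB = ptB := by decide +kernel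
  have : j = 0 := List.inj_on_of_nodup_map hnd hj h0mem
    (((f_apply hH j pB).symm.trans (congrArg Fin.val hb)).trans h0B.symm)
  subst this
  show el hH (wS 0) = 1
  rw [show wS 0 = [] by rfl]
  rfl

include hH in
theorem el_eq {v w : List Nat} (hv : wOK v = true) (hw : wOK w = true) (h : eqB v w = true) :
    el hH v = el hH w := by
  simp only [eqB, Bool.and_eq_true] at h
  have key : ∀ p : Fin 6156, ev v p = ev w p → ((el hH w)⁻¹ * el hH v) • p = p := by
    intro p hp
    rw [mul_smul, inv_smul_eq_iff]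
    exact Fin.ext (by rw [el_apply hH hv, el_apply hH hw, hp])
  exact (inv_mul_eq_one.mp (eq_one_of_base hH (key pt0 (Nat.eq_of_beq_eq_true h.1.1))
    (key pA (Nat.eq_of_beq_eq_true h.1.2)) (key pB (Nat.eq_of_beq_eq_true h.2)))).symm

/-- The Sylow subgroup. -/
noncomputable def syl : Subgroup H := Subgroup.closure {g hH 0, g hH 1, g hH 2}

theorem g_mem_syl {a : Nat} (ha : a < 3) : g hH a ∈ syl hH := by
  refine Subgroup.subset_closure ?_
  interval_cases a <;> simp

theorem f_mem_syl' : ∀ d j, el hH (wS' d j) ∈ syl hH := by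
  intro d
  induction d with
  | zero => exact fun j => one_mem _
  | succ d ih =>
    intro j
    show el hH (bif Nat.beq j 0 then [] else wS' d (src j) ++ gw (via j)) ∈ syl hH
    cases Nat.beq j 0
    · rw [cond_false, el_append]
      refine mul_mem ?_ (ih _)
      by_cases hv : via j < 3
      · exact g_mem_syl hH hv
      · obtain ⟨k, hk⟩ : ∃ k, via j = k + 3 := ⟨via j - 3, by omega⟩
        rw [hk]
        exact one_mem _
    · exact one_mem _

theorem f_mem_syl (j : Nat) : f hH j ∈ syl hH := f_mem_syl' hH 7 j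

theorem g_mul_f {a j : Nat} (ha : a < 3) (hj : j < 128) :
    gtab a j < 128 ∧ g hH a * f hH j = f hH (gtab a j) := by
  have h := closed_ok
  simp only [Bool.and_eq_true] at h
  have hs : closedStep a j = true := by
    interval_cases a
    · exact allBelow_spec h.1.1 j hj
    · exact allBelow_spec h.1.2 j hj
    · exact allBelow_spec h.2 j hj
  simp only [closedStep, Bool.and_eq_true, Nat.blt_eq] at hs
  refine ⟨hs.1, ?_⟩
  rw [g, f, ← el_append]
  exact el_eq hH (by rw [wOK_append, wOK_wS, wOK_gw]; rfl) (wOK_wS _) hs.2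

theorem mem_syl_iff {x : H} : x ∈ syl hH ↔ ∃ j < 128, f hH j = x := by
  constructor
  · intro hx
    refine closure_subset_of_left_closed {g hH 0, g hH 1, g hH 2} {x | ∃ j < 128, f hH j = x}
      ⟨0, by norm_num, rfl⟩ ?_ x hx
    rintro s hs _ ⟨j, hj, rfl⟩
    rcases hs with rfl | rfl | rfl
    all_goals exact ⟨_, (g_mul_f hH (by norm_num) hj).1, (g_mul_f hH (by norm_num) hj).2.symm⟩
  · rintro ⟨j, -, rfl⟩
    exact f_mem_syl hH j

theorem card_syl : Nat.card (syl hH) = 128 := by
  have hs : ∀ j, j < 128 → srt j < 128 ∧ (0 < j → key (srt (j - 1)) < key (srt j)) := by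
    intro j hj
    have := allBelow_spec srt_ok j hj
    simp only [srtStep, Bool.and_eq_true, Nat.blt_eq] at this
    refine ⟨this.1, fun hpos => ?_⟩
    have hb : Nat.beq j 0 = false := by
      obtain ⟨i, rfl⟩ := Nat.exists_eq_succ_of_ne_zero (by omega : j ≠ 0)
      rfl
    have h2 := this.2
    rw [hb, cond_false, Nat.blt_eq] at h2
    exact h2
  have hmono : ∀ a b, a < b → b < 128 → key (srt a) < key (srt b) := by
    intro a b hab
    induction b, hab using Nat.le_induction with
    | base => exact fun hb => (hs (a + 1) hb).2 (Nat.succ_pos a)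
    | succ b hb ih => exact fun hN => (ih (by omega)).trans ((hs (b + 1) hN).2 (Nat.succ_pos b))
  let F : Fin 128 → syl hH := fun j => ⟨f hH j, f_mem_syl hH j⟩
  have hkey : ∀ a b : Fin 128, F a = F b → key a = key b := by
    intro a b e
    have e' : f hH a = f hH b := congrArg Subtype.val e
    have hp : ∀ p : Fin 6156, ev (wS a) p = ev (wS b) p := fun p => by
      rw [← f_apply hH, ← f_apply hH, e']
    have h0 := hp pt0
    have h1 := hp pA
    have h2 := hp pB
    simp only [pt0, pA, pB] at h0 h1 h2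
    simp only [key]
    rw [show ((0 : Fin 6156) : Nat) = 0 from rfl] at h0
    rw [h0, h1, h2]
  let σ : Fin 128 → Fin 128 := fun j => ⟨srt j, (hs j j.2).1⟩
  have hinj : Function.Injective (key ∘ Fin.val ∘ σ) := by
    intro a b e
    rcases lt_trichotomy (a : Nat) b with hl | he | hl
    · exact absurd e (hmono _ _ hl b.2).ne
    · exact Fin.ext he
    · exact absurd e (hmono _ _ hl a.2).ne'
  have hσ : Function.Surjective σ := Finite.surjective_of_injective fun a b e => hinj (congrArg (key ∘ Fin.val) e)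
  have hF : Function.Bijective F := by
    refine ⟨fun a b e => ?_, fun ⟨x, hx⟩ => ?_⟩
    · obtain ⟨a', rfl⟩ := hσ a
      obtain ⟨b', rfl⟩ := hσ b
      rw [hinj (hkey _ _ e)]
    · obtain ⟨j, hj, e⟩ := (mem_syl_iff hH).mp hx
      exact ⟨⟨j, hj⟩, Subtype.ext e⟩
  rw [← Nat.card_congr (Equiv.ofBijective F hF), Nat.card_fin]

theorem g_apply (a : Nat) (p : Fin 6156) : ((g hH a • p : Fin 6156) : Nat) = ev (gw a) p :=
  el_apply hH (wOK_gw a) p

/-- The orbit of `0`. -/
def InOrb (p : Fin 6156) : Prop := (p : Nat) ∈ orb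

theorem inOrb_syl {x : H} (hx : x ∈ syl hH) {p : Fin 6156} (hp : InOrb p) : InOrb (x • p) := by
  have h := orb_ok
  simp only [Bool.and_eq_true, List.all_eq_true, List.contains_iff_mem] at h
  have key : ∀ y ∈ syl hH, ∀ q : Fin 6156, InOrb q → InOrb (y • q) := by
    intro y hy
    refine closure_subset_of_left_closed _ {y : H | ∀ q : Fin 6156, InOrb q → InOrb (y • q)} ?_ ?_ y hy
    · intro q hq; rwa [one_smul]
    · rintro s hs y hy q hq
      rw [mul_smul]
      have hh := h.1.1.1.1.1 _ (hy q hq)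
      rcases hs with rfl | rfl | rfl
      all_goals (unfold InOrb; rw [g_apply])
      · exact hh.1.1
      · exact hh.1.2
      · exact hh.2
  exact key x hx p hp

theorem inOrb_trans {p : Fin 6156} (hp : InOrb p) : ∃ x ∈ syl hH, x • pt0 = p := by
  have h := orb_ok
  simp only [Bool.and_eq_true] at h
  have hm : (p : Nat) ∈ transList.map fun j => ev (wS j) 0 := (of_decide_eq_true h.1.1.1.1.2).symm ▸ hp
  obtain ⟨j, -, hj⟩ := List.mem_map.mp hm
  exact ⟨f hH j, f_mem_syl hH j, Fin.ext ((f_apply hH j pt0).trans hj)⟩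

theorem inOrb_zero : InOrb pt0 := lab_ok'.2.2.2.2.2.2.2.1

/-- The set stabilizer of the orbit is the subgroup. -/
theorem mem_syl_of_inOrb {x : H} (hx : ∀ p, InOrb p → InOrb (x • p)) : x ∈ syl hH := by
  obtain ⟨y, hy, hyx⟩ := inOrb_trans hH (hx _ inOrb_zero)
  have h0 : (y⁻¹ * x) • pt0 = pt0 := by rw [mul_smul, ← hyx, inv_smul_smul]
  have ha : InOrb ((y⁻¹ * x) • pA) := by
    rw [mul_smul]
    exact inOrb_syl hH (inv_mem hy) (hx _ lab_ok'.2.2.2.2.2.2.2.2)
  suffices y⁻¹ * x ∈ syl hH by simpa using mul_mem hy this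
  rcases lab_ok'.2.2.2.2.2.2.1 _ ha ((stab_two hH).2 _ h0) with e | e
  · obtain ⟨j, -, hj⟩ := (stab_two hH).1 _ h0 (Fin.ext e)
    exact hj ▸ f_mem_syl hH j
  · have h := orb_ok
    simp only [Bool.and_eq_true] at h
    have hs0 : f hH swapElt • pt0 = pt0 := Fin.ext ((f_apply hH _ pt0).trans (Nat.eq_of_beq_eq_true h.1.2))
    have hsa : f hH swapElt • pA = (y⁻¹ * x) • pA :=
      Fin.ext (((f_apply hH _ pA).trans (Nat.eq_of_beq_eq_true h.2)).trans e.symm)
    obtain ⟨j, -, hj⟩ := (stab_two hH).1 ((f hH swapElt)⁻¹ * (y⁻¹ * x))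
      (by rw [mul_smul, h0, inv_smul_eq_iff, hs0]) (by rw [mul_smul, ← hsa, inv_smul_smul])
    have := mul_mem (f_mem_syl hH swapElt) (hj.symm ▸ f_mem_syl hH j : (f hH swapElt)⁻¹ * (y⁻¹ * x) ∈ syl hH)
    rwa [mul_inv_cancel_left] at this

/-- The central involution. -/
noncomputable def z : H := el hH zw

theorem z_facts : z hH = f hH zElt ∧ z hH ∈ syl hH ∧ ∀ x ∈ syl hH, z hH * x = x * z hH := by
  have h := z_ok
  simp only [Bool.and_eq_true] at h
  obtain ⟨⟨⟨⟨⟨⟨-, -⟩, h1⟩, c0⟩, c1⟩, c2⟩, -⟩ := h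
  have e : z hH = f hH zElt := el_eq hH wOK_misc.1 (wOK_wS _) h1
  refine ⟨e, e ▸ f_mem_syl hH _, fun x hx => ?_⟩
  have hc : ∀ {a}, eqB (zw ++ gw a) (gw a ++ zw) = true → Commute (z hH) (g hH a) := by
    intro a ha
    show z hH * g hH a = g hH a * z hH
    rw [z, g, ← el_append, ← el_append]
    exact (el_eq hH (by rw [wOK_append, wOK_misc.1, wOK_gw]; rfl) (by rw [wOK_append, wOK_misc.1, wOK_gw]; rfl) ha).symm
  have hle : syl hH ≤ Subgroup.centralizer {z hH} := by
    rw [syl, Subgroup.closure_le]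
    rintro s (rfl | rfl | rfl) <;> rw [SetLike.mem_coe, Subgroup.mem_centralizer_singleton_iff]
    exacts [(hc c0).symm, (hc c1).symm, (hc c2).symm]
  exact (Subgroup.mem_centralizer_singleton_iff.mp (hle hx)).symm

theorem f_zero : f hH 0 = 1 := by
  show el hH (wS 0) = 1
  rw [show wS 0 = [] by rfl]
  rfl

theorem f_ne_one {j : Nat} (hj : j < 128) (hj0 : j ≠ 0) : f hH j ≠ 1 := by
  intro e
  have hcard := card_syl hH
  let F : Fin 128 → syl hH := fun j => ⟨f hH j, f_mem_syl hH j⟩
  have hF : Function.Bijective F := (Nat.bijective_iff_surjective_and_card F).mpr ⟨fun ⟨x, hx⟩ => by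
    obtain ⟨j, hj, e⟩ := (mem_syl_iff hH).mp hx
    exact ⟨⟨j, hj⟩, Subtype.ext e⟩, by rw [hcard, Nat.card_fin]⟩
  have : (⟨j, hj⟩ : Fin 128) = ⟨0, by norm_num⟩ := hF.1 (Subtype.ext (e.trans (f_zero hH).symm))
  exact hj0 (congrArg Fin.val this)

/-- Commuting down to the centre. -/
theorem step_down {j : Nat} (hj : j < 128) (hj0 : j ≠ 0) (hjz : j ≠ zElt) :
    ∃ a c, a < 3 ∧ c < 128 ∧ c ≠ 0 ∧ rank c < rank j ∧ g hH a * f hH j = f hH c * (f hH j * g hH a) := by
  have h := allBelow_spec centre_ok j hj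
  simp only [centreStep, Bool.or_eq_true, Bool.and_eq_true, Bool.not_eq_true', Nat.blt_eq] at h
  rcases h with (h | h) | h
  · exact absurd (Nat.eq_of_beq_eq_true h) hj0
  · exact absurd (Nat.eq_of_beq_eq_true h) hjz
  obtain ⟨⟨⟨⟨ha, hc⟩, hc0⟩, hr⟩, he⟩ := h
  refine ⟨_, _, ha, hc, Nat.ne_of_beq_eq_false hc0, hr, ?_⟩
  rw [g, f, f, ← el_append, ← el_append, ← el_append]
  exact el_eq hH (by simp [wOK_append, wOK_wS, wOK_gw]) (by simp [wOK_append, wOK_wS, wOK_gw]) he

theorem centre_syl {x : H} (hx : x ∈ syl hH) (hc : ∀ y ∈ syl hH, x * y = y * x) : x = 1 ∨ x = z hH := by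
  obtain ⟨j, hj, rfl⟩ := (mem_syl_iff hH).mp hx
  by_cases hj0 : j = 0
  · exact Or.inl (hj0 ▸ f_zero hH)
  by_cases hjz : j = zElt
  · exact Or.inr (hjz ▸ (z_facts hH).1.symm)
  obtain ⟨a, c, ha, hcl, hc0, -, e⟩ := step_down hH hj hj0 hjz
  rw [hc _ (g_mem_syl hH ha), eq_comm, mul_eq_right] at e
  exact absurd e (f_ne_one hH hcl hc0)

theorem z_smul (p : Fin 6156) : ((z hH • p : Fin 6156) : Nat) = ev zw p := el_apply hH wOK_misc.1 p

theorem normalizer_z {x : H} (hx : x ∈ Subgroup.normalizer (syl hH : Set H)) : x * z hH = z hH * x := by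
  obtain ⟨-, hz, hzc⟩ := z_facts hH
  have hm : x⁻¹ * z hH * x ∈ syl hH := (Subgroup.mem_normalizer_iff''.mp hx _).mp hz
  rcases centre_syl hH hm (fun y hy => by
    have h1 : x * y * x⁻¹ ∈ syl hH := (Subgroup.mem_normalizer_iff.mp hx y).mp hy
    have h2 := hzc _ h1
    calc x⁻¹ * z hH * x * y = x⁻¹ * (z hH * (x * y * x⁻¹)) * x := by group
      _ = y * (x⁻¹ * z hH * x) := by rw [h2]; group) with e | e
  · exfalso
    have : z hH = 1 := by
      calc z hH = x * (x⁻¹ * z hH * x) * x⁻¹ := by group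
        _ = 1 := by rw [e]; group
    rw [(z_facts hH).1] at this
    have h := z_ok
    simp only [Bool.and_eq_true, Bool.not_eq_true', Nat.blt_eq] at h
    exact f_ne_one hH h.1.1.1.1.1.1 (Nat.ne_of_beq_eq_false h.1.1.1.1.1.2) this
  · calc x * z hH = x * (x⁻¹ * z hH * x) := by rw [e]
      _ = z hH * x := by group

theorem small_inv {i : Nat} (hi : i < 3) {p : Fin 6156} (hp : (p : Nat) ∈ small.getD i []) :
    (∀ x ∈ syl hH, ((x • p : Fin 6156) : Nat) ∈ small.getD i []) ∧ InOrb (el hH (back i) • p) := by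
  have h := allBelow_spec small_ok i hi
  simp only [smallStep, Bool.and_eq_true, List.all_eq_true, List.contains_iff_mem] at h
  refine ⟨fun x hx => ?_, ?_⟩
  · refine closure_subset_of_left_closed ({g hH 0, g hH 1, g hH 2} : Set H)
      {x : H | ((x • p : Fin 6156) : Nat) ∈ small.getD i []} ?_ ?_ x hx
    · show (((1 : H) • p : Fin 6156) : Nat) ∈ small.getD i []
      rwa [one_smul]
    · rintro s hs y hy
      show (((s * y) • p : Fin 6156) : Nat) ∈ small.getD i []
      rw [mul_smul]
      have hh := h.1 _ hy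
      rcases hs with rfl | rfl | rfl
      all_goals rw [g_apply]
      · exact hh.1.1.1
      · exact hh.1.1.2
      · exact hh.1.2
  · unfold InOrb
    rw [el_apply hH (wOK_back i)]
    exact (h.1 _ hp).2

theorem back_conj {i : Nat} (hi : i < 3) : ∀ x ∈ syl hH, el hH (back i) * x * (el hH (back i))⁻¹ ∈ syl hH := by
  have h := allBelow_spec small_ok i hi
  simp only [smallStep, Bool.and_eq_true] at h
  have hle : syl hH ≤ (syl hH).comap (MulAut.conj (el hH (back i))).toMonoidHom := by
    rw [syl, Subgroup.closure_le]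
    have key : ∀ a, a < 3 → el hH (back i) * g hH a * (el hH (back i))⁻¹ ∈ syl hH := by
      intro a ha
      have h2 := allBelow_spec h.2 a ha
      simp only [Bool.and_eq_true, Bool.or_eq_true] at h2
      rcases h2.2 with h0 | he
      · rw [Nat.eq_of_beq_eq_true h0, show back 0 = [] from rfl, el_nil, one_mul, inv_one, mul_one]
        exact g_mem_syl hH ha
      · have e := el_eq hH (by simp [wOK_append, wOK_back, wOK_gw]) (by simp [wOK_append, wOK_back, wOK_wS]) he
        rw [el_append, el_append] at e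
        rw [g, e, mul_inv_cancel_right]
        exact f_mem_syl hH _
    rintro s (rfl | rfl | rfl)
    exacts [key 0 (by norm_num), key 1 (by norm_num), key 2 (by norm_num)]
  exact fun x hx => hle hx

theorem mem_twelve {x : H} (hx : x ∈ Subgroup.normalizer (syl hH : Set H)) :
    ∃ i < 3, ((x • pt0 : Fin 6156) : Nat) ∈ small.getD i [] := by
  have hz0 : z hH • pt0 = pt0 := by
    obtain ⟨e, -, -⟩ := z_facts hH
    rw [e]
    have : ev (wS zElt) 0 = 0 := by decide +kernel
    exact Fin.ext ((f_apply hH _ pt0).trans this)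
  have hzx : z hH • x • pt0 = x • pt0 := by rw [← mul_smul, ← normalizer_z hH hx, mul_smul, hz0]
  set y := x • pt0
  have hs := allBelow_spec scan_ok y y.2
  have hb : Nat.beq (ev zw y) y = true := by
    rw [← z_smul hH, hzx]
    exact Nat.beq_refl _
  simp only [scanStep, hb, cond_true, Bool.and_eq_true, Bool.or_eq_true] at hs
  rcases hs.1 with h | h
  · obtain ⟨o, ho, hy⟩ := List.any_eq_true.mp h
    rw [List.contains_iff_mem] at hy
    obtain ⟨i, hi, rfl⟩ := List.getElem_of_mem ho
    exact ⟨i, hi, by rwa [List.getD_eq_getElem _ _ hi]⟩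
  · exfalso
    simp only [short, Bool.not_eq_true'] at h
    refine Bool.false_ne_true (h.symm.trans (Nat.ble_eq.mpr ?_))
    have hsub : (probe.map fun j => ev (wS j) y).dedup ⊆ orb.map fun u => ((x • (Fin.ofNat 6156 u)) : Fin 6156).val := by
      intro v hv
      obtain ⟨j, -, rfl⟩ := List.mem_map.mp (List.mem_dedup.mp hv)
      have hc : x⁻¹ * f hH j * x ∈ syl hH :=
        (Subgroup.mem_normalizer_iff''.mp hx _).mp (f_mem_syl hH j)
      have hw : InOrb ((x⁻¹ * f hH j * x) • pt0) := inOrb_syl hH hc inOrb_zero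
      refine List.mem_map.mpr ⟨_, hw, ?_⟩
      rw [Fin.ofNat_eq_cast, Fin.cast_val_eq_self, ← f_apply hH, ← mul_smul, ← mul_smul]
      congr 2
      group
    have := ((List.nodup_dedup _).subperm hsub).length_le
    rw [List.length_map, lab_ok'.2.2.2.2.2.1] at this
    exact this

theorem normalizer_eq {x : H} (hx : x ∈ Subgroup.normalizer (syl hH : Set H)) :
    ∃ i < 3, el hH (back i) * x ∈ syl hH := by
  obtain ⟨i, hi, hy⟩ := mem_twelve hH hx
  refine ⟨i, hi, mem_syl_of_inOrb hH fun p hp => ?_⟩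
  obtain ⟨s, hs, rfl⟩ := inOrb_trans hH hp
  rw [mul_smul, ← mul_smul x s, show x * s = x * s * x⁻¹ * x by group, mul_smul]
  have h2 := (small_inv hH hi hy).1 _ ((Subgroup.mem_normalizer_iff.mp hx s).mp hs)
  exact (small_inv hH hi h2).2

/-- The subgroup `Q`. -/
noncomputable def subQ : Subgroup H := Subgroup.closure {y | ∃ j ∈ qGens, f hH j = y}

theorem subQ_le : subQ hH ≤ syl hH := (Subgroup.closure_le _).mpr (by
  rintro _ ⟨j, -, rfl⟩; exact f_mem_syl hH j)

theorem wQ_mem {l : List Nat} (hl : ∀ k ∈ l, k ∈ qGens) : el hH (wQ l) ∈ subQ hH := by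
  induction l with
  | nil => exact one_mem _
  | cons a l ih =>
    show el hH (wS a ++ wQ l) ∈ _
    rw [el_append]
    exact mul_mem (ih fun k hk => hl k (List.mem_cons_of_mem _ hk))
      (Subgroup.subset_closure ⟨a, hl a List.mem_cons_self, rfl⟩)

/-- The elements mapping `Q` into itself. -/
noncomputable def normQ : Subgroup H where
  carrier := {x | ∀ y ∈ subQ hH, x * y * x⁻¹ ∈ subQ hH}
  one_mem' := fun y hy => by simpa using hy
  mul_mem' := fun {a b} ha hb y hy => by simpa [mul_assoc] using ha _ (hb y hy)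
  inv_mem' := fun {a} ha y hy => by
    have : ∀ k : ℕ, a ^ k * y * (a ^ k)⁻¹ ∈ subQ hH := by
      intro k
      induction k with
      | zero => simpa using hy
      | succ k ih => simpa [pow_succ', mul_assoc] using ha _ ih
    have he : a⁻¹ = a ^ (orderOf a - 1) := by
      refine inv_eq_of_mul_eq_one_right ?_
      rw [← pow_succ', Nat.sub_add_cancel (orderOf_pos a), pow_orderOf_eq_one]
    rw [he]
    exact this _

theorem movers_mem : ∀ w ∈ movers, el hH w ∈ normQ hH := by
  intro w hw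
  have hwok : wOK w = true := by
    obtain ⟨-, h1, -, h3, h4, -⟩ := wOK_misc
    simp only [movers, List.mem_cons, List.not_mem_nil, or_false] at hw
    rcases hw with rfl | rfl | rfl | rfl | rfl | rfl <;> first | exact wOK_gw _ | assumption
  have h := q_ok
  simp only [Bool.and_eq_true] at h
  obtain ⟨⟨⟨⟨⟨h1, h2⟩, -⟩, -⟩, -⟩, -⟩ := h
  obtain ⟨i, hi, rfl⟩ := List.getElem_of_mem hw
  have hlen : i < qConj.length := by rw [Nat.eq_of_beq_eq_true h2]; exact hi
  have hq : qStep movers[i] qConj[i] = true :=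
    List.all_eq_true.mp h1 _ (List.mem_iff_getElem.mpr ⟨i, by simpa using ⟨hi, hlen⟩, List.getElem_zipWith⟩)
  simp only [qStep, Bool.and_eq_true] at hq
  have hle : subQ hH ≤ (subQ hH).comap (MulAut.conj (el hH movers[i])).toMonoidHom := by
    rw [subQ, Subgroup.closure_le]
    rintro _ ⟨j, hj, rfl⟩
    obtain ⟨k, hk, rfl⟩ := List.getElem_of_mem hj
    have hk' : k < qConj[i].length := by rw [Nat.eq_of_beq_eq_true hq.2]; exact hk
    have hh := List.all_eq_true.mp hq.1 _ (List.mem_iff_getElem.mpr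
      ⟨k, by simpa using ⟨hk, hk'⟩, List.getElem_zipWith⟩)
    simp only [id, Bool.and_eq_true, List.all_eq_true, List.contains_iff_mem] at hh
    show el hH movers[i] * f hH qGens[k] * (el hH movers[i])⁻¹ ∈ subQ hH
    have e := el_eq hH (by rw [wOK_append, Bool.and_eq_true]; exact ⟨wOK_wS _, hwok⟩)
      (by rw [wOK_append, Bool.and_eq_true]; exact ⟨hwok, wOK_wQ _⟩) hh.2
    rw [el_append, el_append] at e
    rw [f, e, mul_inv_cancel_right]
    exact wQ_mem hH hh.1
  exact fun y hy => hle hy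

theorem tw_eq : el hH tw1 = el hH uw * el hH vw ∧ el hH tw2 = el hH tw1 * el hH tw1 ∧
    el hH uw * el hH uw = 1 ∧ el hH vw * el hH vw = 1 := by
  obtain ⟨-, h1, h2, h3, h4, -⟩ := wOK_misc
  have h := t_ok
  simp only [Bool.and_eq_true] at h
  refine ⟨?_, ?_, ?_, ?_⟩
  · rw [← el_append]; exact (el_eq hH (by rw [wOK_append, h3, h4]; rfl) h1 h.1.1.1).symm
  · rw [← el_append]; exact (el_eq hH (by rw [wOK_append, h1]; rfl) h2 h.1.1.2).symm
  · rw [← el_append]; exact el_eq hH (by rw [wOK_append, h3]; rfl) rfl h.1.2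
  · rw [← el_append]; exact el_eq hH (by rw [wOK_append, h4]; rfl) rfl h.2

theorem syl_le_normQ : syl hH ≤ normQ hH := by
  rw [syl, Subgroup.closure_le]
  rintro s (rfl | rfl | rfl) <;> exact movers_mem hH _ (by simp [movers])

theorem isPGroup_syl : IsPGroup 2 (syl hH) := IsPGroup.of_card (n := 7) (by rw [card_syl hH]; norm_num)

theorem normalizer_le :
    Subgroup.normalizer (syl hH : Set H) ≤
      Subgroup.closure {x : H | (∀ y ∈ subQ hH, x * y * x⁻¹ ∈ subQ hH) ∧ ∃ k : ℕ, x ^ (2 ^ k) = 1} := by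
  intro x hx
  obtain ⟨i, hi, hmem⟩ := normalizer_eq hH hx
  set C := Subgroup.closure {x : H | (∀ y ∈ subQ hH, x * y * x⁻¹ ∈ subQ hH) ∧ ∃ k : ℕ, x ^ (2 ^ k) = 1}
  have hu : el hH uw ∈ C := Subgroup.subset_closure
    ⟨movers_mem hH uw (by simp [movers]), 1, by rw [pow_one, pow_two]; exact (tw_eq hH).2.2.1⟩
  have hv : el hH vw ∈ C := Subgroup.subset_closure
    ⟨movers_mem hH vw (by simp [movers]), 1, by rw [pow_one, pow_two]; exact (tw_eq hH).2.2.2⟩
  have ht : el hH tw1 ∈ C := by rw [(tw_eq hH).1]; exact mul_mem hu hv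
  have hback : el hH (back i) ∈ C := by
    interval_cases i
    · exact one_mem C
    · exact ht
    · show el hH tw2 ∈ C
      rw [(tw_eq hH).2.1]; exact mul_mem ht ht
  have hS : el hH (back i) * x ∈ C := by
    refine Subgroup.subset_closure ⟨syl_le_normQ hH hmem, ?_⟩
    obtain ⟨k, hk⟩ := (isPGroup_syl hH) ⟨_, hmem⟩
    exact ⟨k, by simpa using congrArg Subtype.val hk⟩
  simpa using mul_mem (inv_mem hback) hS

theorem normalizer_normQ {x : H} (hx : x ∈ Subgroup.normalizer (syl hH : Set H)) : x ∈ normQ hH :=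
  (show Subgroup.closure {x : H | (∀ y ∈ subQ hH, x * y * x⁻¹ ∈ subQ hH) ∧ ∃ k : ℕ, x ^ (2 ^ k) = 1} ≤ normQ hH
    from (Subgroup.closure_le _).mpr fun _ h => h.1) (normalizer_le hH hx)

theorem centralizer_Q {x : H} (hx : ∀ y ∈ subQ hH, x * y = y * x) : x ∈ syl hH := by
  have h := q_ok
  simp only [Bool.and_eq_true, List.all_eq_true, List.contains_iff_mem] at h
  obtain ⟨⟨⟨⟨⟨-, -⟩, hc⟩, -⟩, hlen⟩, hfix⟩ := h
  refine mem_syl_of_inOrb hH fun p hp => ?_
  have hzw := z_ok
  simp only [Bool.and_eq_true] at hzw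
  have ez : el hH (wQ qCentre) = z hH := el_eq hH (wOK_wQ _) wOK_misc.1 hzw.2
  have hzQ : z hH ∈ subQ hH := ez ▸ wQ_mem hH hc
  have hzp : z hH • p = p := by
    obtain ⟨s, hs, rfl⟩ := inOrb_trans hH hp
    rw [← mul_smul, (z_facts hH).2.2 s hs, mul_smul]
    congr 1
    rw [(z_facts hH).1]
    exact Fin.ext ((f_apply hH _ pt0).trans (show ev (wS zElt) 0 = 0 by decide +kernel))
  have hzxp : z hH • x • p = x • p := by rw [← mul_smul, ← hx _ hzQ, mul_smul, hzp]
  have hb : Nat.beq (ev zw (x • p : Fin 6156)) (x • p : Fin 6156) = true := by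
    rw [← z_smul hH, hzxp]
    exact Nat.beq_refl _
  have hs := allBelow_spec scan_ok _ (x • p : Fin 6156).2
  simp only [scanStep, hb, cond_true, Bool.and_eq_true, Bool.or_eq_true, Bool.not_eq_true',
    List.contains_iff_mem] at hs
  rcases hs.2 with h0 | h0
  · exfalso
    rw [← Bool.not_eq_true, List.all_eq_true] at h0
    apply h0
    intro j hj
    obtain ⟨k, hk, hkj⟩ := List.getElem_of_mem hj
    have hk' : k < qFixWords.length := by rw [Nat.eq_of_beq_eq_true hlen]; exact hk
    have hh := hfix _ (List.mem_iff_getElem.mpr ⟨k, by simpa using ⟨hk, hk'⟩, List.getElem_zipWith⟩)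
    simp only [id, Bool.and_eq_true, List.all_eq_true, List.contains_iff_mem] at hh
    rw [hkj] at hh
    have hq : f hH j ∈ subQ hH := by
      have e : el hH (wQ qFixWords[k]) = f hH j := el_eq hH (wOK_wQ _) (wOK_wS _) hh.1.2
      exact e ▸ wQ_mem hH hh.1.1
    have hfp : f hH j • p = p := Fin.ext ((f_apply hH _ p).trans (Nat.eq_of_beq_eq_true (hh.2 _ hp)))
    show Nat.beq _ _ = true
    rw [← f_apply hH, ← mul_smul, ← hx _ hq, mul_smul, hfp]
    exact Nat.beq_refl _
  · exact h0

theorem stronglyClosed_trivial {T : Subgroup H} (hT : T ≤ syl hH)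
    (hcl : ∀ x ∈ T, ∀ w : H, w * x * w⁻¹ ∈ syl hH → w * x * w⁻¹ ∈ T) : T = ⊥ ∨ T = syl hH := by
  by_cases hb : T = ⊥
  · exact Or.inl hb
  right
  obtain ⟨x, hxT, hx1⟩ := (Subgroup.bot_or_exists_ne_one T).resolve_left hb
  have hz : ∀ n, ∀ j, j < 128 → j ≠ 0 → rank j = n → f hH j ∈ T → z hH ∈ T := by
    intro n
    induction n using Nat.strongRecOn with
    | _ n ih =>
      intro j hj hj0 hn hjT
      by_cases hjz : j = zElt
      · exact (z_facts hH).1 ▸ hjz ▸ hjT
      obtain ⟨a, c, ha, hc, hc0, hr, e⟩ := step_down hH hj hj0 hjz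
      refine ih (rank c) (hn ▸ hr) c hc hc0 rfl ?_
      have h1 : g hH a * f hH j * (g hH a)⁻¹ ∈ T :=
        hcl _ hjT _ (mul_mem (mul_mem (g_mem_syl hH ha) (hT hjT)) (inv_mem (g_mem_syl hH ha)))
      have : f hH c = g hH a * f hH j * (g hH a)⁻¹ * (f hH j)⁻¹ := by rw [e]; group
      rw [this]
      exact mul_mem h1 (inv_mem hjT)
  obtain ⟨j, hj, rfl⟩ := (mem_syl_iff hH).mp (hT hxT)
  have hzT := hz _ j hj (by rintro rfl; exact hx1 (f_zero hH)) rfl hxT
  refine le_antisymm hT ?_
  have h := zConj_ok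
  simp only [Bool.and_eq_true, List.all_eq_true, List.contains_iff_mem] at h
  obtain ⟨⟨⟨⟨⟨hz', hlen⟩, hmem⟩, h0⟩, h1⟩, h2⟩ := h
  have hjs : ∀ k ∈ zConj.map Prod.fst, f hH k ∈ T := by
    intro k hk
    obtain ⟨p, hp, rfl⟩ := List.mem_map.mp hk
    have hw := wOK_misc.2.2.2.2.2 p hp
    have e := el_eq hH (by rw [wOK_append, wOK_misc.1, hw]; rfl) (by rw [wOK_append, wOK_wS, hw]; rfl) (hz' p hp).2
    rw [el_append, el_append] at e
    have : el hH p.2 * z hH * (el hH p.2)⁻¹ = f hH p.1 := by rw [z, e, mul_inv_cancel_right]; rfl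
    rw [← this]
    exact hcl _ hzT _ (this ▸ f_mem_syl hH _)
  have hlist : ∀ l : List Nat, (∀ k ∈ l, k ∈ zConj.map Prod.fst) → el hH (wQ l) ∈ T := by
    intro l hl
    induction l with
    | nil => exact one_mem _
    | cons a l ih =>
      show el hH (wS a ++ wQ l) ∈ _
      rw [el_append]
      exact mul_mem (ih fun k hk => hl k (List.mem_cons_of_mem _ hk)) (hjs a (hl a List.mem_cons_self))
  have hg : ∀ a, a < 3 → eqB (wQ (gFromConj.getD a [])) (gw a) = true → g hH a ∈ T := by
    intro a ha he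
    rw [g, ← el_eq hH (wOK_wQ _) (wOK_gw a) he]
    exact hlist _ fun k hk => hmem _ (getD_mem' (by rw [Nat.eq_of_beq_eq_true hlen]; exact ha)) k hk
  rw [syl, Subgroup.closure_le]
  rintro s (rfl | rfl | rfl)
  exacts [hg 0 (by norm_num) h0, hg 1 (by norm_num) h1, hg 2 (by norm_num) h2]

include hH in
/-- The 2-fusion system of a group isomorphic to the permutation group. -/
theorem isSimple_of_equiv {G : Type*} [Group G] [Finite G] (e : H ≃* G) (S : Sylow 2 G) :
    (Cfsg.groupFusionSystem (S : Subgroup G)).IsSimple 2 := by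
  have hcardG : (Nat.card G).factorization 2 = 7 := by
    rw [← Nat.card_congr e.toEquiv, hH.card, show (50232960 : ℕ) = 2 ^ 7 * 392445 by norm_num,
      Nat.factorization_mul (by norm_num) (by norm_num),
      Finsupp.add_apply, Nat.prime_two.factorization_pow, Finsupp.single_eq_same,
      Nat.factorization_eq_zero_of_not_dvd (show ¬ 2 ∣ 392445 by norm_num)]
  have hc : Nat.card ((syl hH).map e.toMonoidHom) = 2 ^ (Nat.card G).factorization 2 := by
    rw [hcardG, Subgroup.card_map_of_injective e.injective, card_syl hH]; norm_num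
  obtain ⟨P, hP⟩ : ∃ P : Sylow 2 G, (P : Subgroup G) = (syl hH).map e.toMonoidHom :=
    ⟨Sylow.ofCard _ hc, rfl⟩
  obtain ⟨w, hw⟩ := MulAction.exists_smul_eq G P S
  let E : H ≃* G := e.trans (MulAut.conj w)
  have hS : (S : Subgroup G) = (syl hH).map E.toMonoidHom := by
    rw [← hw, Sylow.coe_subgroup_smul, hP, Subgroup.pointwise_smul_def]
    exact Subgroup.map_map (syl hH) (MulAut.conj w).toMonoidHom e.toMonoidHom
  have hmem : ∀ x : H, E x ∈ (S : Subgroup G) ↔ x ∈ syl hH := fun x => by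
    rw [hS]
    exact ⟨fun ⟨y, hy, he⟩ => E.injective he ▸ hy, fun h => ⟨x, h, rfl⟩⟩
  have hnorm : ∀ v : H, E v ∈ Subgroup.normalizer ((S : Subgroup G) : Set G) →
      v ∈ Subgroup.normalizer (syl hH : Set H) := by
    intro v hv
    rw [Subgroup.mem_normalizer_iff]
    intro k
    have h1 := Subgroup.mem_normalizer_iff.mp hv (E k)
    rwa [← map_inv, ← map_mul, ← map_mul, hmem, hmem] at h1
  refine NormalSubsystem.isSimple S ?_ ?_ (P := (subQ hH).map E.toMonoidHom) ?_ ?_ ?_ ?_
  · intro hb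
    have h1 := (hmem _).mpr (z_facts hH).2.1
    rw [hb, Subgroup.mem_bot, E.map_eq_one_iff, (z_facts hH).1] at h1
    have h := z_ok
    simp only [Bool.and_eq_true, Bool.not_eq_true', Nat.blt_eq] at h
    exact f_ne_one hH h.1.1.1.1.1.1 (Nat.ne_of_beq_eq_false h.1.1.1.1.1.2) h1
  · intro T hT
    rcases stronglyClosed_trivial hH (T := T.comap E.toMonoidHom) (fun x hx => (hmem x).mp (hT.1 hx))
      (fun x hx v hv => by
        have hy : E x ∈ T := hx
        show E (v * x * v⁻¹) ∈ T
        have he : E (v * x * v⁻¹) = E v * E x * (E v)⁻¹ := by rw [map_mul, map_mul, map_inv]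
        rw [he]
        have hle : Subgroup.zpowers (E x) ≤ T := Subgroup.zpowers_le.mpr hy
        refine hT.2 _ hle (Cfsg.conjHom (Subgroup.zpowers (E x)) (E v)) ?_ ⟨E x, Subgroup.mem_zpowers _⟩
        refine ⟨hle.trans hT.1, ?_, E v, fun _ => rfl⟩
        rintro ⟨_, n, rfl⟩
        show E v * E x ^ n * (E v)⁻¹ ∈ (S : Subgroup G)
        rw [← conj_zpow]
        exact zpow_mem (he ▸ (hmem _).mpr hv) n) with h | h
    · left
      rw [← Subgroup.map_comap_eq_self_of_surjective (f := E.toMonoidHom) E.surjective T, h, Subgroup.map_bot]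
    · right
      rw [← Subgroup.map_comap_eq_self_of_surjective (f := E.toMonoidHom) E.surjective T, h, hS]
  · rw [hS]; exact Subgroup.map_mono (subQ_le hH)
  · intro v hv x hx
    obtain ⟨y, hy, rfl⟩ := hx
    obtain ⟨v, rfl⟩ := E.surjective v
    exact ⟨_, normalizer_normQ hH (hnorm v hv) y hy, by simp⟩
  · intro v hv
    obtain ⟨v, rfl⟩ := E.surjective v
    exact (hmem v).mpr (centralizer_Q hH fun y hy => E.injective (by
      rw [map_mul, map_mul]; exact hv _ ⟨y, hy, rfl⟩))
  · intro v hv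
    obtain ⟨v, rfl⟩ := E.surjective v
    have h1 := Subgroup.mem_map_of_mem E.toMonoidHom (normalizer_le hH (hnorm v hv))
    rw [MonoidHom.map_closure] at h1
    refine Subgroup.closure_mono ?_ h1
    rintro _ ⟨x, ⟨hx, k, hk⟩, rfl⟩
    refine ⟨?_, k, by rw [← map_pow, hk, map_one]⟩
    rintro _ ⟨y, hy, rfl⟩
    exact ⟨_, hx y hy, by simp⟩

open Cfsg.Spor in
/-- The 2-fusion system of J3 is simple. -/
theorem isSimple_of_isoJ3 {G : Type*} [Group G] [Finite G] (hG : IsoJ3 G) (S : Sylow 2 G) :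
    (Cfsg.groupFusionSystem (S : Subgroup G)).IsSimple 2 := by
  obtain ⟨F, _, _, ω, hF, hω, ⟨e⟩⟩ := hG
  have := charP_two_of_card_four F hF
  obtain ⟨H, hH, ⟨e'⟩⟩ := exists_act hω
  exact isSimple_of_equiv hH (e.trans e').symm S

end CfsgLib.FusionExamples.J3Fusion
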