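import Cfsg.Agent.Lib.FusionExamples.PSLThree
import Cfsg.Agent.Lib.ClassicalForms.Unitary.Simple
import Cfsg.Agent.Lib.ClassicalForms.Unitary.Center

/-!
Sylow 2-subgroups and involutions of `PSU(3,q)`, `q` odd.
-/

set_option autoImplicit false

namespace CfsgLib.FusionExamples.PSUThree

open Matrix CfsgLib.TwoFusion.PSLThree CfsgLib.ClassicalForms CfsgLib.Geometric

variable {F : Type*} [Field F] [Fintype F] {q : ℕ}

theorem natCard_eq (hF : Fintype.card F = q ^ 2) : Nat.card F = q ^ 2 := by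
  rw [Nat.card_eq_fintype_card, hF]

theorem two_ne_zero_of_sq (hF : Fintype.card F = q ^ 2) (hodd : q % 2 = 1) : (2 : F) ≠ 0 :=
  PSLThree.two_ne_zero_of_odd (by rw [hF, Nat.pow_mod, hodd])

theorem commutator_eq_top (hF : Fintype.card F = q ^ 2) (hodd : q % 2 = 1) :
    commutator (Cfsg.PSU 3 F q) = ⊤ := by
  have : Group.IsPerfect (Cfsg.SU 3 F q) :=
    ⟨commutator_su_eq_top hF le_rfl (fun h => by omega)⟩
  have : Group.IsPerfect (Cfsg.PSU 3 F q) := inferInstance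
  exact this.commutator_eq_top

theorem odd_card_center (hF : Fintype.card F = q ^ 2) :
    Odd (Nat.card (Subgroup.center (Cfsg.SU 3 F q))) := by
  rw [card_center_su (natCard_eq hF) (by norm_num)]
  exact Odd.of_dvd_nat (by decide : Odd 3) (Nat.gcd_dvd_left _ _)

/-- The block embedding `a ↦ diag((det a)⁻¹, a)` restricted to the unitary groups. -/
theorem blockHom_mem (c : Conj F q) (a : Cfsg.GU 2 F q) :
    blockHom F (a : GL (Fin 2) F) ∈ Cfsg.SU 3 F q := by
  set r := (a : GL (Fin 2) F) with hr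
  intro u v
  have hd : ((r : Matrix (Fin 2) (Fin 2) F).det)⁻¹ *
      (((r : Matrix (Fin 2) (Fin 2) F).det)⁻¹) ^ q = 1 := by
    have h := det_gu_norm c a
    rw [c.apply] at h
    rw [inv_pow, ← mul_inv, h, inv_one]
  have h2 := a.2 ![u 1, u 2] ![v 1, v 2]
  simp [Cfsg.hermForm, Fin.sum_univ_two, Matrix.mulVec, dotProduct] at h2
  show Cfsg.hermForm 3 F q ((blockHom F r : Matrix (Fin 3) (Fin 3) F) *ᵥ u)
    ((blockHom F r : Matrix (Fin 3) (Fin 3) F) *ᵥ v) = _
  rw [coe_blockHom]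
  simp [Cfsg.hermForm, Fin.sum_univ_three, Matrix.mulVec, dotProduct]
  rw [← hr] at h2
  simp only [← c.apply, map_add, map_mul] at h2 hd ⊢
  linear_combination h2 + (u 0 * c.σ (v 0)) * hd

/-- The map `GU₂ → PSU₃`. -/
noncomputable def guToPSU (c : Conj F q) : Cfsg.GU 2 F q →* Cfsg.PSU 3 F q :=
  (QuotientGroup.mk' (Subgroup.center (Cfsg.SU 3 F q))).comp
    (((blockHom F).comp (Cfsg.GU 2 F q).subtype).codRestrict (Cfsg.SU 3 F q) (blockHom_mem c))

theorem card_relation (hF : Fintype.card F = q ^ 2) (hodd : q % 2 = 1) :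
    ∃ m n : ℕ, ¬ 2 ∣ m ∧ ¬ 2 ∣ n ∧
      Nat.card (Cfsg.PSU 3 F q) * n = Nat.card (Cfsg.GU 2 F q) * m := by
  refine ⟨q ^ 2 * (q * (q - 1) + 1), Nat.gcd 3 (q + 1), ?_, ?_, ?_⟩
  · have he : Even (q * (q - 1)) := by
      rw [Nat.even_mul, Nat.even_iff, Nat.even_iff]; omega
    rw [← even_iff_two_dvd, Nat.not_even_iff_odd]
    exact ((Nat.odd_iff.2 hodd).pow).mul he.add_one
  · rw [← even_iff_two_dvd, Nat.not_even_iff_odd]
    exact Odd.of_dvd_nat (by decide : Odd 3) (Nat.gcd_dvd_left _ _)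
  · have h := card_psu_mul (natCard_eq hF) (n := 3) (by norm_num)
    rw [card_gu (natCard_eq hF)] at h
    rw [card_gu (natCard_eq hF)]
    simp only [Finset.prod_range_succ, Finset.prod_range_zero] at h ⊢
    norm_num at h ⊢
    have hq : 2 ≤ q := two_le_q (natCard_eq hF)
    have e2 : 1 ≤ q ^ 2 := Nat.one_le_pow _ _ (by omega)
    refine Nat.eq_of_mul_eq_mul_left (show 0 < q + 1 by omega) ?_
    zify [show 1 ≤ q by omega, e2] at h ⊢
    linear_combination h

theorem nonempty_sylow_equiv_GU (hF : Fintype.card F = q ^ 2) (hodd : q % 2 = 1)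
    (P : Sylow 2 (Cfsg.GU 2 F q)) (S : Sylow 2 (Cfsg.PSU 3 F q)) :
    Nonempty (↥(P : Subgroup (Cfsg.GU 2 F q)) ≃* ↥(S : Subgroup (Cfsg.PSU 3 F q))) := by
  obtain ⟨c⟩ := exists_conj (natCard_eq hF)
  obtain ⟨m, n, hm, hn, h⟩ := card_relation hF hodd
  refine OddCentre.nonempty_sylow_equiv (guToPSU c) P (fun a ha hk => ?_) hm hn h S
  refine OddCentre.eq_one_of_mem_sylow P ha
    (k := Nat.card (Subgroup.center (Cfsg.SU 3 F q))) ?_ ?_
  · rw [← even_iff_two_dvd, Nat.not_even_iff_odd]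
    exact odd_card_center hF
  · refine Subtype.ext (PSLThree.blockHom_injective ?_)
    rw [Subgroup.coe_pow, map_pow, Subgroup.coe_one, map_one]
    have hmem : (⟨blockHom F (a : GL (Fin 2) F), blockHom_mem c a⟩ : Cfsg.SU 3 F q) ∈
        Subgroup.center (Cfsg.SU 3 F q) := (QuotientGroup.eq_one_iff _).1 hk
    exact congrArg Subtype.val (orderOf_dvd_iff_pow_eq_one.1 (Subgroup.orderOf_dvd_natCard _ hmem))

theorem isQuasiDihedral_or_isWreathed (hF : Fintype.card F = q ^ 2) (hodd : q % 2 = 1)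
    (S : Sylow 2 (Cfsg.PSU 3 F q)) :
    Cfsg.IsQuasiDihedral ↥(S : Subgroup (Cfsg.PSU 3 F q)) ∨
      Cfsg.IsWreathed ↥(S : Subgroup (Cfsg.PSU 3 F q)) := by
  classical
  have hq : 2 ≤ q := two_le_q (natCard_eq hF)
  obtain ⟨P⟩ : Nonempty (Sylow 2 (Cfsg.GU 2 F q)) := inferInstance
  obtain ⟨e⟩ := nonempty_sylow_equiv_GU hF hodd P S
  rcases (show q % 4 = 1 ∨ q % 4 = 3 by omega) with h | h
  · exact Or.inl (CfsgLib.TwoGroups.isQuasiDihedral_congr e
      (CfsgLib.TwoFusion.GLTwo.isQuasiDihedral_GU hF h (by omega) P))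
  · exact Or.inr (CfsgLib.TwoGroups.isWreathed_congr e
      (CfsgLib.TwoFusion.GLTwo.isWreathed_GU hF h P))

/-- An involution of `SU₃` is a reflection-like map determined by a unit vector. -/
theorem exists_unit_vector (hF : Fintype.card F = q ^ 2) (hodd : q % 2 = 1) (c : Conj F q)
    (T : Cfsg.SU 3 F q) (hT : T * T = 1) (hne : T ≠ 1) :
    ∃ v : Fin 3 → F, Cfsg.hermForm 3 F q v v = 1 ∧
      ∀ x, ap (suToGU T : GL (Fin 3) F) x = (2 * Cfsg.hermForm 3 F q x v) • v - x := by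
  have h2 := two_ne_zero_of_sq hF hodd
  obtain ⟨g, hg⟩ := PSLThree.exists_conj_D0 h2 (T : Matrix.SpecialLinearGroup (Fin 3) F)
    (congrArg Subtype.val hT) (fun h => hne (Subtype.ext h))
  set A := ((T : Matrix.SpecialLinearGroup (Fin 3) F) : Matrix (Fin 3) (Fin 3) F) with hA
  set G := (g : Matrix (Fin 3) (Fin 3) F) with hG
  set G' := ((g⁻¹ : Matrix.SpecialLinearGroup (Fin 3) F) : Matrix (Fin 3) (Fin 3) F) with hG'
  have e1 : G' * G = 1 :=
    (Matrix.SpecialLinearGroup.coe_mul g⁻¹ g).symm.trans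
      (congrArg (fun z : Matrix.SpecialLinearGroup (Fin 3) F => (z : Matrix (Fin 3) (Fin 3) F))
        (inv_mul_cancel g))
  have e2 : G * G' = 1 :=
    (Matrix.SpecialLinearGroup.coe_mul g g⁻¹).symm.trans
      (congrArg (fun z : Matrix.SpecialLinearGroup (Fin 3) F => (z : Matrix (Fin 3) (Fin 3) F))
        (mul_inv_cancel g))
  have hD : G' * A * G = D0 F := by
    rw [← hg, Matrix.SpecialLinearGroup.coe_mul, Matrix.SpecialLinearGroup.coe_mul]
  have hAG : A * G = G * D0 F := by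
    rw [← hD, ← mul_assoc, ← mul_assoc, e2, one_mul]
  set v := G *ᵥ Pi.single 0 1 with hv
  -- fixed vectors are multiples of `v`
  have hAv : A *ᵥ v = v := by
    rw [hv, mulVec_mulVec, hAG, ← mulVec_mulVec]
    congr 1
    funext i; fin_cases i <;> simp [D0, Matrix.mulVec_single_one]
  have hfix : ∀ x, A *ᵥ x = x → ∃ a : F, x = a • v := fun x hx => by
    have hy : D0 F *ᵥ (G' *ᵥ x) = G' *ᵥ x := by
      rw [mulVec_mulVec, ← hD, mul_assoc, mul_assoc, e2, mul_one, ← mulVec_mulVec, hx]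
    set y := G' *ᵥ x with hy'
    have hz : ∀ w : F, -w = w → w = 0 := fun w hw => by
      have : (2 : F) * w = 0 := by linear_combination -hw
      exact (mul_eq_zero.1 this).resolve_left h2
    have hy1 : y 1 = 0 := hz _ (by simpa [D0, Matrix.mulVec, dotProduct, Fin.sum_univ_three] using congrFun hy 1)
    have hy2 : y 2 = 0 := hz _ (by simpa [D0, Matrix.mulVec, dotProduct, Fin.sum_univ_three] using congrFun hy 2)
    refine ⟨y 0, ?_⟩
    have hye : y = y 0 • Pi.single 0 1 := by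
      funext i; fin_cases i <;> simp [hy1, hy2]
    rw [hv, ← mulVec_smul, ← hye, hy', mulVec_mulVec, e2, one_mulVec]
  have hAA : ∀ x, A *ᵥ (A *ᵥ x) = x := fun x => by
    rw [mulVec_mulVec, hA, ← Matrix.SpecialLinearGroup.coe_mul, ← Subgroup.coe_mul, hT]
    simp
  have happ : ∀ x, ap (suToGU T : GL (Fin 3) F) x = A *ᵥ x := fun x => rfl
  have hherm : ∀ x y, Cfsg.hermForm 3 F q (A *ᵥ x) (A *ᵥ y) = Cfsg.hermForm 3 F q x y :=
    fun x y => gu_apply (suToGU T) x y
  -- the decomposition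
  have key : ∀ x, ∃ a : F, x + A *ᵥ x = a • v ∧
      2 * Cfsg.hermForm 3 F q x v = a * Cfsg.hermForm 3 F q v v := fun x => by
    obtain ⟨a, ha⟩ := hfix (x + A *ᵥ x) (by rw [mulVec_add, hAA, add_comm])
    refine ⟨a, ha, ?_⟩
    have h1 : Cfsg.hermForm 3 F q (x + A *ᵥ x) v = a * Cfsg.hermForm 3 F q v v := by
      rw [ha, c.smul_left]
    have h3 : Cfsg.hermForm 3 F q (A *ᵥ x) v = Cfsg.hermForm 3 F q x v := by
      conv_lhs => rw [← hAv]
      exact hherm x v
    rw [c.add_left, h3] at h1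
    linear_combination h1
  have hvv : Cfsg.hermForm 3 F q v v ≠ 0 := by
    intro h0
    have hzero : ∀ x, Cfsg.hermForm 3 F q x v = Cfsg.hermForm 3 F q x 0 := fun x => by
      obtain ⟨a, -, ha⟩ := key x
      rw [h0, mul_zero] at ha
      rw [c.zero_right]
      exact (mul_eq_zero.1 ha).resolve_left h2
    have : v = 0 := c.ext_right fun x => by
      rw [c.herm_symm x v, c.herm_symm x 0, hzero]
    have h := congrArg (fun w => G' *ᵥ w) this
    simp only [hv, mulVec_mulVec, e1, one_mulVec, mulVec_zero] at h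
    exact one_ne_zero (α := F) (by simpa using congrFun h 0)
  obtain ⟨l, hl⟩ := c.exists_norm (d := (Cfsg.hermForm 3 F q v v)⁻¹)
    (by rw [map_inv₀, c.herm_self])
  have hl1 : Cfsg.hermForm 3 F q (l • v) (l • v) = 1 := by
    rw [c.smul_left, c.smul_right, ← mul_assoc, hl, inv_mul_cancel₀ hvv]
  refine ⟨l • v, hl1, fun x => ?_⟩
  obtain ⟨a, ha, ha'⟩ := key x
  rw [happ, eq_sub_iff_add_eq, add_comm, ha, smul_smul]
  congr 1
  rw [c.smul_right]
  calc a = a * Cfsg.hermForm 3 F q v v * (Cfsg.hermForm 3 F q v v)⁻¹ := by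
        rw [mul_inv_cancel_right₀ hvv]
    _ = _ := by rw [← ha', ← hl]; ring

theorem isConj_involutions (hF : Fintype.card F = q ^ 2) (hodd : q % 2 = 1)
    (S T : Cfsg.SU 3 F q) (hS : S * S = 1) (hS1 : S ≠ 1) (hT : T * T = 1) (hT1 : T ≠ 1) :
    IsConj S T := by
  obtain ⟨c⟩ := exists_conj (natCard_eq hF)
  obtain ⟨v, hv, hSv⟩ := exists_unit_vector hF hodd c S hS hS1
  obtain ⟨w, hw, hTw⟩ := exists_unit_vector hF hodd c T hT hT1
  obtain ⟨k, hk⟩ := exists_gu_move (natCard_eq hF) hv hw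
  set d : F := ((guDet 3 F q k : Fˣ) : F) with hd
  have hd0 : d ≠ 0 := Units.ne_zero _
  have hdn : d * c.σ d = 1 := by rw [hd]; exact det_gu_norm c k
  have hk' : 1 + (d⁻¹ - 1) * Cfsg.hermForm 3 F q v v ≠ 0 := by
    rw [hv, mul_one, add_sub_cancel]; exact inv_ne_zero hd0
  have hkk : (d⁻¹ - 1) + c.σ (d⁻¹ - 1) + (d⁻¹ - 1) * c.σ (d⁻¹ - 1) * Cfsg.hermForm 3 F q v v = 0 := by
    have e : d⁻¹ * c.σ d⁻¹ = 1 := by rw [map_inv₀, ← mul_inv, hdn, inv_one]
    rw [hv, map_sub, map_one]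
    linear_combination e
  obtain ⟨k', hdet, hk'v⟩ : ∃ k' : Cfsg.GU 3 F q, guDet 3 F q k' = 1 ∧
      ap (k' : GL (Fin 3) F) v = d⁻¹ • w := by
    refine ⟨k * pref c v (d⁻¹ - 1) hk' hkk, Units.ext ?_, ?_⟩
    · rw [map_mul, Units.val_mul, det_pref, hv, mul_one, add_sub_cancel, ← hd, mul_inv_cancel₀ hd0]
      rfl
    · rw [Subgroup.coe_mul, ap_mul, ap_pref, hv, mul_one, ap_add, ap_smul, hk]
      module
  refine isConj_iff.2 ⟨suOfGU k' hdet, ?_⟩
  rw [mul_inv_eq_iff_eq_mul]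
  refine suToGU_injective ?_
  rw [map_mul, map_mul, suToGU_suOfGU]
  refine gu_ext fun x => ?_
  rw [Subgroup.coe_mul, Subgroup.coe_mul, ap_mul, ap_mul, hSv, hTw, ap_sub, ap_smul, hk'v,
    smul_smul]
  congr 2
  have h := gu_apply k' x v
  rw [hk'v, c.smul_right] at h
  rw [← h]
  have e : d⁻¹ * c.σ d⁻¹ = 1 := by rw [map_inv₀, ← mul_inv, hdn, inv_one]
  linear_combination (2 * Cfsg.hermForm 3 F q (ap (k' : GL (Fin 3) F) x) w) * e

theorem isConj_of_orderOf_two (hF : Fintype.card F = q ^ 2) (hodd : q % 2 = 1)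
    (a b : Cfsg.PSU 3 F q) (ha : orderOf a = 2) (hb : orderOf b = 2) : IsConj a b := by
  obtain ⟨A, rfl, hA⟩ := OddCentre.exists_lift_sq_eq_one _ (odd_card_center hF) a
    (by rw [← pow_two, ← ha, pow_orderOf_eq_one])
  obtain ⟨B, rfl, hB⟩ := OddCentre.exists_lift_sq_eq_one _ (odd_card_center hF) b
    (by rw [← pow_two, ← hb, pow_orderOf_eq_one])
  refine (QuotientGroup.mk' _).map_isConj (isConj_involutions hF hodd A B hA ?_ hB ?_)
  · rintro rfl; rw [map_one, orderOf_one] at ha; omega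
  · rintro rfl; rw [map_one, orderOf_one] at hb; omega

end CfsgLib.FusionExamples.PSUThree
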